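import Cfsg.Agent.FGS.AH.Defs

/-! Sums of reciprocals of 7-smooth numbers: the tools and the cases without the prime five. -/

set_option autoImplicit false

namespace CL.AH

open Subgroup Cfsg

variable {C : Finset ℕ}

/-- `S` is a set of exponents with `∑ p⁻¹ ^ a ≤ α` -/
def Geo (p : ℕ) (S : ℕ → Prop) (α : ℝ) : Prop := ∀ s : Finset ℕ, (∀ a ∈ s, S a) → ∑ a ∈ s, ((p : ℝ)⁻¹) ^ a ≤ α

theorem Geo.nonneg {p : ℕ} {S : ℕ → Prop} {α : ℝ} (h : Geo p S α) : 0 ≤ α := by
  simpa using h ∅ (by simp)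

/-- the tail of the geometric series (`Summable.sum_le_tsum`, or `s ⊆ Finset.Ico k N` and `geom_sum_Ico_le_of_lt_one`) -/
theorem geo_ge {p : ℕ} (hp : 2 ≤ p) (k : ℕ) : Geo p (k ≤ ·) (((p : ℝ)⁻¹) ^ k / (1 - (p : ℝ)⁻¹)) := by
  intro s hs
  have h0 : (0 : ℝ) ≤ (p : ℝ)⁻¹ := by positivity
  have h1 : (p : ℝ)⁻¹ < 1 := inv_lt_one_of_one_lt₀ (by exact_mod_cast hp)
  refine le_trans (Finset.sum_le_sum_of_subset_of_nonneg (t := Finset.Ico k (s.sup id + 1))
    (fun a ha => Finset.mem_Ico.2 ⟨hs a ha, Nat.lt_succ_of_le (Finset.le_sup (f := id) ha)⟩)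
    fun _ _ _ => by positivity) (geom_sum_Ico_le_of_lt_one h0 h1)

theorem geo_lt (p k : ℕ) : Geo p (· < k) (∑ a ∈ Finset.range k, ((p : ℝ)⁻¹) ^ a) := fun _ hs =>
  Finset.sum_le_sum_of_subset_of_nonneg (fun a ha => Finset.mem_range.2 (hs a ha))
    fun _ _ _ => by positivity

theorem geo_eq (p k : ℕ) : Geo p (· = k) (((p : ℝ)⁻¹) ^ k) := fun s hs => by
  have := Finset.sum_le_sum_of_subset_of_nonneg (s := s) (t := {k}) (f := fun a => ((p : ℝ)⁻¹) ^ a)
    (fun a ha => Finset.mem_singleton.2 (hs a ha)) fun _ _ _ => by positivity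
  simpa using this

/-- exponent different from one -/
theorem geo_ne_one {p : ℕ} (hp : 2 ≤ p) : Geo p (· ≠ 1) (1 + ((p : ℝ)⁻¹) ^ 2 / (1 - (p : ℝ)⁻¹)) := by
  intro s hs
  rw [← Finset.sum_filter_add_sum_filter_not s (· = 0)]
  refine add_le_add ?_ (geo_ge hp 2 _ fun a ha => ?_)
  · simpa using geo_eq p 0 _ fun a ha => (Finset.mem_filter.1 ha).2
  · have h1 := hs a (Finset.mem_filter.1 ha).1
    have h2 := (Finset.mem_filter.1 ha).2
    omega

theorem Sm.eq {c : ℕ} (h : Sm c) :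
    c = 2 ^ c.factorization 2 * 3 ^ c.factorization 3 * 5 ^ c.factorization 5 * 7 ^ c.factorization 7 := by
  have e := Nat.factorization_prod_pow_eq_self h.1
  rw [Finsupp.prod_of_support_subset _ (s := {2, 3, 5, 7}) _ _ (fun _ _ => pow_zero _)] at e
  · rw [Finset.prod_insert (by decide), Finset.prod_insert (by decide), Finset.prod_pair (by decide)] at e
    rw [mul_assoc, mul_assoc, e]
  · intro p hp
    have hp' := Nat.prime_of_mem_primeFactors (Nat.support_factorization c ▸ hp)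
    have h7 := h.2 p hp' (Nat.dvd_of_mem_primeFactors (Nat.support_factorization c ▸ hp))
    have h2 := hp'.two_le
    interval_cases p <;> first | decide | exact absurd hp' (by decide)

/-- The Euler product.  `c = 2 ^ a 3 ^ b 5 ^ d 7 ^ e` with the exponents `c.factorization p`; the map to the exponents is injective on
`C` with image inside the product of the four images; `Finset.sum_product`, `Finset.sum_mul_sum`. -/
theorem rs_le (hC : ∀ c ∈ C, Sm c) {S2 S3 S5 S7 : ℕ → Prop} {α β γ δ : ℝ} (h2 : Geo 2 S2 α) (h3 : Geo 3 S3 β)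
    (h5 : Geo 5 S5 γ) (h7 : Geo 7 S7 δ)
    (hS : ∀ c ∈ C, S2 (c.factorization 2) ∧ S3 (c.factorization 3) ∧ S5 (c.factorization 5) ∧ S7 (c.factorization 7)) :
    Rs C ≤ α * β * γ * δ := by
  classical
  let f : ℕ → ((ℕ × ℕ) × ℕ) × ℕ := fun c =>
    (((c.factorization 2, c.factorization 3), c.factorization 5), c.factorization 7)
  let g : ((ℕ × ℕ) × ℕ) × ℕ → ℝ := fun x =>
    ((2 : ℕ) : ℝ)⁻¹ ^ x.1.1.1 * ((3 : ℕ) : ℝ)⁻¹ ^ x.1.1.2 * ((5 : ℕ) : ℝ)⁻¹ ^ x.1.2 * ((7 : ℕ) : ℝ)⁻¹ ^ x.2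
  have hf : Set.InjOn f C := fun a ha b hb e => by
    simp only [f, Prod.mk.injEq] at e
    rw [(hC a ha).eq, (hC b hb).eq, e.1.1.1, e.1.1.2, e.1.2, e.2]
  have e1 : Rs C = ∑ x ∈ C.image f, g x := by
    rw [Finset.sum_image hf]
    refine Finset.sum_congr rfl fun c hc => ?_
    conv_lhs => rw [(hC c hc).eq]
    simp only [f, g, Nat.cast_mul, Nat.cast_pow, mul_inv, inv_pow]
  have e2 : ∑ x ∈ C.image f, g x ≤ ∑ x ∈ (((C.image (·.factorization 2)) ×ˢ (C.image (·.factorization 3))) ×ˢ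
      (C.image (·.factorization 5))) ×ˢ (C.image (·.factorization 7)), g x := by
    refine Finset.sum_le_sum_of_subset_of_nonneg (fun x hx => ?_) fun _ _ _ => by positivity
    obtain ⟨c, hc, rfl⟩ := Finset.mem_image.1 hx
    simp only [Finset.mem_product, f]
    exact ⟨⟨⟨Finset.mem_image_of_mem _ hc, Finset.mem_image_of_mem _ hc⟩,
      Finset.mem_image_of_mem _ hc⟩, Finset.mem_image_of_mem _ hc⟩
  have k2 := h2 (C.image (·.factorization 2)) fun a ha => by
    obtain ⟨c, hc, rfl⟩ := Finset.mem_image.1 ha; exact (hS c hc).1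
  have k3 := h3 (C.image (·.factorization 3)) fun a ha => by
    obtain ⟨c, hc, rfl⟩ := Finset.mem_image.1 ha; exact (hS c hc).2.1
  have k5 := h5 (C.image (·.factorization 5)) fun a ha => by
    obtain ⟨c, hc, rfl⟩ := Finset.mem_image.1 ha; exact (hS c hc).2.2.1
  have k7 := h7 (C.image (·.factorization 7)) fun a ha => by
    obtain ⟨c, hc, rfl⟩ := Finset.mem_image.1 ha; exact (hS c hc).2.2.2
  have n2 := h2.nonneg
  have n3 := h3.nonneg
  have n5 := h5.nonneg
  refine e1.le.trans (e2.trans ?_)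
  simp only [g, Finset.sum_product, ← Finset.mul_sum, ← Finset.sum_mul]
  gcongr

theorem rs_union {X : Finset ℕ} (h : Disjoint C X) : Rs (C ∪ X) = Rs C + Rs X := Finset.sum_union h

theorem rs_split (P : ℕ → Prop) [DecidablePred P] : Rs C = Rs (C.filter P) + Rs (C.filter fun c => ¬ P c) :=
  (Finset.sum_filter_add_sum_filter_not C P _).symm

theorem sm_of_dvd {c : ℕ} (n : ℕ) (h : c ∣ 210 ^ n) : Sm c := by
  refine ⟨fun e => by simp [e] at h, fun p hp hd => ?_⟩
  have h1 : p ∣ 2 * 3 * 5 * 7 := hp.dvd_of_dvd_pow (hd.trans h)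
  simp only [hp.dvd_mul] at h1
  rcases h1 with ((h1 | h1) | h1) | h1 <;> have := Nat.le_of_dvd (by norm_num) h1 <;> omega

theorem fac_zero {c p : ℕ} (h : ¬ p ∣ c) : c.factorization p = 0 := Nat.factorization_eq_zero_of_not_dvd h

theorem fac_lt {c p k : ℕ} (hp : p.Prime) (hc : c ≠ 0) (h : ¬ p ^ k ∣ c) : c.factorization p < k :=
  lt_of_not_ge fun e => h ((hp.pow_dvd_iff_le_factorization hc).2 e)

/-- the bound after adding the finite set `X` -/
theorem rs_add_le {X : Finset ℕ} (hd : ∀ c ∈ X, c ∉ C) {S2 S7 : ℕ → Prop} {α δ : ℝ} (h2 : Geo 2 S2 α)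
    (h7 : Geo 7 S7 δ)
    (hS : ∀ c, c ∈ C ∨ c ∈ X → Sm c ∧ ¬ 5 ∣ c ∧ S2 (c.factorization 2) ∧ S7 (c.factorization 7)) :
    Rs C + Rs X ≤ α * (3 / 2) * δ := by
  have h := rs_le (C := C ∪ X) (fun c hc => (hS c (Finset.mem_union.1 hc)).1) h2
    (geo_ge (p := 3) (by norm_num) 0) (geo_eq 5 0) h7 fun c hc => by
      obtain ⟨-, a, b, d⟩ := hS c (Finset.mem_union.1 hc)
      exact ⟨b, Nat.zero_le _, fac_zero a, d⟩
  rw [rs_union (Finset.disjoint_right.2 fun c hc => hd c hc)] at h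
  refine h.trans (le_of_eq ?_)
  norm_num

/-- apply `rs_le` to `C ∪ {1, 2, 3, 4}`: `3 - 1 - 1/2 - 1/3 - 1/4 < 1` -/
theorem cnt1a (hC : ∀ c ∈ C, Sm c ∧ ¬ 5 ∣ c ∧ ¬ 7 ∣ c ∧ 3 ≤ c ∧ c ≠ 3 ∧ c ≠ 4) : Rs C < 1 := by
  have h := rs_add_le (C := C) (X := {1, 2, 3, 4}) (fun c hc h => by
      have := hC c h
      simp only [Finset.mem_insert, Finset.mem_singleton] at hc
      omega) (geo_ge (p := 2) le_rfl 0) (geo_eq 7 0) fun c hc => by
    rcases hc with hc | hc
    · obtain ⟨a, b, d, -⟩ := hC c hc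
      exact ⟨a, b, Nat.zero_le _, fac_zero d⟩
    · simp only [Finset.mem_insert, Finset.mem_singleton] at hc
      rcases hc with rfl | rfl | rfl | rfl <;>
        exact ⟨sm_of_dvd 2 (by norm_num), by norm_num, Nat.zero_le _, fac_zero (by norm_num)⟩
  have e : Rs {1, 2, 3, 4} = 25 / 12 := by simp [Rs]; norm_num
  rw [e] at h
  norm_num at h
  linarith

/-- `(15/8)(3/2) - 1 - 1/2 - 1/3 < 1` -/
theorem cnt1b (hC : ∀ c ∈ C, Sm c ∧ ¬ 5 ∣ c ∧ ¬ 7 ∣ c ∧ 3 ≤ c ∧ c ≠ 3 ∧ ¬ 16 ∣ c) : Rs C < 1 := by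
  have h := rs_add_le (C := C) (X := {1, 2, 3}) (fun c hc h => by
      have := hC c h
      simp only [Finset.mem_insert, Finset.mem_singleton] at hc
      omega) (geo_lt 2 4) (geo_eq 7 0) fun c hc => by
    rcases hc with hc | hc
    · obtain ⟨a, b, d, -, -, e⟩ := hC c hc
      exact ⟨a, b, fac_lt Nat.prime_two a.1 e, fac_zero d⟩
    · simp only [Finset.mem_insert, Finset.mem_singleton] at hc
      rcases hc with rfl | rfl | rfl <;>
        exact ⟨sm_of_dvd 2 (by norm_num), by norm_num, fac_lt Nat.prime_two (by norm_num) (by norm_num),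
          fac_zero (by norm_num)⟩
  have e : Rs {1, 2, 3} = 11 / 6 := by simp [Rs]; norm_num
  rw [e] at h
  norm_num [Finset.sum_range_succ] at h
  linarith

/-- The multiples of three contribute at most `1/3 + 1/6`.  The others are powers `2 ^ a`, `a ≥ 2`; some `2 ^ N` is not in `C`, apply `rs_le`
to the union with `{2 ^ N}` to get a sum `< 1/2`. -/
theorem cnt1c {n : ℕ} (hC : ∀ c ∈ C, Sm c ∧ ¬ 5 ∣ c ∧ ¬ 7 ∣ c ∧ 3 ≤ c ∧ (3 ∣ c → c = 3 ∨ c = n)) : Rs C < 1 := by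
  classical
  rw [rs_split (3 ∣ ·)]
  have h1 : Rs (C.filter (3 ∣ ·)) ≤ 1 / 2 := by
    by_cases hn : n ∈ C ∧ 3 ∣ n ∧ n ≠ 3
    · have h6 : 6 ≤ n := by
        have := hC n hn.1
        omega
      have h6' : (n : ℝ)⁻¹ ≤ 6⁻¹ := inv_anti₀ (by norm_num) (by exact_mod_cast h6)
      refine (Finset.sum_le_sum_of_subset_of_nonneg (t := {3, n}) (fun c hc => ?_)
        fun _ _ _ => by positivity).trans ?_
      · have := (hC c (Finset.mem_filter.1 hc).1).2.2.2.2 (Finset.mem_filter.1 hc).2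
        simpa using this
      · rw [Finset.sum_pair hn.2.2.symm]
        push_cast
        linarith
    · refine (Finset.sum_le_sum_of_subset_of_nonneg (t := {3}) (fun c hc => ?_)
        fun _ _ _ => by positivity).trans (by norm_num)
      obtain ⟨h1, h2⟩ := Finset.mem_filter.1 hc
      rcases (hC c h1).2.2.2.2 h2 with e | e
      · simpa using e
      · by_contra h3
        exact hn ⟨e ▸ h1, e ▸ h2, fun e' => h3 (by simp [e, e'])⟩
  have hN : 2 ^ (C.sup id + 2) ∉ C.filter fun c => ¬ 3 ∣ c := fun h => by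
    have h1 : 2 ^ (C.sup id + 2) ≤ C.sup id := Finset.le_sup (f := id) (Finset.mem_filter.1 h).1
    have h2 : C.sup id + 2 < 2 ^ (C.sup id + 2) := Nat.lt_two_pow_self
    omega
  have nd : ∀ p : ℕ, p.Prime → p ≠ 2 → ¬ p ∣ 2 ^ (C.sup id + 2) := fun p hp h2 h =>
    h2 ((Nat.prime_dvd_prime_iff_eq hp Nat.prime_two).1 (hp.dvd_of_dvd_pow h))
  have h := rs_le (C := C.filter (fun c => ¬ 3 ∣ c) ∪ {2 ^ (C.sup id + 2)}) (fun c hc => by
      rcases Finset.mem_union.1 hc with hc | hc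
      · exact (hC c (Finset.mem_filter.1 hc).1).1
      · rw [Finset.mem_singleton.1 hc]
        exact sm_of_dvd _ (pow_dvd_pow_of_dvd (by norm_num) _))
    (geo_ge (p := 2) le_rfl 2) (geo_eq 3 0) (geo_eq 5 0) (geo_eq 7 0) fun c hc => by
      rcases Finset.mem_union.1 hc with hc | hc
      · obtain ⟨h1, h3⟩ := Finset.mem_filter.1 hc
        obtain ⟨a, b, d, e, -⟩ := hC c h1
        refine ⟨?_, fac_zero h3, fac_zero b, fac_zero d⟩
        have := a.eq
        rw [fac_zero h3, fac_zero b, fac_zero d] at this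
        by_contra hlt
        have hlt' : c.factorization 2 < 2 := lt_of_not_ge hlt
        generalize c.factorization 2 = k at this hlt'
        interval_cases k <;> omega
      · rw [Finset.mem_singleton.1 hc]
        refine ⟨?_, fac_zero (nd 3 (by norm_num) (by norm_num)), fac_zero (nd 5 (by norm_num) (by norm_num)),
          fac_zero (nd 7 (by norm_num) (by norm_num))⟩
        rw [Nat.Prime.factorization_pow Nat.prime_two]
        simp
  rw [rs_union (Finset.disjoint_singleton_right.2 hN)] at h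
  have hp : 0 < Rs {2 ^ (C.sup id + 2)} := by
    rw [Rs, Finset.sum_singleton]
    positivity
  norm_num at h
  linarith

/-- `7/2 - (1 + 1/2 + 1/3 + 1/4 + 1/6)(1 + 1/7) < 1`; add `{1, 2, 3, 4, 6, 7, 14, 21, 28, 42}` -/
theorem cnt3a (hC : ∀ c ∈ C, Sm c ∧ ¬ 5 ∣ c ∧ 3 ≤ c ∧ c ≠ 3 ∧ c ≠ 6 ∧ (7 ∣ c → 49 ≤ c) ∧ c ≠ 4) : Rs C < 1 := by
  have h := rs_add_le (C := C) (X := {1, 2, 3, 4, 6, 7, 14, 21, 28, 42}) (fun c hc h => by
      have := hC c h
      simp only [Finset.mem_insert, Finset.mem_singleton] at hc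
      omega) (geo_ge (p := 2) le_rfl 0) (geo_ge (p := 7) (by norm_num) 0) fun c hc => by
    rcases hc with hc | hc
    · obtain ⟨a, b, -⟩ := hC c hc
      exact ⟨a, b, Nat.zero_le _, Nat.zero_le _⟩
    · simp only [Finset.mem_insert, Finset.mem_singleton] at hc
      rcases hc with rfl | rfl | rfl | rfl | rfl | rfl | rfl | rfl | rfl | rfl <;>
        exact ⟨sm_of_dvd 2 (by norm_num), by norm_num, Nat.zero_le _, Nat.zero_le _⟩
  have e : Rs {1, 2, 3, 4, 6, 7, 14, 21, 28, 42} = 18 / 7 := by simp [Rs]; norm_num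
  rw [e] at h
  norm_num at h
  linarith

/-- `(15/8)(3/2)(7/6)` minus the terms `{1, 2, 3, 6, 7, 14, 21, 28, 42}` -/
theorem cnt3b (hC : ∀ c ∈ C, Sm c ∧ ¬ 5 ∣ c ∧ 3 ≤ c ∧ c ≠ 3 ∧ c ≠ 6 ∧ (7 ∣ c → 49 ≤ c) ∧ ¬ 16 ∣ c) : Rs C < 1 := by
  have h := rs_add_le (C := C) (X := {1, 2, 3, 6, 7, 14, 21, 28, 42}) (fun c hc h => by
      have := hC c h
      simp only [Finset.mem_insert, Finset.mem_singleton] at hc
      omega) (geo_lt 2 4) (geo_ge (p := 7) (by norm_num) 0) fun c hc => by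
    rcases hc with hc | hc
    · obtain ⟨a, b, -, -, -, -, e⟩ := hC c hc
      exact ⟨a, b, fac_lt Nat.prime_two a.1 e, Nat.zero_le _⟩
    · simp only [Finset.mem_insert, Finset.mem_singleton] at hc
      rcases hc with rfl | rfl | rfl | rfl | rfl | rfl | rfl | rfl | rfl <;>
        exact ⟨sm_of_dvd 2 (by norm_num), by norm_num, fac_lt Nat.prime_two (by norm_num) (by norm_num),
          Nat.zero_le _⟩
  have e : Rs {1, 2, 3, 6, 7, 14, 21, 28, 42} = 65 / 28 := by simp [Rs]; norm_num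
  rw [e] at h
  norm_num [Finset.sum_range_succ] at h
  linarith

end CL.AH
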