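import Cfsg.Agent.FGS.AH.CntA

/-! Sums of reciprocals of 7-smooth numbers: the cases with the prime five. -/

set_option autoImplicit false

namespace CL.AH

open Subgroup Cfsg

variable {C : Finset ℕ}

/-- the conditions when seven does not divide the order -/
def K2 (c : ℕ) : Prop := Sm c ∧ ¬ 7 ∣ c ∧ 3 ≤ c ∧ c ≠ 3 ∧ c ≠ 6 ∧ (5 ∣ c → 25 ≤ c)

/-- the conditions when five and seven divide the order -/
def K4 (c : ℕ) : Prop := Sm c ∧ 3 ≤ c ∧ c ≠ 3 ∧ c ≠ 6 ∧ c ≠ 9 ∧ c ≠ 49 ∧ (5 ∣ c → 25 ≤ c) ∧ (7 ∣ c → 49 ≤ c) ∧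
  (5 ∣ c → ¬ 25 ∣ c → 2 ∣ c) ∧ (7 ∣ c → ¬ 49 ∣ c → 3 ∣ c)

namespace CB

theorem sm {c : ℕ} (h : c ≠ 0 ∧ c ∣ 210 ^ 3) : Sm c := ⟨h.1, fun p hp d => by
  have h1 : p ∣ 2 * 3 * 5 * 7 := hp.dvd_of_dvd_pow (d.trans h.2)
  rcases (hp.dvd_mul.1 h1) with h1 | h1
  · rcases (hp.dvd_mul.1 h1) with h1 | h1
    · rcases (hp.dvd_mul.1 h1) with h1 | h1 <;> exact (Nat.le_of_dvd (by norm_num) h1).trans (by norm_num)
    · exact (Nat.le_of_dvd (by norm_num) h1).trans (by norm_num)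
  · exact Nat.le_of_dvd (by norm_num) h1⟩

theorem fac {p c : ℕ} (hp : p.Prime) (h : Sm c) (k : ℕ) : k ≤ c.factorization p ↔ p ^ k ∣ c :=
  (hp.pow_dvd_iff_le_factorization h.1).symm

theorem mono {p : ℕ} {S S' : ℕ → Prop} {α β : ℝ} (h : Geo p S α) (hS : ∀ a, S' a → S a) (e : α ≤ β) :
    Geo p S' β := fun s hs => (h s fun a ha => hS a (hs a ha)).trans e

theorem add (P : ℕ → Prop) (β : ℝ) (bd : ∀ D : Finset ℕ, (∀ c ∈ D, Sm c ∧ P c) → Rs D ≤ β)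
    (l : List ℕ) (nd : l.Nodup) (hl : ∀ c ∈ l, (c ≠ 0 ∧ c ∣ 210 ^ 3) ∧ P c)
    (hC : ∀ c ∈ C, Sm c ∧ P c ∧ c ∉ l) : Rs C + (l.map fun c : ℕ => (c : ℝ)⁻¹).sum ≤ β := by
  rw [← List.sum_toFinset _ nd]
  refine le_trans (rs_union (X := l.toFinset) (Finset.disjoint_left.2 fun c hc hx =>
    (hC c hc).2.2 (List.mem_toFinset.1 hx))).ge (bd _ fun c hc => ?_)
  rcases Finset.mem_union.1 hc with h | h
  · exact ⟨(hC c h).1, (hC c h).2.1⟩
  · exact ⟨sm (hl c (List.mem_toFinset.1 h)).1, (hl c (List.mem_toFinset.1 h)).2⟩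

theorem one {D : Finset ℕ} {k b : ℕ} (hb : 0 < b) (h : ∀ c ∈ D, c = k ∧ b ≤ c) : Rs D ≤ (b : ℝ)⁻¹ := by
  rcases Finset.subset_singleton_iff.1 (show D ⊆ {k} from fun c hc =>
    Finset.mem_singleton.2 (h c hc).1) with rfl | rfl
  · simp [Rs]
  · rw [Rs, Finset.sum_singleton]
    exact inv_anti₀ (by exact_mod_cast hb) (by exact_mod_cast (h k (Finset.mem_singleton_self k)).2)

theorem eight {n m : ℕ} (hn : 120 ≤ n) (hC : ∀ c ∈ C, 3 ≤ c ∧ (8 ∣ c → c = n ∨ c = m)) :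
    Rs (C.filter (8 ∣ ·)) ≤ 1 / 120 + 1 / 8 := by
  rw [rs_split (· = n)]
  have h1 := one (D := (C.filter (8 ∣ ·)).filter (· = n)) (k := n) (b := 120) (by norm_num)
    fun c hc => by have := (Finset.mem_filter.1 hc).2; omega
  have h2 := one (D := (C.filter (8 ∣ ·)).filter fun c => ¬ c = n) (k := m) (b := 8) (by norm_num)
    fun c hc => by
      obtain ⟨a, b⟩ := Finset.mem_filter.1 hc
      obtain ⟨a, d⟩ := Finset.mem_filter.1 a
      have := hC c a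
      omega
  push_cast at h1 h2
  linarith

theorem g3 : Geo 3 (0 ≤ ·) (3 / 2) := mono (geo_ge (by norm_num) 0) (fun _ h => h) (by norm_num)
theorem g3' : Geo 3 (1 ≤ ·) (1 / 2) := mono (geo_ge (by norm_num) 1) (fun _ h => h) (by norm_num)
theorem g5 : Geo 5 (0 ≤ ·) (5 / 4) := mono (geo_ge (by norm_num) 0) (fun _ h => h) (by norm_num)
theorem g20 : Geo 2 (0 ≤ ·) 2 := mono (geo_ge le_rfl 0) (fun _ h => h) (by norm_num)
theorem g21 : Geo 2 (1 ≤ ·) 1 := mono (geo_ge le_rfl 1) (fun _ h => h) (by norm_num)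
theorem g22 : Geo 2 (2 ≤ ·) (1 / 2) := mono (geo_ge le_rfl 2) (fun _ h => h) (by norm_num)
theorem g2l : Geo 2 (· < 3) (7 / 4) :=
  mono (geo_lt 2 3) (fun _ h => h) (by norm_num [Finset.sum_range_succ])
theorem g2m : Geo 2 (fun a => a < 3 ∧ 1 ≤ a) (3 / 4) := fun s hs =>
  (Finset.sum_le_sum_of_subset_of_nonneg (t := {1, 2}) (fun a ha => by
    have := hs a ha
    simp only [Finset.mem_insert, Finset.mem_singleton]
    omega) fun _ _ _ => by positivity).trans (by norm_num)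

theorem b2 {S : ℕ → Prop} {α : ℝ} (h2 : Geo 2 S α) (P : ℕ → Prop)
    (hP : ∀ c, Sm c → P c → S (c.factorization 2)) (D : Finset ℕ)
    (hD : ∀ c ∈ D, Sm c ∧ ¬ 7 ∣ c ∧ P c) : Rs D ≤ α * (15 / 8) := by
  have := rs_le (fun c hc => (hD c hc).1) h2 g3 g5 (geo_eq 7 0) fun c hc =>
    ⟨hP c (hD c hc).1 (hD c hc).2.2, Nat.zero_le _, Nat.zero_le _,
      Nat.factorization_eq_zero_of_not_dvd (hD c hc).2.1⟩
  linarith

theorem f4 (c : ℕ) (h : Sm c) (d : 4 ∣ c) : 2 ≤ c.factorization 2 := (fac Nat.prime_two h 2).2 d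
theorem f8 (c : ℕ) (h : Sm c) (d : ¬ 8 ∣ c) : c.factorization 2 < 3 :=
  not_le.1 fun e => d ((fac Nat.prime_two h 3).1 e)

end CB

open CB

/-- `(1/2)(3/2)(5/4) - 1/4 < 3/4` -/
theorem cnt2a1 (hC : ∀ c ∈ C, K2 c ∧ c ≠ 4 ∧ 4 ∣ c) : Rs C < 3 / 4 := by
  have := add (C := C) _ _ (b2 g22 (4 ∣ ·) f4) [4] (by decide) (by decide) fun c hc => by
    obtain ⟨⟨h0, h⟩, h'⟩ := hC c hc
    refine ⟨h0, ?_⟩
    simp only [List.mem_cons, List.not_mem_nil, or_false]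
    omega
  norm_num at this
  linarith

/-- `15/4` minus the terms `{1, 2, 3, 4, 6, 5, 10, 15, 20, 25, 30, 40, 45}` (0.963) -/
theorem cnt2a2 (hC : ∀ c ∈ C, K2 c ∧ c ≠ 4 ∧ (5 ∣ c → 50 ≤ c)) : Rs C < 1 := by
  have := add (C := C) _ _ (b2 g20 (0 ≤ ·) fun _ _ _ => Nat.zero_le _)
    [1, 2, 3, 4, 6, 5, 10, 15, 20, 25, 30, 40, 45] (by decide) (by decide) fun c hc => by
    obtain ⟨⟨h0, h⟩, h'⟩ := hC c hc
    refine ⟨h0, ?_⟩
    simp only [List.mem_cons, List.not_mem_nil, or_false]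
    omega
  norm_num at this
  linarith

/-- the multiples of eight give at most `1/120 + 1/8`; the others `(7/4)(3/2)(5/4)` minus the terms `{1, 2, 3, 6, 5, 10, 15, 20}` (0.998) -/
theorem cnt2b {n m : ℕ} (hn : 120 ≤ n) (hC : ∀ c ∈ C, K2 c ∧ (8 ∣ c → c = n ∨ c = m)) : Rs C < 1 := by
  have h8 := eight (C := C) (m := m) hn fun c hc => ⟨(hC c hc).1.2.2.1, (hC c hc).2⟩
  have := add (C := C.filter fun c => ¬ 8 ∣ c) _ _ (b2 g2l (¬ 8 ∣ ·) f8)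
    [1, 2, 3, 6, 5, 10, 15, 20] (by decide) (by decide) fun c hc => by
    obtain ⟨hc, h8⟩ := Finset.mem_filter.1 hc
    obtain ⟨⟨h0, h⟩, -⟩ := hC c hc
    refine ⟨h0, ?_⟩
    simp only [List.mem_cons, List.not_mem_nil, or_false]
    omega
  rw [rs_split (8 ∣ ·)]
  norm_num at this
  linarith

/-- Split `C` by `c.factorization 5 = 1` or not, `c.factorization 7 = 1` or not (`rs_split`); in the first case `1 ≤ c.factorization 2`,
in the second `1 ≤ c.factorization 3`.  Here `S` restricts the exponent of two, `α` bounds the whole sum and `α'` the sum over the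
positive exponents. -/
theorem rs_le4 {S : ℕ → Prop} {α α' : ℝ} (h2 : Geo 2 S α) (h2' : Geo 2 (fun a => S a ∧ 1 ≤ a) α')
    (hC : ∀ c ∈ C, Sm c ∧ S (c.factorization 2) ∧ (5 ∣ c → ¬ 25 ∣ c → 2 ∣ c) ∧ (7 ∣ c → ¬ 49 ∣ c → 3 ∣ c)) :
    Rs C ≤ (α * (21 / 20) + α' * (1 / 5)) * (3 / 2 * (43 / 42) + 1 / 2 * (1 / 7)) := by
  have p5 : Nat.Prime 5 := by norm_num
  have p7 : Nat.Prime 7 := by norm_num
  have e5 : Geo 5 (· = 1) (1 / 5) := mono (geo_eq 5 1) (fun _ h => h) (by norm_num)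
  have e7 : Geo 7 (· = 1) (1 / 7) := mono (geo_eq 7 1) (fun _ h => h) (by norm_num)
  have n5 : Geo 5 (· ≠ 1) (21 / 20) := mono (geo_ne_one (by norm_num)) (fun _ h => h) (by norm_num)
  have n7 : Geo 7 (· ≠ 1) (43 / 42) := mono (geo_ne_one (by norm_num)) (fun _ h => h) (by norm_num)
  have k5 : ∀ c ∈ C, c.factorization 5 = 1 → 1 ≤ c.factorization 2 := fun c hc e => by
    obtain ⟨h0, -, h, -⟩ := hC c hc
    refine (fac Nat.prime_two h0 1).2 (h ((fac p5 h0 1).1 e.ge) fun d => ?_)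
    have := (fac p5 h0 2).2 d
    omega
  have k7 : ∀ c ∈ C, c.factorization 7 = 1 → 1 ≤ c.factorization 3 := fun c hc e => by
    obtain ⟨h0, -, -, h⟩ := hC c hc
    refine (fac Nat.prime_three h0 1).2 (h ((fac p7 h0 1).1 e.ge) fun d => ?_)
    have := (fac p7 h0 2).2 d
    omega
  have sm : ∀ (P Q : ℕ → Prop) [DecidablePred P] [DecidablePred Q],
      ∀ c ∈ (C.filter P).filter Q, Sm c := fun P Q _ _ c hc =>
    (hC c (Finset.mem_filter.1 (Finset.mem_filter.1 hc).1).1).1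
  rw [rs_split (·.factorization 5 = 1), rs_split (C := C.filter _) (·.factorization 7 = 1),
    rs_split (C := C.filter fun c => ¬ c.factorization 5 = 1) (·.factorization 7 = 1)]
  have a11 := rs_le (sm (·.factorization 5 = 1) (·.factorization 7 = 1)) h2' g3' e5 e7 fun c hc => by
    obtain ⟨hc, b⟩ := Finset.mem_filter.1 hc
    obtain ⟨hc, a⟩ := Finset.mem_filter.1 hc
    exact ⟨⟨(hC c hc).2.1, k5 c hc a⟩, k7 c hc b, a, b⟩
  have a10 := rs_le (sm (·.factorization 5 = 1) fun c => ¬ c.factorization 7 = 1) h2' g3 e5 n7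
    fun c hc => by
    obtain ⟨hc, b⟩ := Finset.mem_filter.1 hc
    obtain ⟨hc, a⟩ := Finset.mem_filter.1 hc
    exact ⟨⟨(hC c hc).2.1, k5 c hc a⟩, Nat.zero_le _, a, b⟩
  have a01 := rs_le (sm (fun c => ¬ c.factorization 5 = 1) (·.factorization 7 = 1)) h2 g3' n5 e7
    fun c hc => by
    obtain ⟨hc, b⟩ := Finset.mem_filter.1 hc
    obtain ⟨hc, a⟩ := Finset.mem_filter.1 hc
    exact ⟨(hC c hc).2.1, k7 c hc b, a, b⟩
  have a00 := rs_le (sm (fun c => ¬ c.factorization 5 = 1) fun c => ¬ c.factorization 7 = 1)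
    h2 g3 n5 n7 fun c hc => by
    obtain ⟨hc, b⟩ := Finset.mem_filter.1 hc
    obtain ⟨hc, a⟩ := Finset.mem_filter.1 hc
    exact ⟨(hC c hc).2.1, Nat.zero_le _, a, b⟩
  linarith

theorem CB.b4 {S : ℕ → Prop} {α α' : ℝ} (h2 : Geo 2 S α) (h2' : Geo 2 (fun a => S a ∧ 1 ≤ a) α')
    (P : ℕ → Prop) (hP : ∀ c, Sm c → P c → S (c.factorization 2)) (D : Finset ℕ)
    (hD : ∀ c ∈ D, Sm c ∧ P c ∧ (5 ∣ c → ¬ 25 ∣ c → 2 ∣ c) ∧ (7 ∣ c → ¬ 49 ∣ c → 3 ∣ c)) :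
    Rs D ≤ (α * (21 / 20) + α' * (1 / 5)) * (3 / 2 * (43 / 42) + 1 / 2 * (1 / 7)) :=
  rs_le4 h2 h2' fun c hc => ⟨(hD c hc).1, hP c (hD c hc).1 (hD c hc).2.1, (hD c hc).2.2⟩

/-- `α = α' = 1/2`, add the terms `{4, 20}` (0.705) -/
theorem cnt4a1 (hC : ∀ c ∈ C, K4 c ∧ c ≠ 4 ∧ 4 ∣ c) : Rs C < 3 / 4 := by
  have := add (C := C) _ _ (b4 g22 (mono g22 (fun _ h => h.1) le_rfl) (4 ∣ ·) f4) [4, 20]
    (by decide) (by decide) fun c hc => by
    obtain ⟨⟨h0, a1, a2, a3, a4, a5, a6, a7, h⟩, h'⟩ := hC c hc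
    refine ⟨h0, ⟨h'.2, h⟩, ?_⟩
    simp only [List.mem_cons, List.not_mem_nil, or_false]
    omega
  norm_num at this
  linarith

/-- `α = 2`, `α' = 1`, add the terms `{1, 2, 3, 4, 6, 9, 49, 10, 20, 25, 30, 40, 21, 42}` (0.9952) -/
theorem cnt4a2 (hC : ∀ c ∈ C, K4 c ∧ c ≠ 4 ∧ (5 ∣ c → 50 ≤ c)) : Rs C < 1 := by
  have := add (C := C) _ _ (b4 g20 (mono g21 (fun _ h => h.2) le_rfl) (0 ≤ ·)
    fun _ _ _ => Nat.zero_le _) [1, 2, 3, 4, 6, 9, 49, 10, 20, 25, 30, 40, 21, 42]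
    (by decide) (by decide) fun c hc => by
    obtain ⟨⟨h0, a1, a2, a3, a4, a5, a6, a7, h⟩, h'⟩ := hC c hc
    refine ⟨h0, ⟨Nat.zero_le _, h⟩, ?_⟩
    clear h
    simp only [List.mem_cons, List.not_mem_nil, or_false]
    omega
  norm_num at this
  linarith

/-- `α = 7/4`, `α' = 3/4`, add the terms `{1, 2, 3, 6, 9, 49, 10, 20, 21, 42}`; the multiples of eight give `1/120 + 1/8` (0.975) -/
theorem cnt4b {n m : ℕ} (hn : 120 ≤ n) (hC : ∀ c ∈ C, K4 c ∧ (8 ∣ c → c = n ∨ c = m)) : Rs C < 1 := by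
  have h8 := eight (C := C) (m := m) hn fun c hc => ⟨(hC c hc).1.2.1, (hC c hc).2⟩
  have := add (C := C.filter fun c => ¬ 8 ∣ c) _ _ (b4 g2l g2m (¬ 8 ∣ ·) f8)
    [1, 2, 3, 6, 9, 49, 10, 20, 21, 42] (by decide) (by decide) fun c hc => by
    obtain ⟨hc, h8⟩ := Finset.mem_filter.1 hc
    obtain ⟨⟨h0, a1, a2, a3, a4, a5, a6, a7, h⟩, -⟩ := hC c hc
    refine ⟨h0, ⟨h8, h⟩, ?_⟩
    clear h h8
    simp only [List.mem_cons, List.not_mem_nil, or_false]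
    omega
  rw [rs_split (8 ∣ ·)]
  norm_num at this
  linarith

end CL.AH
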