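import Cfsg.Agent.FGS.AH.Lin

/-! The invariant alternating form. -/

set_option autoImplicit false
set_option maxHeartbeats 400000

namespace CL.AH

open Subgroup Cfsg

variable {r : ℕ} [Fact r.Prime] {H : Type*} [Group H] [Finite H] {V : Type*} [AddCommGroup V] [Module (ZMod r) V]
  [Finite V] {ρ : Representation (ZMod r) H V} {B : V →ₗ[ZMod r] V →ₗ[ZMod r] ZMod r}

/-- A nonzero invariant bilinear form.

Route 1.  `k` = the centralizer of `range ρ` in `Module.End (ZMod r) V` is a finite division ring (Schur: the kernel of a nonzero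
element is an invariant submodule), so a field (`littleWedderburn`); `H` acts `k`-linearly on `V`, and the equivariant
`k`-endomorphisms are the scalars.  As `tr (ρ h) = tr (ρ h⁻¹)` (`Rat.real`), the character formula
(`FDRep.scalar_product_char_eq_finrank_equivariant`, or the trace of the averaging idempotent on `V →ₗ[k] Dual V`, which is
`|H|⁻¹ ∑ tr (ρ h⁻¹) ^ 2 = |H|⁻¹ ∑ tr (ρ h) tr (ρ h⁻¹) = 1`) gives a nonzero equivariant map `V → Dual k V`.  Compose the form with a
nonzero `ZMod r`-linear functional on `k` that does not vanish at a value.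

Route 2.  `A = MonoidAlgebra (ZMod r) H` is semisimple (Maschke).  The annihilator `I` of `V` is `A f` with a central idempotent
`f`; central elements are class functions, so they are fixed by `h ↦ h⁻¹`; hence `I` also annihilates the dual module `V*`.
`A ⧸ I` embeds in `V ^ n` and maps onto a nonzero cyclic submodule of `V*`; by semisimplicity there is a nonzero map
`V ^ n → V*`, so a nonzero map `V → V*`. -/
theorem Md.exists_bil (h : Md ρ) :
    ∃ β : V →ₗ[ZMod r] V →ₗ[ZMod r] ZMod r, β ≠ 0 ∧ ∀ (g : H) (v w : V), β (ρ g v) (ρ g w) = β v w := by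
  classical
  have := Fintype.ofFinite H
  by_contra hn
  have h0 : ∀ (f₁ f₂ : Module.Dual (ZMod r) V) (v w : V), ∑ g, f₁ (ρ g v) * f₂ (ρ g w) = 0 := fun f₁ f₂ v w => by
    have e : ∀ v w, (∑ g, (LinearMap.mul (ZMod r) (ZMod r)).compl₁₂ (f₁ ∘ₗ ρ g) (f₂ ∘ₗ ρ g)) v w =
        ∑ g, f₁ (ρ g v) * f₂ (ρ g w) := fun v w => by simp [LinearMap.sum_apply]
    rw [← e]
    by_contra q
    refine hn ⟨_, fun z => q (LinearMap.congr_fun₂ z v w), fun k v w => ?_⟩
    rw [e, e]
    exact Fintype.sum_equiv (Equiv.mulRight k) _ _ fun g => by simp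
  have h1 : ∀ (f : Module.Dual (ZMod r) V) (w : V), ∑ g, f (ρ g w) • ρ g = 0 := fun f w =>
    LinearMap.ext fun v => (Module.forall_dual_apply_eq_zero_iff (ZMod r) _).1 fun f₁ => by
      simpa [LinearMap.sum_apply] using h0 f f₁ w v
  have h2 : ∀ φ : Module.Dual (ZMod r) (V →ₗ[ZMod r] V), ∑ g, φ (ρ g) • ρ g = 0 := fun φ =>
    LinearMap.ext fun w => (Module.forall_dual_apply_eq_zero_iff (ZMod r) _).1 fun f => by
      simpa [LinearMap.sum_apply, mul_comm] using congrArg φ (h1 f w)
  let T : (H → ZMod r) →ₗ[ZMod r] (V →ₗ[ZMod r] V) := Fintype.linearCombination (ZMod r) fun g => ρ g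
  obtain ⟨s₀, hs₀⟩ := T.rangeRestrict.exists_rightInverse_of_surjective T.range_rangeRestrict
  obtain ⟨s, hs⟩ := s₀.exists_extend
  have hT : ∀ w : H, ∑ y, s (ρ w) y • ρ y = ρ w := fun w => by
    have m : ρ w ∈ LinearMap.range T := ⟨Pi.single w 1, by simp [T]⟩
    have e := congrArg Subtype.val (LinearMap.congr_fun hs₀ ⟨_, m⟩)
    rw [← hs] at e
    simpa [T, Fintype.linearCombination_apply] using e
  have e := h2 (∑ k : H, ∑ u : H, LinearMap.proj u ∘ₗ s ∘ₗ LinearMap.mulRight (ZMod r) (ρ (k⁻¹ * u)) ∘ₗ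
    LinearMap.mulLeft (ZMod r) (ρ k))
  have e1 : ∀ g : H, ∑ k : H, ∑ u : H, s (ρ k * ρ g * ρ (k⁻¹ * u)) u = ∑ k : H, ∑ w : H, s (ρ w) (k * g * k⁻¹ * w) :=
    fun g => by
      obtain ⟨x, hx⟩ := h.rat.real g
      refine (Fintype.sum_equiv (Equiv.mulRight x) _ _ fun k => Fintype.sum_equiv
        (Equiv.mulLeft (k * g * k⁻¹)) _ _ fun w => ?_).symm
      rw [← map_mul, ← map_mul]
      refine congrArg (fun y => s (ρ y) (k * g * k⁻¹ * w)) ?_
      calc w = k * (g⁻¹ * g) * k⁻¹ * w := by group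
        _ = _ := by rw [← hx]; simp only [Equiv.coe_mulRight, Equiv.coe_mulLeft]; group
  have e2 : ∀ k w : H, ∑ g, s (ρ w) (k * g * k⁻¹ * w) • ρ g = 1 := fun k w => by
    calc _ = ∑ y, ρ k⁻¹ * (s (ρ w) y • ρ y) * ρ (w⁻¹ * k) :=
          Fintype.sum_equiv ((Equiv.mulLeft k).trans (Equiv.mulRight (k⁻¹ * w))) _ _ fun g => by
            rw [mul_smul_comm, smul_mul_assoc, ← map_mul, ← map_mul]
            simp only [Equiv.trans_apply, Equiv.coe_mulRight, Equiv.coe_mulLeft]
            congr 2 <;> group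
      _ = 1 := by
        rw [← Finset.sum_mul, ← Finset.mul_sum, hT, ← map_mul, ← map_mul, ← map_one ρ]
        congr 1
        group
  simp only [LinearMap.sum_apply, LinearMap.comp_apply, LinearMap.mulLeft_apply, LinearMap.mulRight_apply,
    LinearMap.proj_apply, e1, Finset.sum_smul] at e
  rw [Finset.sum_comm, Finset.sum_congr rfl fun k _ => Finset.sum_comm] at e
  simp only [e2, Finset.sum_const, Finset.card_univ, ← Nat.card_eq_fintype_card] at e
  obtain ⟨v, hv⟩ := h.nt
  have c : (Nat.card H : ZMod r) ≠ 0 := fun q => h.cop ((ZMod.natCast_eq_zero_iff _ _).1 q)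
  have := LinearMap.congr_fun e v
  simp [← Nat.cast_smul_eq_nsmul (ZMod r), hv, ← Nat.card_eq_fintype_card, -Nat.card_eq_fintype_card, c] at this

/-- `β v v = β (2 v) (2 v) = 4 β v v` by the eigenvector property; the radical is an invariant submodule. -/
theorem Md.exists_fm (h : Md ρ) (h5 : 5 ≤ r) : ∃ B : V →ₗ[ZMod r] V →ₗ[ZMod r] ZMod r, Fm ρ B := by
  obtain ⟨β, h0, hi⟩ := h.exists_bil
  have n : ∀ m : ℕ, 0 < m → m < 5 → (m : ZMod r) ≠ 0 := fun m m0 m5 q => by
    have := Nat.le_of_dvd m0 ((ZMod.natCast_eq_zero_iff _ _).1 q)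
    omega
  refine ⟨β, fun v => ?_, fun v hv => ?_, hi⟩
  · obtain ⟨g, -, e⟩ := h.ep 1 v (by simp) ((2 : ℕ) : ZMod r) (n 2 (by decide) (by decide))
    have q := hi g v v
    rw [e, map_smul, map_smul, LinearMap.smul_apply, smul_eq_mul, smul_eq_mul] at q
    refine (mul_eq_zero.1 (show ((3 : ℕ) : ZMod r) * β v v = 0 from ?_)).resolve_left (n 3 (by decide) (by decide))
    push_cast at q ⊢
    linear_combination q
  · rcases h.irr (LinearMap.ker β) fun g w hw => LinearMap.ext fun u => by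
      have q := hi g w (ρ g⁻¹ u)
      rw [LinearMap.mem_ker.1 hw] at q
      simpa using q with e | e
    · exact (Submodule.mem_bot _).1 (e ▸ LinearMap.mem_ker.2 (LinearMap.ext hv))
    · exact absurd (LinearMap.ker_eq_top.1 e) h0

end CL.AH
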