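import Cfsg.Agent.FGS.AH.Form

/-! Abelian normal subgroups of symplectic groups with the eigenvector property. -/

set_option autoImplicit false

namespace CL.AH

open Subgroup Cfsg

variable {r : ℕ} [Fact r.Prime] {H : Type*} [Group H] [Finite H] {V : Type*} [AddCommGroup V] [Module (ZMod r) V]
  [Finite V] {ρ : Representation (ZMod r) H V} {B : V →ₗ[ZMod r] V →ₗ[ZMod r] ZMod r}

namespace L1

theorem nz (h7 : 7 ≤ r) {n : ℕ} (h0 : n ≠ 0) (hn : n ≤ 6) : (n : ZMod r) ≠ 0 := fun e => by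
  have := Nat.le_of_dvd (Nat.pos_of_ne_zero h0) ((ZMod.natCast_eq_zero_iff n r).1 e)
  omega

/-- the group algebra of an abelian group of coprime order has no element of square zero -/
theorem red {A : Type*} [CommGroup A] [Fintype A] (hc : ¬ r ∣ Nat.card A) (φ : A → ZMod r)
    (h : ∀ c, ∑ a, φ a * φ (a⁻¹ * c) = 0) (a : A) : φ a = 0 := by
  classical
  have hr : r.Prime := Fact.out
  have : CharP (MonoidAlgebra (ZMod r) A) r := charP_of_injective_algebraMap (R := ZMod r)
    (fun x y e => by simpa using congrArg (fun z : MonoidAlgebra (ZMod r) A => z.coeff 1) e) r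
  have : ExpChar (MonoidAlgebra (ZMod r) A) r := ExpChar.prime hr
  obtain ⟨x, hx⟩ : ∃ x : MonoidAlgebra (ZMod r) A, x = ∑ a, MonoidAlgebra.single a (φ a) := ⟨_, rfl⟩
  have xx : x * x = 0 := by
    have e : ∀ a : A, ∑ b, MonoidAlgebra.single (a * b) (φ a * φ b) =
        ∑ c, (MonoidAlgebra.single c (φ a * φ (a⁻¹ * c)) : MonoidAlgebra (ZMod r) A) := fun a =>
      Fintype.sum_equiv (Equiv.mulLeft a) _ _ fun b => by simp
    rw [hx, Finset.sum_mul_sum]
    simp only [MonoidAlgebra.single_mul_single, e]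
    rw [Finset.sum_comm]
    refine Finset.sum_eq_zero fun c _ => ?_
    exact (map_sum (MonoidAlgebra.singleAddHom c) _ _).symm.trans (by rw [h, map_zero])
  have hN : r ^ (Nat.card A).totient ≡ 1 [MOD Nat.card A] :=
    Nat.ModEq.pow_totient ((Nat.Prime.coprime_iff_not_dvd hr).2 hc)
  have h0 : 0 < (Nat.card A).totient := Nat.totient_pos.2 Nat.card_pos
  generalize (Nat.card A).totient = N at hN h0
  have fx : x ^ r ^ N = x := by
    rw [hx, sum_pow_char_pow]
    refine Finset.sum_congr rfl fun b _ => ?_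
    rw [MonoidAlgebra.single_pow, ZMod.pow_card_pow, (pow_eq_pow_iff_modEq.2 (hN.of_dvd (orderOf_dvd_natCard b))).trans (pow_one b)]
  have h2 : 2 ≤ r ^ N := hr.two_le.trans (Nat.le_self_pow h0.ne' r)
  obtain ⟨m, hm⟩ := Nat.exists_eq_add_of_le h2
  rw [hm, pow_add, pow_two, xx, zero_mul, hx] at fx
  simpa [Finsupp.single_apply] using congrArg (fun z : MonoidAlgebra (ZMod r) A => z.coeff a) fx.symm

theorem two5 : (2 : ZMod 5) ≠ 0 := by decide

theorem ord5 {n : ℕ} (e : (2 : ZMod 5) ^ n = 1) : 4 ∣ n := by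
  have o : orderOf (2 : ZMod 5) = 2 ^ (1 + 1) := orderOf_eq_prime_pow (by decide) (by decide)
  exact (dvd_of_eq o.symm).trans (orderOf_dvd_of_pow_eq_one e)

end L1

/-- Put `φ v a = B (ρ a v) v`; then `φ v a⁻¹ = - φ v a` and `φ (ρ h v) (h a h⁻¹) = φ v a`.  So `f v = ∑ a ∈ A, (φ v a) ^ 2` is
invariant, and `f (2 v) = 16 f v` gives `f = 0` (`15 ≠ 0`).  The coefficient of `c` in `f (v + c w)` vanishes (use `c = ±1, ±2`:
`f (v + c w) - f (v - c w) = 2 (c L + c³ T)`), it is `L = 2 ∑ φ v a (B (ρ a v) w + B (ρ a w) v) = 4 ∑ φ v a * B (ρ a v) w` (reindex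
`a ↦ a⁻¹`).  With `w = ρ b⁻¹ v`: `∑ a, φ v a * φ v (b a) = 0` for all `b ∈ A`.  So `x = ∑ a, single a (φ v a)` has `x * x = 0` in the
commutative ring `MonoidAlgebra (ZMod r) A`, which is reduced (Maschke; or: `x ^ r ^ N = x` when `a ^ r ^ N = a` for all `a`,
`sum_pow_char_pow`).  Hence `φ v a = 0` for all `v`; polarize: `B ((ρ a - ρ a⁻¹) v) w = 0`. -/
theorem Sp.sq_eq_one (h : Sp ρ B) (h7 : 7 ≤ r) {A : Subgroup H} (hn : A.Normal)
    (hA : ∀ x ∈ A, ∀ y ∈ A, x * y = y * x) : ∀ x ∈ A, x * x = 1 := by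
  classical
  have := Fintype.ofFinite A
  have sk := h.toFm.skew
  have ad := h.toFm.adj
  have n2 : (2 : ZMod r) ≠ 0 := by exact_mod_cast L1.nz h7 (n := 2) (by decide) (by decide)
  have n3 : (3 : ZMod r) ≠ 0 := by exact_mod_cast L1.nz h7 (n := 3) (by decide) (by decide)
  have n5 : (5 : ZMod r) ≠ 0 := by exact_mod_cast L1.nz h7 (n := 5) (by decide) (by decide)
  have sw : ∀ (a : H) (v w : V), B (ρ a w) v = - B (ρ a⁻¹ v) w := fun a v w => by rw [ad, sk]
  have f0 : ∀ v : V, ∑ a : A, (B (ρ a v) v) ^ 2 = 0 := fun v => by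
    obtain ⟨g, hg⟩ := h.ep v 2 n2
    have e1 : ∑ a : A, (B (ρ a (ρ g v)) (ρ g v)) ^ 2 = ∑ a : A, (B (ρ a v) v) ^ 2 := by
      refine (Fintype.sum_equiv (MulAut.conjNormal g : MulAut A).toEquiv _ _ fun a => ?_).symm
      have : ρ ((MulAut.conjNormal g : MulAut A) a : H) (ρ g v) = ρ g (ρ a v) := by
        rw [MulAut.conjNormal_apply, ← Module.End.mul_apply, ← map_mul, inv_mul_cancel_right, map_mul, Module.End.mul_apply]
      rw [← h.inv g, ← this]
      rfl
    have e2 : ∑ a : A, (B (ρ a (ρ g v)) (ρ g v)) ^ 2 = 16 * ∑ a : A, (B (ρ a v) v) ^ 2 := by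
      rw [hg, Finset.mul_sum]
      refine Finset.sum_congr rfl fun a _ => ?_
      simp only [map_smul, LinearMap.smul_apply, smul_eq_mul]
      ring
    have e3 : 3 * (5 * ∑ a : A, (B (ρ a v) v) ^ 2) = 0 := by linear_combination e1 - e2
    exact (mul_eq_zero.1 ((mul_eq_zero.1 e3).resolve_left n3)).resolve_left n5
  have l0 : ∀ v w : V, ∑ a : A, B (ρ a v) v * B (ρ a v) w = 0 := fun v w => by
    have d : ∀ c : ZMod r, 4 * c * (∑ a : A, B (ρ a v) v * (B (ρ a v) w + B (ρ a w) v)) +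
        4 * c ^ 3 * ∑ a : A, (B (ρ a v) w + B (ρ a w) v) * B (ρ a w) w = 0 := fun c => by
      have e : ∑ a : A, (B (ρ a (v + c • w)) (v + c • w)) ^ 2 - ∑ a : A, (B (ρ a (v + (-c) • w)) (v + (-c) • w)) ^ 2 = 0 := by
        rw [f0, f0, sub_zero]
      rw [← e, Finset.mul_sum, Finset.mul_sum, ← Finset.sum_add_distrib, ← Finset.sum_sub_distrib]
      refine Finset.sum_congr rfl fun a _ => ?_
      simp only [map_add, map_smul, LinearMap.add_apply, LinearMap.smul_apply, smul_eq_mul]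
      ring
    have e : ∑ a : A, B (ρ a v) v * B (ρ a w) v = ∑ a : A, B (ρ a v) v * B (ρ a v) w :=
      Fintype.sum_equiv (Equiv.inv A) _ _ fun a => by
        rw [sw a v w, sw a v v]
        simp
    have d1 := d 1
    have d2 := d 2
    simp only [mul_add, Finset.sum_add_distrib, e] at d1 d2
    have e3 : 2 * (2 * (2 * (2 * (3 * ∑ a : A, B (ρ a v) v * B (ρ a v) w)))) = 0 := by
      linear_combination 8 * d1 - d2
    simpa [n2, n3] using e3
  have z : ∀ (v : V) (a : A), B (ρ a v) v = 0 := fun v a => by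
    letI : CommGroup A := { (inferInstance : Group A) with mul_comm := fun x y => Subtype.ext (hA x x.2 y y.2) }
    refine L1.red (fun d => h.cop (d.trans (card_subgroup_dvd_card A))) (fun a : A => B (ρ a v) v) (fun c => ?_) a
    rw [← neg_eq_zero, ← l0 v (ρ c v), ← Finset.sum_neg_distrib]
    refine Finset.sum_congr rfl fun b _ => ?_
    rw [Subgroup.coe_mul, Subgroup.coe_inv, map_mul, Module.End.mul_apply, ad (b : H)⁻¹ (ρ c v) v, inv_inv, sk (ρ c v)]
    ring
  intro x hx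
  refine mul_eq_one_iff_eq_inv.2 (h.inj (LinearMap.ext fun v => sub_eq_zero.1 (h.nd _ fun w => ?_)))
  have e := z (v + w) ⟨x, hx⟩
  simp only [map_add, LinearMap.add_apply, z v ⟨x, hx⟩, z w ⟨x, hx⟩] at e
  have e3 := sw x v w
  simp only [map_sub, LinearMap.sub_apply]
  linear_combination e - e3

/-- For odd `p` the centre of `pCore p H` is an abelian normal subgroup, so trivial; hence `pCore p H = ⊥`,
`fittingSubgroup H = pCore 2 H` (`CL.fittingSubgroup_eq_iSup_pCore`), and `CL.centralizer_fittingSubgroup_le` applies. -/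
theorem Sp.cen_le (h : Sp ρ B) (h7 : 7 ≤ r) {g : H} (hg : ∀ e ∈ pCore 2 H, g * e = e * g) : g ∈ pCore 2 H := by
  have := h.sol
  have F : fittingSubgroup H ≤ pCore 2 H := by
    rw [fittingSubgroup_eq_iSup_pCore]
    refine iSup_le fun ⟨p, hp⟩ => ?_
    by_cases e : p = 2
    · subst e; exact le_rfl
    have := Fact.mk hp
    by_cases b : pCore p H = ⊥
    · exact b.le.trans bot_le
    have := (nontrivial_iff_ne_bot _).2 b
    have pg := isPGroup_pCore p H
    have := pg.center_nontrivial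
    obtain ⟨⟨y, hy⟩, y1⟩ := exists_ne (1 : center (pCore p H))
    have y2 := h.sq_eq_one h7 (A := pCore p H ⊓ centralizer (pCore p H)) inferInstance
      (fun a ha b hb => hb.2 a ha.1) y ⟨y.2, fun a ha => congrArg Subtype.val (mem_center_iff.1 hy ⟨a, ha⟩)⟩
    obtain ⟨k, hk⟩ := pg y
    have y3 : y ^ 2 = 1 := Subtype.ext (by rw [pow_two]; exact y2)
    exact absurd (Subtype.ext (orderOf_eq_one_iff.1 (Nat.eq_one_of_dvd_coprimes
      (Nat.Coprime.pow_left k ((Nat.coprime_primes hp Nat.prime_two).2 e)) (orderOf_dvd_of_pow_eq_one hk)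
      (orderOf_dvd_of_pow_eq_one y3)))) y1
  exact F (centralizer_fittingSubgroup_le H fun e he => (hg e (F he)).symm)

/-- Otherwise `pCore 2 H` has order at most two, so it is central, `|H| ≤ 2` by `cen_le`; but `ρ h v = 2 v` gives `4 = 1`. -/
theorem Sp.four_dvd (h : Sp ρ B) (h7 : 7 ≤ r) : 4 ∣ Nat.card H := by
  by_contra n4
  have : Fact (Nat.Prime 2) := ⟨Nat.prime_two⟩
  obtain ⟨k, hk⟩ := (isPGroup_pCore 2 H).exists_card_eq
  have k1 : k ≤ 1 := by
    by_contra c
    exact n4 ((show 2 ^ 2 ∣ 2 ^ k from pow_dvd_pow 2 (by omega)).trans (hk ▸ card_subgroup_dvd_card _))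
  have c2 : Nat.card (pCore 2 H) ∣ 2 := hk ▸ (pow_dvd_pow 2 k1).trans (dvd_of_eq (pow_one 2))
  have := Fintype.ofFinite (pCore 2 H)
  have u : ∀ a b : pCore 2 H, a ≠ 1 → b ≠ 1 → a = b := fun a b a1 b1 => by
    by_contra c
    have := Fintype.two_lt_card_iff.2 ⟨a, b, 1, c, a1, b1⟩
    have := Nat.le_of_dvd two_pos c2
    rw [Nat.card_eq_fintype_card] at this
    omega
  obtain ⟨v, hv⟩ := h.nt
  obtain ⟨g, hg⟩ := h.ep v 2 (by exact_mod_cast L1.nz h7 (n := 2) (by decide) (by decide))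
  have m := h.cen_le h7 (g := g) fun e he => by
    by_cases e1 : e = 1
    · rw [e1, mul_one, one_mul]
    exact mul_inv_eq_iff_eq_mul.1 (congrArg Subtype.val (u ⟨_, Normal.conj_mem inferInstance e he g⟩ ⟨e, he⟩
      (fun c => e1 (conj_eq_one_iff.1 (congrArg Subtype.val c))) fun c => e1 (congrArg Subtype.val c)))
  have g2 : g * g = 1 := by
    rw [← pow_two]
    exact orderOf_dvd_iff_pow_eq_one.1 ((Subgroup.orderOf_dvd_natCard _ m).trans c2)
  have e : ρ (g * g) v = (4 : ZMod r) • v := by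
    rw [map_mul, Module.End.mul_apply, hg, map_smul, hg, smul_smul]; norm_num
  rw [g2, map_one, Module.End.one_apply] at e
  have e3 : (3 : ZMod r) • v = 0 := by
    rw [show (3 : ZMod r) = 4 - 1 by norm_num, sub_smul, one_smul, ← e, sub_self]
  exact hv ((smul_eq_zero.1 e3).resolve_left (by exact_mod_cast L1.nz h7 (n := 3) (by decide) (by decide)))

/-- `r = 5`: `ρ h v = 2 v` with `h ∈ C(t)` has `4 ∣ orderOf h`.  `r ≥ 7`: `Fm.res` with `M = C(t)`, `U` the fixed space of `t`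
(`Fm.fix_nd` for `zpowers t`), then `Sp.four_dvd`. -/
theorem Md.four_dvd_cz (h : Md ρ) (h5 : 5 ≤ r) {t : H} (ht : ¬ Fpf ρ t) : 4 ∣ cz t := by
  obtain ⟨v, hv, v0⟩ : ∃ v, ρ t v = v ∧ v ≠ 0 := by
    by_contra! c
    exact ht c
  have hr : r.Prime := Fact.out
  by_cases e5 : r = 5
  · subst e5
    obtain ⟨g, gt, hg⟩ := h.ep t v hv 2 L1.two5
    refine Dvd.dvd.trans ?_ (orderOf_dvd_cz gt)
    have p : ∀ n : ℕ, ρ (g ^ n) v = (2 : ZMod 5) ^ n • v := fun n => by
      induction n with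
      | zero => simp
      | succ n ih => rw [pow_succ', map_mul, Module.End.mul_apply, ih, map_smul, hg, smul_smul, pow_succ]
    have e := p (orderOf g)
    rw [pow_orderOf_eq_one, map_one, Module.End.one_apply] at e
    have e1 : (2 : ZMod 5) ^ orderOf g = 1 := smul_left_injective _ v0 (e.symm.trans (one_smul _ v).symm)
    exact L1.ord5 e1
  have h7 : 7 ≤ r := by
    by_contra c
    obtain rfl : r = 6 := by omega
    exact absurd hr (by decide)
  obtain ⟨B, hB⟩ := h.exists_fm h5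
  let U : Submodule (ZMod r) V := LinearMap.eqLocus (ρ t) LinearMap.id
  have fz : ∀ u, ρ t u = u → ∀ s ∈ zpowers t, ρ s u = u := fun u hu s hs => by
    obtain ⟨i, rfl⟩ := Bx.nat_pow hs
    induction i with
    | zero => simp
    | succ n ih => rw [pow_succ, map_mul, Module.End.mul_apply, hu, ih (pow_mem (mem_zpowers t) n)]
  obtain ⟨X, _, _, σ, B', π, hS, hπ, -⟩ := hB.res h.sol h.cop (centralizer {t}) U
    (fun m hm u hu => by
      change ρ t (ρ m u) = ρ m u
      rw [← Module.End.mul_apply, ← map_mul, ← Bx.mc.1 hm, map_mul, Module.End.mul_apply, show ρ t u = u from hu])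
    ⟨v, hv, v0⟩
    (fun u hu k => hB.fix_nd (zpowers t) (fun d => h.cop (d.trans (card_subgroup_dvd_card _))) (fz u hu)
      fun w hw => k w (hw t (mem_zpowers t)))
    fun u hu c hc => (h.ep t u hu c hc).imp fun m hm => ⟨Bx.mc.2 hm.1, hm.2⟩
  exact (hS.four_dvd h7).trans (card_dvd_of_surjective π hπ)

end CL.AH
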