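import Cfsg.Agent.FGS.AH.Defs

/-! Linear algebra lemmas, second half. -/

set_option autoImplicit false
set_option linter.unusedSectionVars false

namespace CL.AH.LinB

open Subgroup Cfsg

universe u

variable {r : ℕ} [Fact r.Prime] {H : Type*} [Group H] [Finite H] {V : Type*} [AddCommGroup V] [Module (ZMod r) V]
  [Finite V] {ρ : Representation (ZMod r) H V} {B : V →ₗ[ZMod r] V →ₗ[ZMod r] ZMod r}

theorem nz (h5 : 5 ≤ r) {n : ℕ} (h0 : 0 < n) (hn : n < 5) : (n : ZMod r) ≠ 0 := fun e =>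
  absurd (Nat.le_of_dvd h0 ((ZMod.natCast_eq_zero_iff n r).1 e)) (by omega)

theorem ii (ρ : Representation (ZMod r) H V) (g : H) : ρ g⁻¹ * ρ g = 1 := by rw [← map_mul, inv_mul_cancel, map_one]

theorem ii' (ρ : Representation (ZMod r) H V) (g : H) : ρ g * ρ g⁻¹ = 1 := by rw [← map_mul, mul_inv_cancel, map_one]

theorem qd_conj {a : H} (h : Qd ρ a) (g : H) : Qd ρ (g * a * g⁻¹) := by
  have e : g * a * g⁻¹ * (g * a * g⁻¹) = g * (a * a) * g⁻¹ := by group
  have := congrArg (fun x => ρ g * x * ρ g⁻¹) h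
  simp only [mul_add, add_mul, mul_one, ii', mul_zero, zero_mul] at this
  rw [Qd, ← map_mul, e]
  simpa only [map_mul] using this

theorem fpf {a : H} (h : Qd ρ a) (h5 : 5 ≤ r) : Fpf ρ a := fun v hv => by
  have := LinearMap.congr_fun h v
  simp only [LinearMap.add_apply, Module.End.mul_apply, hv, Module.End.one_apply, LinearMap.zero_apply] at this
  exact (smul_eq_zero.1 (show ((3 : ℕ) : ZMod r) • v = 0 by rw [← this]; module)).resolve_left (nz h5 (by omega) (by omega))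

theorem fpf_conj {a : H} (h : Fpf ρ a) (g : H) : Fpf ρ (g * a * g⁻¹) := fun v hv => by
  have h1 : ρ a (ρ g⁻¹ v) = ρ g⁻¹ v := by
    conv_rhs => rw [← hv, ← Module.End.mul_apply, ← map_mul, show g⁻¹ * (g * a * g⁻¹) = a * g⁻¹ by group, map_mul]
    rfl
  rw [← Module.End.one_apply (R := ZMod r) v, ← ii' ρ g, Module.End.mul_apply, h _ h1, map_zero]

theorem pm_comm (hi : Function.Injective ρ) {g : H} (h : Pm ρ g) (x : H) : x * g = g * x :=
  hi (by rcases h with h | h <;> simp [map_mul, h])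

theorem md_pm (h : Md ρ) {g : H} (h2 : g * g = 1) (hc : ∀ x : H, x * g = g * x) : Pm ρ g := by
  rcases h.irr (LinearMap.ker (ρ g - 1)) (fun x w hw => by
    rw [LinearMap.mem_ker, LinearMap.sub_apply, sub_eq_zero] at hw ⊢
    rw [← Module.End.mul_apply, ← map_mul, ← hc, map_mul, Module.End.mul_apply, hw]; rfl) with e | e
  · refine .inr (LinearMap.ext fun v => ?_)
    have : ρ g v + v ∈ LinearMap.ker (ρ g - 1) := by
      rw [LinearMap.mem_ker, LinearMap.sub_apply, map_add, ← Module.End.mul_apply, ← map_mul, h2, map_one]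
      simp only [Module.End.one_apply]; abel
    rw [e] at this
    exact eq_neg_of_add_eq_zero_left this
  · exact .inl (sub_eq_zero.1 (LinearMap.ker_eq_top.1 e))

theorem rel {a k : H} (h : Qd ρ a) (hk : Qd ρ (k * a)) :
    (ρ k - ρ k * ρ (a * k * a⁻¹)) * ρ a + (1 - ρ k * ρ (a * k * a⁻¹)) = 0 := by
  have e : ρ (k * a) * ρ (k * a) = ρ k * ρ (a * k * a⁻¹) * (ρ a * ρ a) := by
    simp only [← map_mul]; congr 1; group
  rw [Qd, e, map_mul ρ k a, eq_neg_of_add_eq_zero_left ((add_assoc _ _ _).symm.trans h)] at hk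
  rw [← hk]; noncomm_ring

theorem cent (hi : Function.Injective ρ) (hc : ¬ r ∣ Nat.card H) {a : H} (h : Qd ρ a) {A : Subgroup H}
    (hA : ∀ x ∈ A, ∀ y ∈ A, x * y = y * x) (hn : ∀ x ∈ A, a * x * a⁻¹ ∈ A) : ∀ x ∈ A, a * x = x * a := fun f hf => by
  obtain ⟨k, hk⟩ : ∃ k, k = f * a * f⁻¹ * a⁻¹ := ⟨_, rfl⟩
  have kA : k ∈ A := by
    rw [hk, show f * a * f⁻¹ * a⁻¹ = f * (a * f⁻¹ * a⁻¹) by group]; exact mul_mem hf (hn _ (inv_mem hf))
  have h1 := rel h (k := k) (by rw [hk, inv_mul_cancel_right]; exact qd_conj h f)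
  obtain ⟨l, hl⟩ : ∃ l, l = a * k * a⁻¹ := ⟨_, rfl⟩
  have lA : l ∈ A := hl ▸ hn k kA
  obtain ⟨g, hg⟩ : ∃ g, g = a * f * a⁻¹ := ⟨_, rfl⟩
  have gA : g ∈ A := hg ▸ hn f hf
  rw [← hl] at h1
  have c1 : ρ g * ρ k = ρ k * ρ g := by rw [← map_mul, hA g gA k kA, map_mul]
  have c2 : ρ g * ρ l = ρ l * ρ g := by rw [← map_mul, hA g gA l lA, map_mul]
  have c3 : ρ g * ρ a = ρ l * ρ a * ρ g := by
    simp only [← map_mul]; congr 1; rw [hl, hk, hg]; group
  have h2 : ρ k * ((ρ l - 1) * (ρ l - 1)) * (ρ a * ρ g) = 0 := by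
    have d1 : ∀ y, ρ g * (ρ k * y) = ρ k * (ρ g * y) := fun y => by rw [← mul_assoc, c1, mul_assoc]
    have d2 : ∀ y, ρ g * (ρ l * y) = ρ l * (ρ g * y) := fun y => by rw [← mul_assoc, c2, mul_assoc]
    have e1 := congrArg (fun x => x * ρ g) h1
    have e2 := congrArg (fun x => ρ g * x) h1
    simp only [zero_mul, mul_zero, mul_add, add_mul, mul_sub, sub_mul, mul_assoc, d1, d2, c2, c3, mul_one, one_mul] at e1 e2
    rw [← neg_eq_zero, ← sub_eq_zero.2 (e2.trans e1.symm)]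
    noncomm_ring
  have h3 : (ρ l - 1) * (ρ l - 1) = 0 := by
    have := congrArg (fun x => ρ k⁻¹ * x * (ρ g⁻¹ * ρ a⁻¹)) h2
    simpa only [mul_assoc, ← mul_assoc (ρ g), ← mul_assoc (ρ k⁻¹), ii, ii', one_mul, mul_one, mul_zero, zero_mul] using this
  have h4 : ∀ n : ℕ, ρ (l ^ n) = 1 + (n : ZMod r) • (ρ l - 1) := fun n => by
    induction n with
    | zero => simp
    | succ n ih =>
      rw [pow_succ, map_mul, ih, show ρ l = 1 + (ρ l - 1) by abel]
      generalize ρ l - 1 = N at h3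
      simp only [add_sub_cancel_left, mul_add, add_mul, mul_one, one_mul, smul_mul_assoc, h3, smul_zero, Nat.cast_succ, add_smul,
        one_smul]
      abel
  have h5 := h4 (Nat.card H)
  rw [pow_card_eq_one', map_one, left_eq_add, smul_eq_zero, ZMod.natCast_eq_zero_iff, sub_eq_zero] at h5
  have h6 : l = 1 := hi ((h5.resolve_left hc).trans (map_one ρ).symm)
  rw [hl, hk] at h6
  calc a * f = a * f * 1 := (mul_one _).symm
    _ = f * a := by rw [show f * a = a⁻¹ * (a * (f * a * f⁻¹ * a⁻¹) * a⁻¹) * a * (a * f) by group, h6]; group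

theorem res {H : Type u} [Group H] [Finite H] {ρ : Representation (ZMod r) H V} (h : Fm ρ B) (hs : Group.IsSolvable H)
    (hc : ¬ r ∣ Nat.card H) (M : Subgroup H) (U : Submodule (ZMod r) V) (hU : ∀ m ∈ M, ∀ u ∈ U, ρ m u ∈ U)
    (h0 : ∃ u ∈ U, u ≠ 0) (hnd : ∀ u ∈ U, (∀ w ∈ U, B u w = 0) → u = 0)
    (hep : ∀ u ∈ U, ∀ c : ZMod r, c ≠ 0 → ∃ m ∈ M, ρ m u = c • u) :
    ∃ (X : Type u) (_ : Group X) (_ : Finite X) (σ : Representation (ZMod r) X U)
      (B' : U →ₗ[ZMod r] U →ₗ[ZMod r] ZMod r) (π : M →* X), Sp σ B' ∧ Function.Surjective π ∧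
        ∀ (m : M) (u : U), (σ (π m) u : V) = ρ m u := by
  let τ : Representation (ZMod r) M U := Representation.subrepresentation (ρ.comp M.subtype) U fun m u hu => hU m m.2 u hu
  let K : Subgroup M := (MonoidHom.toHomUnits τ).ker
  let σ : Representation (ZMod r) (M ⧸ K) U := (Units.coeHom _).comp (QuotientGroup.kerLift (MonoidHom.toHomUnits τ))
  have s := QuotientGroup.mk'_surjective K
  refine ⟨M ⧸ K, inferInstance, inferInstance, σ, B.compl₁₂ U.subtype U.subtype, QuotientGroup.mk' K,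
    ⟨⟨fun v => h.alt v, fun v hv => Subtype.ext (hnd v v.2 fun w hw => hv ⟨w, hw⟩), fun x v w => ?_⟩, inferInstance,
      fun d => hc ((d.trans (card_quotient_dvd_card K)).trans (card_subgroup_dvd_card M)),
      Units.val_injective.comp (QuotientGroup.kerLift_injective _), ?_, fun v c c0 => ?_⟩, s, fun _ _ => rfl⟩
  · obtain ⟨m, rfl⟩ := s x
    exact h.inv m v w
  · obtain ⟨u, hu, u0⟩ := h0
    exact ⟨⟨u, hu⟩, fun e => u0 (congrArg Subtype.val e)⟩
  · obtain ⟨m, hm, e⟩ := hep v v.2 c c0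
    exact ⟨QuotientGroup.mk' K ⟨m, hm⟩, Subtype.ext e⟩

theorem wt {A : Subgroup H} (hA : ∀ x ∈ A, x * x = 1) (U : Submodule (ZMod r) V)
    (hU : ∀ x ∈ A, ∀ u ∈ U, ρ x u ∈ U) (h0 : ∃ u ∈ U, u ≠ 0) :
    ∃ w ∈ U, w ≠ 0 ∧ ∀ x ∈ A, ρ x w = w ∨ ρ x w = -w := by
  have cm : ∀ x ∈ A, ∀ y ∈ A, ∀ w, ρ x (ρ y w) = ρ y (ρ x w) := fun x hx y hy w => by
    have i : ∀ x ∈ A, x⁻¹ = x := fun x hx => inv_eq_of_mul_eq_one_right (hA x hx)
    rw [← Module.End.mul_apply, ← map_mul, ← i _ (mul_mem hx hy), mul_inv_rev, i x hx, i y hy, map_mul, Module.End.mul_apply]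
  suffices ∀ S : Finset H, (∀ x ∈ S, x ∈ A) → ∃ w ∈ U, w ≠ 0 ∧ ∀ x ∈ S, ρ x w = w ∨ ρ x w = -w by
    obtain ⟨w, a, b, c⟩ := this (Set.toFinite (A : Set H)).toFinset (by simp)
    exact ⟨w, a, b, fun x hx => c x (by simpa using hx)⟩
  intro S
  classical
  induction S using Finset.induction_on with
  | empty => exact fun _ => h0.imp fun u hu => ⟨hu.1, hu.2, by simp⟩
  | insert y S _ ih =>
    intro hS
    have hy := hS y (by simp)
    have hS' : ∀ x ∈ S, x ∈ A := fun x hx => hS x (by simp [hx])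
    obtain ⟨w, a, b, c⟩ := ih hS'
    by_cases e : ρ y w = -w
    · exact ⟨w, a, b, by simpa only [Finset.forall_mem_insert] using ⟨.inr e, c⟩⟩
    refine ⟨ρ y w + w, add_mem (hU y hy w a) a, fun e' => e (eq_neg_of_add_eq_zero_left e'), ?_⟩
    simp only [Finset.forall_mem_insert]
    refine ⟨.inl ?_, fun x hx => (c x hx).imp (fun e => ?_) fun e => ?_⟩
    · rw [map_add, ← Module.End.mul_apply, ← map_mul, hA y hy, map_one, add_comm]; rfl
    · rw [map_add, cm x (hS' x hx) y hy, e]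
    · rw [map_add, cm x (hS' x hx) y hy, e, map_neg, neg_add]

end CL.AH.LinB
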