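import Cfsg.Agent.FGS.AH.Bas
import Cfsg.Agent.FGS.AH.LinB

/-! Linear algebra lemmas. -/

set_option autoImplicit false
set_option linter.unusedSectionVars false

namespace CL.AH

open Subgroup Cfsg

universe u

variable {r : ℕ} [Fact r.Prime] {H : Type*} [Group H] [Finite H] {V : Type*} [AddCommGroup V] [Module (ZMod r) V]
  [Finite V] {ρ : Representation (ZMod r) H V} {B : V →ₗ[ZMod r] V →ₗ[ZMod r] ZMod r}

theorem Md.sp (h : Md ρ) (hB : Fm ρ B) : Sp ρ B :=
  ⟨hB, h.sol, h.cop, h.inj, h.nt, fun v c hc => (h.ep 1 v (by simp) c hc).imp fun _ e => e.2⟩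

theorem Fm.skew (h : Fm ρ B) (v w : V) : B v w = - B w v := by
  have := h.alt (v + w)
  simp only [map_add, LinearMap.add_apply, h.alt] at this
  linear_combination this

theorem Fm.adj (h : Fm ρ B) (g : H) (v w : V) : B (ρ g v) w = B v (ρ g⁻¹ w) := by
  rw [← h.inv g⁻¹, ← Module.End.mul_apply, ← map_mul, inv_mul_cancel, map_one, Module.End.one_apply]

/-- The fixed space of a coprime subgroup is nondegenerate: `e = ∑ t ∈ T, ρ t` maps into the fixed space, `e u = |T| u` and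
`B u (e w) = B (e u) w`. -/
theorem Fm.fix_nd (h : Fm ρ B) (T : Subgroup H) (hT : ¬ r ∣ Nat.card T) {u : V} (hu : ∀ t ∈ T, ρ t u = u)
    (h0 : ∀ w, (∀ t ∈ T, ρ t w = w) → B u w = 0) : u = 0 := by
  have := Fintype.ofFinite T
  refine h.nd u fun w => ?_
  have k := h0 (∑ t : T, ρ t w) fun s hs => by
    rw [map_sum]
    refine Fintype.sum_equiv (Equiv.mulLeft (⟨s, hs⟩ : T)) _ _ fun t => ?_
    rw [← Module.End.mul_apply, ← map_mul]
    rfl
  have e : ∀ t : T, B u (ρ t w) = B u w := fun t => by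
    conv_lhs => rw [← hu t t.2]
    exact h.inv _ _ _
  rw [map_sum, Finset.sum_congr rfl fun t _ => e t, Finset.sum_const, Finset.card_univ, nsmul_eq_mul,
    ← Nat.card_eq_fintype_card] at k
  exact (mul_eq_zero.1 k).resolve_left (mt (ZMod.natCast_eq_zero_iff _ _).1 hT)

/-- The trace trick.  Suppose the fixed space of `w` is `span {v}` (otherwise it has dimension at least two).
`e = ∑ s ∈ zpowers w, ρ s` is `f.smulRight v` with `f v = orderOf w ≠ 0`, so `trace (ρ g * e) = c * f v` and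
`trace (ρ g⁻¹ * e) = c⁻¹ * f v` (`LinearMap.trace_smulRight`).  As every element is conjugate to its inverse,
`∑ s, trace (ρ (g * s)) = ∑ s, trace (ρ (g * s)⁻¹) = ∑ s, trace (ρ (g⁻¹ * s))`.  So `c = c⁻¹`. -/
theorem dim2 (ρ : Representation (ZMod r) H V) (hre : ∀ h : H, ∃ k : H, k * h * k⁻¹ = h⁻¹) {w g : H}
    (hw : ¬ r ∣ orderOf w) (hc : g * w = w * g) {v : V} (hv : v ≠ 0) (h1 : ρ w v = v) {c : ZMod r}
    (h2 : ρ g v = c • v) (h3 : c * c ≠ 1) : r ^ 2 ≤ Nat.card {u : V // ρ w u = u} := by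
  have := Fintype.ofFinite (zpowers w)
  have : Module.Finite (ZMod r) V := Module.Finite.of_finite
  let W : Submodule (ZMod r) V := LinearMap.ker (ρ w - 1)
  have mW : ∀ u, u ∈ W ↔ ρ w u = u := fun u => by
    simp [W, sub_eq_zero]
  have cW : Nat.card {u : V // ρ w u = u} = r ^ Module.finrank (ZMod r) W := by
    rw [← Nat.card_congr (Equiv.subtypeEquivRight mW), Module.natCard_eq_pow_finrank (K := ZMod r), Nat.card_zmod]
  rw [cW]
  refine Nat.pow_le_pow_right (Fact.out : r.Prime).pos (by_contra fun lt => h3 ?_)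
  have one : ∀ u, ρ w u = u → ∃ a : ZMod r, a • v = u := fun u hu => by
    have n0 : (⟨v, (mW v).2 h1⟩ : W) ≠ 0 := fun e => hv (congrArg Subtype.val e)
    have : Module.finrank (ZMod r) W = 1 := by
      have : 0 < Module.finrank (ZMod r) W := Module.finrank_pos_iff_exists_ne_zero.2 ⟨_, n0⟩
      omega
    obtain ⟨a, ha⟩ := (finrank_eq_one_iff_of_nonzero' _ n0).1 this ⟨u, (mW u).2 hu⟩
    exact ⟨a, congrArg Subtype.val ha⟩
  obtain ⟨φ, hφ⟩ := Module.Projective.exists_dual_eq_one (ZMod r) hv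
  let e : V →ₗ[ZMod r] V := ∑ s : zpowers w, ρ s
  have ev : ∀ u, e u = ∑ s : zpowers w, ρ s u := fun u => by simp [e, LinearMap.sum_apply]
  have ef : ∀ u, ρ w (e u) = e u := fun u => by
    rw [ev, map_sum]
    refine Fintype.sum_equiv (Equiv.mulLeft (⟨w, mem_zpowers w⟩ : zpowers w)) _ _ fun t => ?_
    rw [← Module.End.mul_apply, ← map_mul]
    rfl
  have fx : ∀ s : zpowers w, ρ s v = v := by
    rintro ⟨s, hs⟩
    obtain ⟨n, rfl⟩ := (mem_powers_iff_mem_zpowers.2 hs : s ∈ Submonoid.powers w)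
    show ρ (w ^ n) v = v
    clear hs
    induction n with
    | zero => simp
    | succ n ih => rw [pow_succ, map_mul, Module.End.mul_apply, h1, ih]
  have e1 : e v = (orderOf w : ZMod r) • v := by
    rw [ev, Finset.sum_congr rfl fun s _ => fx s, Finset.sum_const, Finset.card_univ, ← Nat.card_eq_fintype_card,
      Nat.card_zpowers, Nat.cast_smul_eq_nsmul]
  have tr : ∀ (k : H) (d : ZMod r), ρ k v = d • v →
      ∑ s : zpowers w, LinearMap.trace (ZMod r) V (ρ (k * s)) = d * orderOf w := fun k d hk => by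
    have : ρ k * e = (φ ∘ₗ e).smulRight (ρ k v) := by
      ext u
      obtain ⟨a, ha⟩ := one _ (ef u)
      simp only [Module.End.mul_apply, LinearMap.smulRight_apply, LinearMap.comp_apply]
      rw [← ha, map_smul, map_smul, hφ, smul_eq_mul, mul_one]
    rw [← map_sum, Finset.sum_congr rfl fun (s : zpowers w) _ => map_mul ρ k s, ← Finset.mul_sum]
    change LinearMap.trace (ZMod r) V (ρ k * e) = _
    rw [this, LinearMap.trace_smulRight, hk, LinearMap.comp_apply, map_smul, e1, map_smul, map_smul, hφ]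
    simp
  have c0 : c ≠ 0 := by
    rintro rfl
    apply hv
    have := congrArg (ρ g⁻¹) h2
    rwa [← Module.End.mul_apply, ← map_mul, inv_mul_cancel, map_one, Module.End.one_apply, zero_smul, map_zero] at this
  have h4 : ρ g⁻¹ v = c⁻¹ • v := by
    have := congrArg (ρ g⁻¹) h2
    rw [← Module.End.mul_apply, ← map_mul, inv_mul_cancel, map_one, Module.End.one_apply, map_smul] at this
    rw [eq_inv_smul_iff₀ c0, ← this]
  have ti : ∀ x : H, LinearMap.trace (ZMod r) V (ρ x⁻¹) = LinearMap.trace (ZMod r) V (ρ x) := fun x => by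
    obtain ⟨k, hk⟩ := hre x
    rw [← hk, map_mul, LinearMap.trace_mul_comm, ← map_mul, ← mul_assoc, inv_mul_cancel, one_mul]
  have key : c * orderOf w = c⁻¹ * orderOf w := by
    rw [← tr g c h2, ← tr g⁻¹ c⁻¹ h4]
    refine Fintype.sum_equiv (Equiv.inv (zpowers w)) _ _ fun s => ?_
    obtain ⟨s, n, rfl⟩ := s
    rw [← ti, mul_inv_rev]
    congr 2
    exact (((show Commute g w from hc).zpow_right n).inv_inv.eq).symm
  have := mul_right_cancel₀ (mt (ZMod.natCast_eq_zero_iff _ _).1 hw) key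
  calc c * c = c * c⁻¹ := by rw [← this]
    _ = 1 := mul_inv_cancel₀ c0

/-- `dim2` with `c = 2` -/
theorem Md.sq_le (h : Md ρ) (h5 : 5 ≤ r) {t : H} (ht : ¬ Fpf ρ t) : r ^ 2 ≤ Nat.card {u : V // ρ t u = u} := by
  simp only [Fpf, not_forall] at ht
  obtain ⟨v, h1, hv⟩ := ht
  have n : ∀ k : ℕ, 0 < k → k < 5 → (k : ZMod r) ≠ 0 := fun k k0 k5 e => by
    have := Nat.le_of_dvd k0 ((ZMod.natCast_eq_zero_iff _ _).1 e)
    omega
  obtain ⟨g, hc, h2⟩ := h.ep t v h1 2 (by exact_mod_cast n 2 (by norm_num) (by norm_num))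
  refine dim2 ρ h.rat.real (fun d => h.cop (d.trans (orderOf_dvd_natCard t))) hc hv h1 h2 fun e => ?_
  refine n 3 (by norm_num) (by norm_num) ?_
  push_cast
  linear_combination e

/-- `v + ρ t v` is fixed -/
theorem Fpf.neg {t : H} (h : Fpf ρ t) (h2 : t * t = 1) : ρ t = -1 := by
  ext v
  have := h (v + ρ t v) (by rw [map_add, ← Module.End.mul_apply, ← map_mul, h2, map_one, Module.End.one_apply, add_comm])
  simpa using eq_neg_of_add_eq_zero_right this

/-- `v + a v + a² v` is fixed -/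
theorem Fpf.qd {a : H} (h : Fpf ρ a) (h3 : a ^ 3 = 1) : Qd ρ a := by
  have e : ρ a * ρ a * ρ a = 1 := by rw [← map_mul, ← map_mul, ← pow_three', h3, map_one]
  ext v
  refine h _ ?_
  rw [← Module.End.mul_apply, mul_add, mul_add, ← mul_assoc, e, mul_one]
  congr 1
  abel

theorem Qd.conj {a : H} (h : Qd ρ a) (g : H) : Qd ρ (g * a * g⁻¹) := by
  have e : ρ g⁻¹ * ρ g = 1 := by rw [← map_mul, inv_mul_cancel, map_one]
  have e' : ρ g * ρ g⁻¹ = 1 := by rw [← map_mul, mul_inv_cancel, map_one]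
  have : ρ (g * a * g⁻¹) * ρ (g * a * g⁻¹) + ρ (g * a * g⁻¹) + 1 = ρ g * (ρ a * ρ a + ρ a + 1) * ρ g⁻¹ := by
    rw [map_mul, map_mul, mul_add, mul_add, add_mul, add_mul, mul_one, e']
    congr 2
    calc ρ g * ρ a * ρ g⁻¹ * (ρ g * ρ a * ρ g⁻¹) = ρ g * ρ a * (ρ g⁻¹ * ρ g) * ρ a * ρ g⁻¹ := by noncomm_ring
      _ = _ := by rw [e]; noncomm_ring
  rw [Qd, this, show ρ a * ρ a + ρ a + 1 = 0 from h, mul_zero, zero_mul]

theorem Qd.fpf {a : H} (h : Qd ρ a) (h5 : 5 ≤ r) : Fpf ρ a := LinB.fpf h h5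

theorem Fpf.conj {a : H} (h : Fpf ρ a) (g : H) : Fpf ρ (g * a * g⁻¹) := LinB.fpf_conj h g

theorem Pm.comm (hi : Function.Injective ρ) {g : H} (h : Pm ρ g) (x : H) : x * g = g * x := LinB.pm_comm hi h x

/-- the fixed space of a central element is invariant -/
theorem Md.pm (h : Md ρ) {g : H} (h2 : g * g = 1) (hc : ∀ x : H, x * g = g * x) : Pm ρ g := LinB.md_pm h h2 hc

/-- the relation of a quadratic pair `a`, `h a`: `(h a)² = h h' a²` and `ρ a² = - ρ a - 1` -/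
theorem Qd.rel {a k : H} (h : Qd ρ a) (hk : Qd ρ (k * a)) :
    (ρ k - ρ k * ρ (a * k * a⁻¹)) * ρ a + (1 - ρ k * ρ (a * k * a⁻¹)) = 0 := LinB.rel h hk

/-- A quadratic element centralizes every abelian subgroup it normalizes.  For `f ∈ A` put `k = f a f⁻¹ a⁻¹ ∈ A`,
`k' = a k a⁻¹`; `k a = f a f⁻¹` is quadratic, so `Qd.rel` holds.  Conjugate it by `g = a f a⁻¹ ∈ A` (which commutes with `k, k'`
and has `g a g⁻¹ = k' a`) and subtract: `ρ k (1 - ρ k') (ρ k' - 1) ρ a = 0`, so `(ρ k' - 1)² = 0`.  Then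
`ρ k' ^ n = 1 + n (ρ k' - 1)`; with `n = |H|` we get `ρ k' = 1`, so `k = 1`. -/
theorem Qd.cent (hi : Function.Injective ρ) (hc : ¬ r ∣ Nat.card H) {a : H} (h : Qd ρ a) {A : Subgroup H}
    (hA : ∀ x ∈ A, ∀ y ∈ A, x * y = y * x) (hn : ∀ x ∈ A, a * x * a⁻¹ ∈ A) : ∀ x ∈ A, a * x = x * a :=
  LinB.cent hi hc h hA hn

/-- Restriction to an invariant nondegenerate subspace: `X = M ⧸ ker`. -/
theorem Fm.res {H : Type u} [Group H] [Finite H] {ρ : Representation (ZMod r) H V} (h : Fm ρ B) (hs : Group.IsSolvable H)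
    (hc : ¬ r ∣ Nat.card H) (M : Subgroup H) (U : Submodule (ZMod r) V) (hU : ∀ m ∈ M, ∀ u ∈ U, ρ m u ∈ U)
    (h0 : ∃ u ∈ U, u ≠ 0) (hnd : ∀ u ∈ U, (∀ w ∈ U, B u w = 0) → u = 0)
    (hep : ∀ u ∈ U, ∀ c : ZMod r, c ≠ 0 → ∃ m ∈ M, ρ m u = c • u) :
    ∃ (X : Type u) (_ : Group X) (_ : Finite X) (σ : Representation (ZMod r) X U)
      (B' : U →ₗ[ZMod r] U →ₗ[ZMod r] ZMod r) (π : M →* X), Sp σ B' ∧ Function.Surjective π ∧
        ∀ (m : M) (u : U), (σ (π m) u : V) = ρ m u :=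
  LinB.res h hs hc M U hU h0 hnd hep

/-- A weight vector of an elementary abelian 2-group.  Choose `w ∈ U \ 0` with the largest number of `x ∈ A` with
`ρ x w = ± w`; for `y ∈ A` one of `w + ρ y w`, `w - ρ y w` is nonzero. -/
theorem exists_wt (h5 : 5 ≤ r) {A : Subgroup H} (hA : ∀ x ∈ A, x * x = 1) (U : Submodule (ZMod r) V)
    (hU : ∀ x ∈ A, ∀ u ∈ U, ρ x u ∈ U) (h0 : ∃ u ∈ U, u ≠ 0) :
    ∃ w ∈ U, w ≠ 0 ∧ ∀ x ∈ A, ρ x w = w ∨ ρ x w = -w := LinB.wt hA U hU h0

end CL.AH
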