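import Cfsg.Agent.FGS.AH.L1
import Cfsg.Agent.FGS.AH.LinB

/-! Gow's theorem for the primes above seven. -/

set_option autoImplicit false

namespace CL.AH

open Subgroup Cfsg

variable {r : ℕ} [Fact r.Prime] {H : Type*} [Group H] [Finite H] {V : Type*} [AddCommGroup V] [Module (ZMod r) V]
  [Finite V] {ρ : Representation (ZMod r) H V} {B : V →ₗ[ZMod r] V →ₗ[ZMod r] ZMod r}

namespace Semi

theorem q8 {H : Type*} [Group H] {n : H} (hs : Group.IsSolvable H) (n2 : n * n = 1) (nc : ∀ x, x * n = n * x)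
    (inv : ∀ x, x * x = 1 → x = 1 ∨ x = n)
    (ab : ∀ A : Subgroup H, A.Normal → (∀ x ∈ A, ∀ y ∈ A, x * y = y * x) → ∀ x ∈ A, x * x = 1) {g : H} (g1 : g ≠ 1)
    (gn : g ≠ n) : ∃ (D : Subgroup H) (i j : H), D.Normal ∧ i ∈ D ∧ j ∈ D ∧ i * i = n ∧ j * i = n * (i * j) ∧
      ∀ d ∈ D, ∃ q, (q = 1 ∨ q = i ∨ q = j ∨ q = i * j) ∧ (d = q ∨ d = n * q) := by
  obtain ⟨k, h1, h2⟩ := Nat.exists_not_and_succ_of_not_zero_of_exists
    (p := fun k => ∀ x ∈ derivedSeries H k, x = 1 ∨ x = n) (fun c => (c g (mem_top g)).elim g1 gn)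
    (hs.solvable.imp fun k e x hx => .inl (by simpa [e] using hx))
  have hN := derivedSeries_normal H k
  rw [derivedSeries_succ] at h2
  generalize derivedSeries H k = D at *
  have E : ∀ {a b : H}, (∀ y, a * y = b * y) → a = b := fun h => by simpa using h 1
  have E' : ∀ {a b c : H}, a * b = c → ∀ y, a * (b * y) = c * y := fun h y => by rw [← mul_assoc, h]
  have nn : ∀ y, n * (n * y) = y := fun y => by rw [E' n2, one_mul]
  have xn : ∀ x y, x * (n * y) = n * (x * y) := fun x y => by rw [E' (nc x), mul_assoc]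
  have cm : ∀ x ∈ D, ∀ y ∈ D, x * y = y * x ∨ x * y = n * (y * x) := fun x hx y hy =>
    (h2 _ (commutator_mem_commutator hx hy)).imp commutatorElement_eq_one_iff_mul_comm.1 fun e => by
      rw [← e, commutatorElement_def]; group
  have ce : ∀ x ∈ D, (∀ y ∈ D, y * x = x * y) → x = 1 ∨ x = n := fun x hx c =>
    inv x (ab (D ⊓ centralizer D) inferInstance (fun a ha b hb => hb.2 a ha.1) x ⟨hx, c⟩)
  have sq : ∀ x ∈ D, ¬ (x = 1 ∨ x = n) → x * x = n := fun x hx c =>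
    (ce (x * x) (mul_mem hx hx) fun y hy => by
      rcases cm y hy x hx with e | e <;> exact E fun z => by simp only [mul_assoc, E' e, xn, nn]).resolve_left
      fun e => c (inv x e)
  obtain ⟨i, h3⟩ := not_forall.1 h1
  obtain ⟨iD, iZ⟩ := Classical.not_imp.1 h3
  obtain ⟨j, h4⟩ := not_forall.1 fun c => iZ (ce i iD c)
  obtain ⟨jD, ji⟩ := Classical.not_imp.1 h4
  have e0 := (cm j jD i iD).resolve_left ji
  have i2 := sq i iD iZ
  have j2 := sq j jD (by rintro (rfl | rfl); exacts [ji (by simp), ji (nc i).symm])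
  have key : ∀ d ∈ D, i * d = d * i → j * d = d * j → d = 1 ∨ d = n := fun d hd a b => by_contra fun c => ji <| by
    have : j * (d * i) = d * i * j := by
      rcases inv (d * i) (E fun z => by simp only [mul_assoc, E' a, E' (sq d hd c), E' i2, nn, one_mul]) with e | e <;> rw [e]
      exacts [by simp, nc j]
    rw [E' b, mul_assoc, mul_assoc] at this
    exact mul_left_cancel this
  have fin : ∀ {d q : H}, q * q = n → d * q = 1 ∨ d * q = n → d = q ∨ d = n * q := fun {d q} a b =>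
    b.symm.imp (fun e => mul_right_cancel (e.trans a.symm)) fun e => mul_right_cancel (b := q) (by rw [e, mul_assoc, a, n2])
  refine ⟨D, i, j, hN, iD, jD, i2, e0, fun d hd => ?_⟩
  rcases cm i iD d hd with a | a <;> rcases cm j jD d hd with b | b
  · exact ⟨1, .inl rfl, by simpa using key d hd a b⟩
  · exact ⟨i, by simp, fin i2 (key _ (mul_mem hd iD) (E fun z => by simp only [mul_assoc, E' a])
      (E fun z => by simp only [mul_assoc, E' b, E' e0, xn, nn]))⟩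
  · exact ⟨j, by simp, fin j2 (key _ (mul_mem hd jD) (E fun z => by simp only [mul_assoc, E' a, E' e0, xn])
      (E fun z => by simp only [mul_assoc, E' b]))⟩
  · exact ⟨i * j, by simp, fin (E fun z => by simp only [mul_assoc, E' e0, E' i2, E' j2, xn, nn])
      (key _ (mul_mem hd (mul_mem iD jD)) (E fun z => by simp only [mul_assoc, E' a, E' e0, xn])
      (E fun z => by simp only [mul_assoc, E' b, E' e0, xn, nn]))⟩

theorem pig {F : Type*} [Field F] {α β γ : F} (h0 : α ≠ 0) {a b c : F} (a0 : a ≠ 0) (b0 : b ≠ 0) (c0 : c ≠ 0)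
    (h : ∀ c : F, c ≠ 0 → c ^ 4 * α = 0 ∨ c ^ 4 * α = α ∨ c ^ 4 * α = β ∨ c ^ 4 * α = γ) :
    a ^ 4 = 1 ∨ b ^ 4 = 1 ∨ c ^ 4 = 1 ∨ b ^ 4 = a ^ 4 ∨ c ^ 4 = a ^ 4 ∨ c ^ 4 = b ^ 4 := by
  have k : ∀ c : F, c ≠ 0 → c ^ 4 = 1 ∨ c ^ 4 = β / α ∨ c ^ 4 = γ / α := fun c c0 =>
    ((h c c0).resolve_left (by simp [c0, h0])).imp (mul_eq_right₀ h0).1 (Or.imp (eq_div_iff h0).2 (eq_div_iff h0).2)
  rcases k a a0 with e | e | e <;> rcases k b b0 with e' | e' | e' <;> rcases k c c0 with e'' | e'' | e'' <;>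
    simp [e, e', e'']

set_option synthInstance.maxSize 2000 in
theorem ar {r : ℕ} [Fact r.Prime] (h7 : 7 ≤ r) {α β γ : ZMod r} (h0 : α ≠ 0)
    (h : ∀ c : ZMod r, c ≠ 0 → c ^ 4 * α = 0 ∨ c ^ 4 * α = α ∨ c ^ 4 * α = β ∨ c ^ 4 * α = γ) : r = 7 ∨ r = 13 := by
  have nz : ∀ m : ℕ, 0 < m → m < 7 → (m : ZMod r) ≠ 0 := fun m a b e =>
    absurd (Nat.le_of_dvd a ((ZMod.natCast_eq_zero_iff m r).1 e)) (by omega)
  have h1 := pig h0 (nz 2 (by omega) (by omega)) (nz 3 (by omega) (by omega)) (nz 4 (by omega) (by omega)) h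
  have h2 := pig h0 (nz 2 (by omega) (by omega)) (nz 3 (by omega) (by omega)) (nz 6 (by omega) (by omega)) h
  rw [← Nat.cast_one (R := ZMod r)] at h1 h2
  simp only [← Nat.cast_pow, ZMod.natCast_eq_natCast_iff'] at h1 h2
  have nd : ∀ p : ℕ, p.Prime → p < 7 → ¬ p ∣ r := fun p hp a d => by
    have := (Nat.prime_dvd_prime_iff_eq hp Fact.out).1 d; omega
  have k : ∀ r < 257, 7 ≤ r → ¬ 2 ∣ r → ¬ 3 ∣ r → ¬ 5 ∣ r →
      (2 ^ 4 % r = 1 % r ∨ 3 ^ 4 % r = 1 % r ∨ 4 ^ 4 % r = 1 % r ∨ 3 ^ 4 % r = 2 ^ 4 % r ∨ 4 ^ 4 % r = 2 ^ 4 % r ∨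
        4 ^ 4 % r = 3 ^ 4 % r) →
      (2 ^ 4 % r = 1 % r ∨ 3 ^ 4 % r = 1 % r ∨ 6 ^ 4 % r = 1 % r ∨ 3 ^ 4 % r = 2 ^ 4 % r ∨ 6 ^ 4 % r = 2 ^ 4 % r ∨
        6 ^ 4 % r = 3 ^ 4 % r) → r = 7 ∨ r = 13 := by decide +kernel
  refine k r (by_contra fun c => ?_) h7 (nd 2 Nat.prime_two (by omega)) (nd 3 Nat.prime_three (by omega))
    (nd 5 Nat.prime_five (by omega)) h1 h2
  have m : ∀ a, a < 257 → a % r = a := fun a ha => Nat.mod_eq_of_lt (by omega)
  rw [m 1 (by omega), m (2 ^ 4) (by omega), m (3 ^ 4) (by omega), m (4 ^ 4) (by omega)] at h1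
  omega

theorem a13 : ∀ a b c : ZMod 13, (2 ^ 4 * a ^ 2 = 0 ∨ 2 ^ 4 * a ^ 2 = a ^ 2 ∨ 2 ^ 4 * a ^ 2 = b ^ 2 ∨ 2 ^ 4 * a ^ 2 = c ^ 2) →
    (4 ^ 4 * a ^ 2 = 0 ∨ 4 ^ 4 * a ^ 2 = a ^ 2 ∨ 4 ^ 4 * a ^ 2 = b ^ 2 ∨ 4 ^ 4 * a ^ 2 = c ^ 2) →
    b = 0 ∨ -24 * b - 10 * c = 0 → a = 0 := by decide +kernel

theorem b13 : ∀ a : ZMod 13, a + 5 * -0 + 5 * (- -0 + 5 * - -a) = 0 := by decide

theorem c13 : (2 : ZMod 13) ≠ 0 ∧ (4 : ZMod 13) ≠ 0 := by decide

end Semi

open Semi in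

/-- Semiregular action.  `ep` with `c = -1` gives `n` with `n * n = 1`, `ρ n = -1` (`Fpf.neg`); every involution is `n`.
`Z = {1, n}`.  `H ≠ Z` (`c = 2`).  Let `D` be the last term of the derived series not inside `Z`, so `⁅D, D⁆ ≤ Z`.  The centre of `D`
is abelian normal in `H`, so inside `Z` (`Sp.sq_eq_one`).  For `x ∈ D`, `x²` is central in `D`; so `x² = n` for `x ∈ D \ Z`.
Take `i ∈ D \ Z` and `j ∈ D` not commuting with `i`: `i j = n j i`.  An element `d ∈ D` commuting with `i, j` lies in `Z` (else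
`(d i)² = 1`, `d ∈ Z i`); every `d ∈ D` becomes such an element after multiplication by `1, i, j` or `i j`.  So for
`φ u x = B (ρ x u) u` the values `(φ u x) ^ 2`, `x ∈ D`, are among `0, α, β, γ` (the values at `i, j, k = i j`).  If `ρ h u = c u`, then
`φ u (h⁻¹ x h) = c² φ u x`; so `c ^ 4 * α ∈ {0, α, β, γ}` for all `c ≠ 0`, and the same for `β`, `γ`.  There is `u` with
`φ u i ≠ 0` (else polarize: `2 B (ρ i u) w = 0`).  So there are at most three nonzero fourth powers: `r - 1 ≤ 12` (each has at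
most four fourth roots), and `r = 11` has five.  `r = 13`: the fourth powers are `1, 3, 9`, so for every `u` either
`α = β = γ = 0` or `{α, β, γ} = {α, 3 α, 9 α}` with `α ≠ 0`.  For `v = u + 5 • ρ i u`: `φ v i = (1 + 25) φ u i = 0`, and
`φ v j = (1 - 25) φ u j - 10 φ u k = 0` gives `β = 25 γ = - γ`, which is impossible. -/
theorem Sp.semi (h : Sp ρ B) (h7 : 7 ≤ r) (hs : ∀ t : H, t ≠ 1 → Fpf ρ t) : r = 7 := by
  obtain ⟨v, v0⟩ := h.nt
  have nz : ∀ m : ℕ, 0 < m → m < 5 → (m : ZMod r) • v ≠ 0 := fun m a b => smul_ne_zero (LinB.nz (by omega) a b) v0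
  obtain ⟨n, hn⟩ := h.ep v (-1) (by simp)
  have n2 : n * n = 1 := by_contra fun c => v0 (hs _ c v (by rw [map_mul, Module.End.mul_apply, hn, map_smul, hn]; simp))
  have ρn : ρ n = -1 := (hs n (by
    rintro rfl
    rw [map_one, Module.End.one_apply] at hn
    exact nz 2 (by omega) (by omega) (by rw [← sub_eq_zero.2 hn]; module))).neg n2
  obtain ⟨g, hg⟩ := h.ep v 2 (LinB.nz (n := 2) (by omega) (by omega) (by omega))
  obtain ⟨D, i, j, hN, iD, jD, i2, ji, all⟩ := q8 h.sol n2 (Pm.comm h.inj (.inr ρn))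
    (fun x e => (em (x = 1)).imp_right fun c => h.inj (((hs x c).neg e).trans ρn.symm)) (fun A a b => h.sq_eq_one h7 a b)
    (g := g) (by
      rintro rfl
      rw [map_one, Module.End.one_apply] at hg
      exact nz 1 (by omega) (by omega) (by rw [← sub_eq_zero.2 hg.symm]; module))
    (by rintro rfl; exact nz 3 (by omega) (by omega) (by rw [← sub_eq_zero.2 (hg.symm.trans hn)]; module))
  have P : ∀ u, ∀ x ∈ D, ∀ c : ZMod r, c ≠ 0 → c ^ 4 * B (ρ x u) u ^ 2 = 0 ∨ c ^ 4 * B (ρ x u) u ^ 2 = B (ρ i u) u ^ 2 ∨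
      c ^ 4 * B (ρ x u) u ^ 2 = B (ρ j u) u ^ 2 ∨ c ^ 4 * B (ρ x u) u ^ 2 = B (ρ i (ρ j u)) u ^ 2 := by
    intro u x hx c c0
    obtain ⟨k, hk⟩ := h.ep u c c0
    have e : B (ρ (k⁻¹ * x * k) u) u = c ^ 2 * B (ρ x u) u := by
      rw [← h.inv k, ← Module.End.mul_apply, ← map_mul, show k * (k⁻¹ * x * k) = x * k by group, map_mul,
        Module.End.mul_apply, hk]
      simp only [map_smul, LinearMap.smul_apply, smul_eq_mul]; ring
    obtain ⟨q, hq, e'⟩ := all _ (hN.conj_mem' x hx k)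
    have : c ^ 4 * B (ρ x u) u ^ 2 = B (ρ q u) u ^ 2 := by
      rw [show c ^ 4 * B (ρ x u) u ^ 2 = (c ^ 2 * B (ρ x u) u) ^ 2 by ring, ← e]
      rcases e' with e' | e' <;> simp [e', ρn]
    rw [this]
    rcases hq with rfl | rfl | rfl | rfl <;> simp [h.alt]
  have II : ∀ u, ρ i (ρ i u) = -u := fun u => by rw [← Module.End.mul_apply, ← map_mul, i2, ρn]; rfl
  have JI : ∀ u, ρ j (ρ i u) = -ρ i (ρ j u) := fun u => by
    rw [← Module.End.mul_apply, ← map_mul, ji, map_mul, map_mul, ρn]; rfl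
  have ad : ∀ u w, B u (ρ i w) = -B (ρ i u) w := fun u w => by rw [← h.inv i, II, map_neg]
  obtain ⟨u, hu⟩ : ∃ u, B (ρ i u) u ≠ 0 := by
    by_contra! c
    refine nz 2 (by omega) (by omega) (h.nd _ fun w => ?_)
    have := c (v + ρ i w)
    simp only [map_add, LinearMap.add_apply, II, map_neg, LinearMap.neg_apply, h.inv, ad, c, h.toFm.skew w v] at this
    rw [map_smul, LinearMap.smul_apply, smul_eq_mul, ← this]; push_cast; ring
  refine (ar h7 (pow_ne_zero 2 hu) (P u i iD)).resolve_right ?_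
  rintro rfl
  have e1 : B (ρ i (u + (5 : ZMod 13) • ρ i u)) (u + (5 : ZMod 13) • ρ i u) = 0 := by
    simp only [map_add, map_smul, LinearMap.add_apply, LinearMap.smul_apply, II, map_neg, LinearMap.neg_apply, ad, h.alt,
      smul_eq_mul]
    generalize B (ρ i u) u = a
    exact b13 a
  have e2 : B (ρ j (u + (5 : ZMod 13) • ρ i u)) (u + (5 : ZMod 13) • ρ i u) = -24 * B (ρ j u) u - 10 * B (ρ i (ρ j u)) u := by
    simp only [map_add, map_smul, LinearMap.add_apply, LinearMap.smul_apply, II, JI, map_neg, LinearMap.neg_apply, ad,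
      smul_eq_mul]
    ring
  refine hu (a13 _ _ _ (P u i iD 2 c13.1) (P u i iD 4 c13.2) (.inr (e2.symm.trans ?_)))
  exact a13 _ _ _ (or_congr_right or_left_comm |>.1 (P _ j jD 2 c13.1))
    (or_congr_right or_left_comm |>.1 (P _ j jD 4 c13.2)) (.inl e1)

/-- Choose `v ≠ 0` with stabilizer `T` of maximal order, `U` the fixed space of `T` (`Fm.fix_nd`), `M = N(T)`.  Every nonzero
`u ∈ U` has stabilizer `T`, so `ρ h u = c u` gives `h ∈ M`.  `Fm.res` gives a semiregular `Sp`. -/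
theorem Md.eq_seven (h : Md ρ) (h7 : 7 ≤ r) : r = 7 := by
  obtain ⟨B, hB⟩ := h.exists_fm (by omega)
  let st : V → Subgroup H := fun v =>
    { carrier := {g | ρ g v = v}
      mul_mem' := fun {a b} ha hb => show ρ (a * b) v = v by rw [map_mul, Module.End.mul_apply, hb, ha]
      one_mem' := show ρ 1 v = v by simp
      inv_mem' := fun {a} ha => show ρ a⁻¹ v = v by
        conv_lhs => rw [← show ρ a v = v from ha, ← Module.End.mul_apply, LinB.ii]
        rfl }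
  obtain ⟨v, v0, mx⟩ := Set.exists_max_image {v : V | v ≠ 0} (fun v => Nat.card (st v)) (Set.toFinite _) h.nt
  let U : Submodule (ZMod r) V :=
    { carrier := {u | ∀ t ∈ st v, ρ t u = u}
      add_mem' := fun ha hb t ht => by rw [map_add, ha t ht, hb t ht]
      zero_mem' := fun t _ => map_zero _
      smul_mem' := fun c u hu t ht => by rw [map_smul, hu t ht] }
  have eq : ∀ u ∈ U, u ≠ 0 → st v = st u := fun u hu u0 => eq_of_le_of_card_ge hu (mx u u0)
  obtain ⟨X, _, _, σ, B', π, s, sj, e⟩ := hB.res h.sol h.cop (normalizer (st v : Set H)) U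
    (fun m hm u hu t ht => by
      rw [← Module.End.mul_apply, ← map_mul, show t * m = m * (m⁻¹ * t * m) by group, map_mul, Module.End.mul_apply,
        hu _ ((mem_normalizer_iff''.1 hm t).1 ht)])
    ⟨v, fun _ ht => ht, v0⟩
    (fun u hu c => hB.fix_nd (st v) (fun d => h.cop (d.trans (card_subgroup_dvd_card _))) hu c)
    fun u hu c c0 => by
      by_cases u0 : u = 0
      · exact ⟨1, one_mem _, by simp [u0]⟩
      obtain ⟨g, hg⟩ := (h.sp hB).ep u c c0
      refine ⟨g, mem_normalizer_iff''.2 fun t => ?_, hg⟩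
      rw [eq u hu u0]
      show ρ t u = u ↔ ρ (g⁻¹ * t * g) u = u
      have k : ρ g⁻¹ (c • u) = u := by rw [← hg, ← Module.End.mul_apply, LinB.ii]; rfl
      rw [map_mul, map_mul, Module.End.mul_apply, Module.End.mul_apply, hg]
      refine ⟨fun a => by rw [map_smul (ρ t), a, k], fun a => smul_right_injective V c0 ?_⟩
      have := congrArg (ρ g) a
      rwa [← Module.End.mul_apply, LinB.ii', Module.End.one_apply, map_smul, hg] at this
  refine s.semi h7 fun t t1 u hu => by_contra fun u0 => t1 (s.inj ?_)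
  obtain ⟨m, rfl⟩ := sj t
  have : m.1 ∈ st v :=
    (eq u u.2 fun c => u0 (Subtype.ext c)).ge ((e m u).symm.trans (congrArg Subtype.val hu))
  rw [map_one]
  exact LinearMap.ext fun w => Subtype.ext ((e m w).trans (w.2 _ this))

end CL.AH
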