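import Cfsg.Agent.FGS.AH.Q25

/-! Lower bounds for centralizer orders divisible by a prime `p ≥ 5`. -/

set_option autoImplicit false

namespace CL.AH

open Subgroup Cfsg

universe u

/-- One step.  `x = u w` (`exists_dec`); the image of `u` in `G ⧸ N` has `p`-power order dividing the order of the image of `x`, so
`1 ≠ u ∈ N` and `q = p`.  `σ` from `exists_rep`, `e v = u`, `σ w v = v`, `Rat.pair` (`x := w`, `y := u`, `m = 2`) gives `g ∈ C(w)` with
`σ g v = 2 • v`; `dim2`.  The fixed vectors of `w` give elements of `N` commuting with `w`. -/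
theorem sq_step {G : Type u} [Group G] [Finite G] (hr : Rat G) {p q : ℕ} (hp : p.Prime) (h5 : 5 ≤ p) (hq : q.Prime)
    (N : Subgroup G) [N.Normal] (hc : ∀ a ∈ N, ∀ b ∈ N, a * b = b * a) (hN : ∀ a ∈ N, a ^ q = 1) {x : G}
    (hx : p ∣ orderOf x) (hx' : ¬ p ∣ orderOf (x : G ⧸ N)) :
    q = p ∧ ∃ u w : G, x = u * w ∧ u * w = w * u ∧ u ∈ N ∧ ¬ p ∣ orderOf w ∧
      p ^ 2 ≤ Nat.card (N ⊓ centralizer {w} : Subgroup G) := by
  obtain ⟨u, w, e, c, uz, wz, ⟨k, hk⟩, hw⟩ := exists_dec hp x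
  have u1 : u ≠ 1 := fun h => hw (by rw [e, h, one_mul] at hx; exact hx)
  have uN : u ∈ N := by
    rw [← QuotientGroup.eq_one_iff, ← orderOf_eq_one_iff]
    have d1 : orderOf (u : G ⧸ N) ∣ p ^ k := hk ▸ orderOf_map_dvd (QuotientGroup.mk' N) u
    have d2 : orderOf (u : G ⧸ N) ∣ orderOf (x : G ⧸ N) := by
      obtain ⟨i, rfl⟩ := Bx.nat_pow uz
      rw [QuotientGroup.mk_pow]
      exact orderOf_pow_dvd i
    obtain ⟨j, -, hj⟩ := (Nat.dvd_prime_pow hp).1 d1
    rcases j with _ | j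
    · simpa using hj
    · exact absurd ((dvd_pow_self p j.succ_ne_zero).trans (hj ▸ d2)) hx'
  haveI := Fact.mk hq
  have ou : orderOf u = q := orderOf_eq_prime (hN u uN) u1
  have qp : q = p := (Nat.prime_dvd_prime_iff_eq hq hp).1 (hq.dvd_of_dvd_pow (by rw [← hk, ou]))
  subst qp
  refine ⟨rfl, u, w, e, c, uN, hw, ?_⟩
  obtain ⟨V, _, _, _, σ, f, fi, fN, fs, f0, -, fn, fc⟩ := exists_rep N hc hN
  obtain ⟨v, rfl⟩ := fs u uN
  have v0 : v ≠ 0 := fun h => u1 (by rw [h, f0])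
  have wv : σ w v = v := fi (by rw [fc, ← c, mul_inv_cancel_right])
  obtain ⟨g, g1, g2⟩ := hr.pair (x := w) (y := f v) (m := 2) c.symm
    (by rw [ou]; exact ((Nat.Prime.coprime_iff_not_dvd hq).2 hw).symm)
    (by rw [ou]; exact (Nat.coprime_primes Nat.prime_two hq).2 (by omega))
  have gv : σ g v = ((2 : ℕ) : ZMod q) • v := fi (by rw [fc, fn, g2])
  have h3 : ((2 : ℕ) : ZMod q) * ((2 : ℕ) : ZMod q) ≠ 1 := fun h => by
    have : ((3 : ℕ) : ZMod q) = 0 := by push_cast at h ⊢; linear_combination h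
    have := Nat.le_of_dvd (by norm_num) ((ZMod.natCast_eq_zero_iff 3 q).1 this)
    omega
  refine (dim2 σ hr.real hw g1 v0 wv gv h3).trans ?_
  refine Nat.card_le_card_of_injective (fun t => ⟨f t.1, fN _, Bx.mc.2 ?_⟩) fun t s h => ?_
  · have := fc w t.1
    rw [t.2] at this
    exact (mul_inv_eq_iff_eq_mul.1 this.symm).symm
  · exact Subtype.ext (fi (congrArg (fun y : (N ⊓ centralizer {w} : Subgroup G) => y.1) h))

namespace SqX

theorem card_lt {G : Type u} [Group G] [Finite G] {N : Subgroup G} [N.Normal] (ne : N ≠ ⊥) :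
    Nat.card (G ⧸ N) < Nat.card G := by
  have h1 := N.card_eq_card_quotient_mul_card_subgroup
  have h2 : 1 < Nat.card N := N.one_lt_card_iff_ne_bot.2 ne
  have h3 : 0 < Nat.card (G ⧸ N) := Nat.card_pos
  nlinarith

theorem nt {G : Type*} [Group G] {p : ℕ} (hp : p.Prime) {x : G} (hx : p ∣ orderOf x) : Nontrivial G :=
  ⟨x, 1, fun e => hp.one_lt.ne' (by rw [e, orderOf_one] at hx; exact Nat.dvd_one.1 hx)⟩

theorem dvd {G : Type u} [Group G] [Finite G] {N : Subgroup G} (hc : ∀ a ∈ N, ∀ b ∈ N, a * b = b * a) {u w : G}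
    (uN : u ∈ N) : Nat.card (N ⊓ centralizer {w} : Subgroup G) ∣ cz (u * w) :=
  card_dvd_cz fun k hk => (Commute.mul_right (hc k hk.1 u uN) (Bx.mc.1 hk.2)).eq

end SqX

/-- Induction on `|G|` with `exists_min`, `Rat.map`, `cz_map_le`, `sq_step` (`N ⊓ C(w) ≤ C(x)`). -/
theorem sq_le_ord (G : Type u) [Group G] [Finite G] (hs : Group.IsSolvable G) (hr : Rat G) {p : ℕ} (hp : p.Prime)
    (h5 : 5 ≤ p) (x : G) (hx : p ∣ orderOf x) : p ^ 2 ≤ cz x := by
  induction hn : Nat.card G using Nat.strong_induction_on generalizing G with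
  | _ n ih =>
  haveI := SqX.nt hp hx
  obtain ⟨N, q, hN, ne, hq, -, hc, he⟩ := exists_min hs
  by_cases hx' : p ∣ orderOf (x : G ⧸ N)
  · exact (ih _ (hn ▸ SqX.card_lt ne) (G ⧸ N) inferInstance (hr.map _ (QuotientGroup.mk'_surjective N)) _ hx' rfl).trans
      (cz_map_le (QuotientGroup.mk' N) (QuotientGroup.mk'_surjective N) x)
  · obtain ⟨-, u, w, rfl, -, uN, -, le⟩ := sq_step hr hp h5 hq N hc he hx hx'
    exact le.trans (Nat.le_of_dvd (cz_pos _) (SqX.dvd hc uN))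

/-- If `p ∤ orderOf x` take `y` of order `p` commuting with `x` and `x' = x y`; `x` is a power of `x'` (`cz_dvd_cz`). -/
theorem exists_ord_cz {G : Type*} [Group G] [Finite G] {p : ℕ} (hp : p.Prime) {x : G} (hx : p ∣ cz x) :
    ∃ x' : G, p ∣ orderOf x' ∧ cz x' ∣ cz x := by
  by_cases h : p ∣ orderOf x
  · exact ⟨x, h, dvd_rfl⟩
  obtain ⟨y, oy, c⟩ := exists_ord_of_dvd_cz hp hx
  have c' : Commute x y := c.symm
  have co : (orderOf x).Coprime (orderOf y) := oy ▸ ((Nat.Prime.coprime_iff_not_dvd hp).2 h).symm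
  refine ⟨x * y, by rw [c'.orderOf_mul_eq_mul_orderOf_of_coprime co, oy]; exact dvd_mul_left _ _, cz_dvd_cz fun g hg => ?_⟩
  obtain ⟨i, i1, i2⟩ := Nat.chineseRemainder co 1 0
  have xi : x ^ i = x := by simpa using pow_eq_pow_iff_modEq.2 i1
  have yi : y ^ i = 1 := by simpa using pow_eq_pow_iff_modEq.2 i2
  have := (Commute.pow_right hg i).eq
  rwa [c'.mul_pow, xi, yi, mul_one] at this

theorem sq_le {G : Type u} [Group G] [Finite G] (hs : Group.IsSolvable G) (hr : Rat G) {p : ℕ} (hp : p.Prime)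
    (h5 : 5 ≤ p) {x : G} (hx : p ∣ cz x) : p ^ 2 ≤ cz x := by
  obtain ⟨x', h1, h2⟩ := exists_ord_cz hp hx
  exact (sq_le_ord G hs hr hp h5 x' h1).trans (Nat.le_of_dvd (cz_pos _) h2)

/-- Reduce to `5 ∣ orderOf x` (`exists_ord_cz`).  Induction on `|G|`: if `5 ∣ orderOf (x : G ⧸ N)` use `cz_map_le` and `Dens.of_map`.
Otherwise `sq_step`: `K = N ⊓ C(w)` is a 5-group of order at least 25, so `25 ∣ |K| ∣ cz x`, and `orderOf w ∣ cz x` is coprime to 5; so
`cz x = 25`, `w = 1`, `x = u ∈ N`, `K = N ≤ C(x)`, `|N| = 25`, `C(x) = N`; `q25`. -/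
theorem q50 (G : Type u) [Group G] [Finite G] (hs : Group.IsSolvable G) (hr : Rat G) (x : G) (h5 : 5 ∣ cz x)
    (h50 : cz x < 50) : Dens G := by
  obtain ⟨x', h1, h2⟩ := exists_ord_cz Nat.prime_five h5
  have h3 : cz x' < 50 := (Nat.le_of_dvd (cz_pos _) h2).trans_lt h50
  clear h2 h5 h50 x
  induction hn : Nat.card G using Nat.strong_induction_on generalizing G with
  | _ n ih =>
  haveI := SqX.nt Nat.prime_five h1
  obtain ⟨N, q, hN, ne, hq, -, hc, he⟩ := exists_min hs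
  by_cases hx' : 5 ∣ orderOf (x' : G ⧸ N)
  · exact Dens.of_map (QuotientGroup.mk' N) (QuotientGroup.mk'_surjective N)
      (ih _ (hn ▸ SqX.card_lt ne) (G ⧸ N) inferInstance (hr.map _ (QuotientGroup.mk'_surjective N)) _ hx'
        ((cz_map_le (QuotientGroup.mk' N) (QuotientGroup.mk'_surjective N) x').trans_lt h3) rfl)
  · obtain ⟨rfl, u, w, rfl, c, uN, hw, le⟩ := sq_step hr Nat.prime_five le_rfl hq N hc he h1 hx'
    haveI := Fact.mk Nat.prime_five
    have d := SqX.dvd (w := w) hc uN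
    have pK : IsPGroup 5 (N ⊓ centralizer {w} : Subgroup G) := fun k => ⟨1, Subtype.ext (by simpa using he _ k.2.1)⟩
    obtain ⟨j, hj⟩ := IsPGroup.iff_card.1 pK
    have j2 : 2 ≤ j := (Nat.pow_le_pow_iff_right (by norm_num)).1 (hj ▸ le)
    have d25 : 25 ∣ cz (u * w) := (show 5 ^ 2 ∣ _ from hj ▸ pow_dvd_pow 5 j2).trans d
    have pos := cz_pos (u * w)
    have e : cz (u * w) = 25 := by omega
    have dw : orderOf w ∣ 5 ^ 2 := by
      have : orderOf w ∣ cz (u * w) := orderOf_dvd_cz (by rw [← mul_assoc, ← c])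
      rwa [e] at this
    have w1 : w = 1 := orderOf_eq_one_iff.1
      (Nat.Coprime.eq_one_of_dvd (((Nat.Prime.coprime_iff_not_dvd Nat.prime_five).2 hw).symm.pow_right 2) dw)
    subst w1
    have eN : (N ⊓ centralizer {(1 : G)} : Subgroup G) = N := inf_eq_left.2 fun g _ => Bx.mc.2 (by simp)
    rw [eN] at le d
    rw [mul_one] at e d
    have c25 : Nat.card N = 25 := le_antisymm (Nat.le_of_dvd (by norm_num) (e ▸ d)) le
    have leC : N ≤ centralizer {u} := fun k hk => Bx.mc.2 (hc k hk u uN)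
    have eq := eq_of_le_of_card_ge leC (by rw [c25, ← e]; exact le_rfl)
    exact q25 hr N hc he c25 uN fun g hg => eq.ge (Bx.mc.2 hg)

end CL.AH
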