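import Cfsg.Agent.FGS.AH.Bas

/-! The class equation. -/

set_option autoImplicit false

namespace CL.AH

open Subgroup Cfsg

variable {G : Type*} [Group G] [Finite G]

/-- the set of centralizer orders -/
noncomputable def Cs (G : Type*) [Group G] [Finite G] : Finset ℕ := (Set.toFinite (Set.range (cz : G → ℕ))).toFinset

theorem mem_Cs {c : ℕ} : c ∈ Cs G ↔ ∃ x : G, cz x = c := by
  simp [Cs]

/-- the fibre of `cz` through `x` is the class of `x` (`AH`, `cz_conj`); `card_conj_mul_cz` -/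
theorem AH.card_fib (h : AH G) (x : G) : Nat.card {y : G // cz y = cz x} * cz x = Nat.card G := by
  rw [← card_conj_mul_cz x, Nat.card_congr (Equiv.subtypeEquivRight fun y =>
    ⟨fun e => h x y e.symm, fun ⟨g, e⟩ => e ▸ cz_conj g x⟩)]

/-- `|{y | P (cz y)}| = ∑ c ∈ (Cs G).filter P, |G| / c` (`Finset.card_eq_sum_card_fiberwise`) -/
theorem AH.card_filter (h : AH G) (P : ℕ → Prop) [DecidablePred P] :
    (Nat.card {y : G // P (cz y)} : ℝ) = Nat.card G * Rs ((Cs G).filter P) := by
  classical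
  have := Fintype.ofFinite G
  rw [Nat.card_eq_fintype_card, Fintype.card_subtype, Finset.card_eq_sum_card_fiberwise (f := cz) (t := (Cs G).filter P)
    fun y hy => by simpa [mem_Cs] using hy, Rs, Finset.mul_sum, Nat.cast_sum]
  refine Finset.sum_congr rfl fun c hc => ?_
  obtain ⟨h1, h2⟩ := Finset.mem_filter.1 hc
  obtain ⟨x, rfl⟩ := mem_Cs.1 h1
  rw [← h.card_fib x, Nat.cast_mul, mul_inv_cancel_right₀ (Nat.cast_ne_zero.2 (cz_pos x).ne'), Nat.card_eq_fintype_card,
    Fintype.card_subtype, Finset.filter_filter]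
  exact congrArg (fun s : Finset G => (s.card : ℝ)) (Finset.filter_congr fun y _ => ⟨fun a => a.2, fun a => ⟨a ▸ h2, a⟩⟩)

theorem AH.rs_one (h : AH G) : Rs (Cs G) = 1 := by
  have := h.card_filter fun _ => True
  rw [Finset.filter_true, Nat.card_congr (Equiv.subtypeUnivEquiv fun _ => trivial)] at this
  exact (mul_eq_left₀ (Nat.cast_ne_zero.2 Nat.card_pos.ne')).1 this.symm

/-- `4 ∣ orderOf y` gives `4 ∣ cz y` -/
theorem AH.rs_dens (h : AH G) (hd : Dens G) : 3 / 4 ≤ Rs ((Cs G).filter (4 ∣ ·)) := by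
  have h1 := h.card_filter (4 ∣ ·)
  have h2 : Nat.card {g : G // 4 ∣ orderOf g} ≤ Nat.card {y : G // 4 ∣ cz y} :=
    Nat.card_le_card_of_injective _ (Subtype.impEmbedding _ _ fun y hy => hy.trans (orderOf_dvd_cz rfl)).injective
  have h3 : (3 * Nat.card G : ℝ) ≤ 4 * Nat.card {y : G // 4 ∣ cz y} := by exact_mod_cast hd.trans (by omega)
  have h4 : (0 : ℝ) < Nat.card G := Nat.cast_pos.2 Nat.card_pos
  rw [h1] at h3
  nlinarith

/-- the class of `x` has `|G| / cz x` elements -/
theorem ah_of_inj (h : Function.Injective fun C : ConjClasses G => Nat.card C.carrier) : AH G := by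
  intro x y e
  have k : ∀ x : G, Nat.card (ConjClasses.mk x).carrier * cz x = Nat.card G := fun x => by
    rw [← card_conj_mul_cz x, Nat.card_congr (Equiv.subtypeEquivRight fun y =>
      ConjClasses.mem_carrier_iff_mk_eq.trans (ConjClasses.mk_eq_mk_iff_isConj.trans (isConj_comm.trans isConj_iff)))]
  exact isConj_iff.1 (ConjClasses.mk_eq_mk_iff_isConj.1 (h (Nat.eq_of_mul_eq_mul_right (cz_pos y) (by beta_reduce; rw [k, ← e, k]))))

end CL.AH
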