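import Cfsg.Agent.FGS.AH.Bas
import Cfsg.Agent.TECH.SylIn

/-! Sylow 2-subgroups of rational groups; a centralizer of order two. -/

set_option autoImplicit false

namespace CL.AH

open Subgroup Cfsg

variable {G : Type*} [Group G] [Finite G]

namespace SylX

open CL.MSS

/-- `N(⟨u⟩) / C(u)` has order `φ(orderOf u)` -/
theorem tot (h : Rat G) (u : G) : Nat.totient (orderOf u) * cz u ∣ Nat.card G := by
  have s : Function.Surjective (zpowers u).normalizerMonoidHom := fun α => by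
    obtain ⟨m, hm⟩ := mem_powers_iff_mem_zpowers.2 (α ⟨u, mem_zpowers u⟩).2
    have hm : u ^ m = α ⟨u, mem_zpowers u⟩ := hm
    have o : orderOf (u ^ m) = orderOf u := by rw [hm, orderOf_coe, MulEquiv.orderOf_eq, orderOf_mk]
    have c : m.Coprime (orderOf u) := by
      rw [orderOf_pow] at o
      exact Nat.Coprime.symm ((Nat.div_eq_self.1 o).resolve_left (orderOf_pos u).ne')
    obtain ⟨g, hg⟩ := h u m c
    have k : ∀ x : zpowers u, g * x * g⁻¹ = α x := by
      rintro ⟨_, i, rfl⟩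
      have : (⟨u ^ i, i, rfl⟩ : zpowers u) = ⟨u, mem_zpowers u⟩ ^ i := rfl
      rw [this, map_zpow, coe_zpow, coe_zpow, ← conj_zpow, hg, hm]
    refine ⟨⟨g, mem_normalizer_fintype fun x hx => ?_⟩, MulEquiv.ext fun x => Subtype.ext (k x)⟩
    exact (k ⟨x, hx⟩).symm ▸ (α ⟨x, hx⟩).2
  have e := (zpowers u).normalizerMonoidHom.ker.card_mul_index
  rw [index_ker, MonoidHom.range_eq_top.2 s, card_top, IsCyclic.card_mulAut, Nat.card_zpowers,
    normalizerMonoidHom_ker, Nat.card_congr (subgroupOfEquivOfLe (centralizer_le_normalizer _)).toEquiv,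
    zpowers_eq_closure, centralizer_closure] at e
  rw [mul_comm, cz, e]
  exact card_subgroup_dvd_card _

theorem pg {p k : ℕ} {x : G} (h : orderOf x = p ^ k) : IsPGroup p (zpowers x) :=
  IsPGroup.of_card (by rw [Nat.card_zpowers, h])

theorem syl_dvd {p k : ℕ} [hp : Fact p.Prime] {T H : Subgroup G} (h : SylIn p T H) (d : p ^ k ∣ Nat.card H) :
    p ^ k ∣ Nat.card T := by
  rw [h.card_eq_pow_factorization]
  exact pow_dvd_pow p ((hp.out.pow_dvd_iff_le_factorization Nat.card_pos.ne').1 d)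

theorem four (h : Rat G) (h5 : 5 ∣ Nat.card G) : ∃ f : G, orderOf f = 4 := by
  have := Fact.mk Nat.prime_five
  obtain ⟨y, hy⟩ := exists_prime_orderOf_dvd_card' 5 h5
  obtain ⟨g, hg⟩ := h y 2 (by rw [hy]; norm_num)
  have k : ∀ n : ℕ, g ^ n * y * (g ^ n)⁻¹ = y ^ 2 ^ n := fun n => by
    induction n with
    | zero => simp
    | succ n ih => rw [pow_succ, mul_inv_rev, pow_succ 2, pow_mul, ← ih, conj_pow, ← hg]; group
  have e := k (orderOf g)
  rw [pow_orderOf_eq_one, one_mul, inv_one, mul_one, eq_comm, ← pow_one y, ← pow_mul, pow_eq_pow_iff_modEq, hy,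
    one_mul, ← Nat.div_add_mod (orderOf g) 4, pow_add, pow_mul, Nat.ModEq, Nat.mul_mod, Nat.pow_mod] at e
  have d : 4 ∣ orderOf g := by
    have := Nat.mod_lt (orderOf g) (show 0 < 4 by norm_num)
    refine Nat.dvd_of_mod_eq_zero ?_
    generalize orderOf g % 4 = j at *
    interval_cases j <;> simp_all
  exact ⟨_, orderOf_pow_orderOf_div (orderOf_pos g).ne' d⟩

theorem zp_eq {p : ℕ} (hp : p.Prime) {x y : G} (hx : orderOf x = p) (hy : y ∈ zpowers x) (y1 : y ≠ 1) :
    zpowers y = zpowers x := by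
  refine eq_of_le_of_card_ge (zpowers_le.2 hy) ?_
  rw [Nat.card_zpowers, Nat.card_zpowers, hx]
  exact ((hp.eq_one_or_self_of_dvd _ (hx ▸ orderOf_dvd_of_mem_zpowers hy)).resolve_left
    (mt orderOf_eq_one_iff.1 y1)).ge

theorem cm {x y g : G} (hy : y ∈ zpowers x) (e : g * x = x * g) : g * y = y * g := by
  obtain ⟨i, rfl⟩ := hy
  exact Commute.zpow_right e i

theorem cz_eq {p : ℕ} (hp : p.Prime) {x y : G} (hx : orderOf x = p) (hy : y ∈ zpowers x) (y1 : y ≠ 1) :
    cz y = cz x :=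
  Nat.dvd_antisymm (cz_dvd_cz fun _ => cm (zp_eq hp hx hy y1 ▸ mem_zpowers x)) (cz_dvd_cz fun _ => cm hy)

theorem ord_eq {p : ℕ} (hp : p.Prime) {x : G} (hx : cz x = p) (x1 : x ≠ 1) : orderOf x = p :=
  (hp.eq_one_or_self_of_dvd _ (hx ▸ orderOf_dvd_cz rfl)).resolve_left (mt orderOf_eq_one_iff.1 x1)

/-- a self-centralizing subgroup of order `p` is a Sylow `p`-subgroup -/
theorem syl {p : ℕ} [hp : Fact p.Prime] {x : G} (hx : cz x = p) (x1 : x ≠ 1) : SylIn p (zpowers x) ⊤ := by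
  have o := ord_eq hp.out hx x1
  refine ⟨le_top, pg (k := 1) (by rw [o, pow_one]), fun P hP le _ => le_antisymm (fun g hg => ?_) le⟩
  have xP := le (mem_zpowers x)
  have : Nontrivial P := ⟨⟨x, xP⟩, 1, fun e => x1 (congrArg Subtype.val e)⟩
  have := hP.center_nontrivial
  obtain ⟨⟨w, hw⟩, w1⟩ := exists_ne (1 : center P)
  have c : ∀ g ∈ P, g * w = w * g := fun g hg => congrArg Subtype.val (mem_center_iff.1 hw ⟨g, hg⟩)
  have m : (w : G) ∈ zpowers x := mem_zpowers_of_cz (hx.trans o.symm) (c x xP).symm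
  exact mem_zpowers_of_cz (hx.trans o.symm)
    (cm (zp_eq hp.out o m (fun e => w1 (Subtype.ext (Subtype.ext e))) ▸ mem_zpowers x) (c g hg))

theorem eq_one (h : AH G) {y : G} (e : cz y = Nat.card G) : y = 1 := by
  obtain ⟨g, hg⟩ := h y 1 (e.trans cz_one.symm)
  exact conj_eq_one_iff.1 hg

end SylX

open SylX CL.MSS

/-- Let `P` be a Sylow 2-subgroup containing `z`, `|P| = 2 ^ (n + 3)` with `n ≥ 1`.  `|C_P(z)| ≤ 4`, so
`CL.PCyc.nilpotencyClass_of_card_centralizer_le` and `exists_isDQS_of_nilpotencyClass` give `u ∈ P` of order `2 ^ (n + 2)`.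
By rationality `N(⟨u⟩) / C(u)` has order `φ(2 ^ (n + 2)) = 2 ^ (n + 1) ≥ 4`; it is enough to see `4 * cz u ∣ |G|` (the conjugates
of `u` inside `⟨u⟩` are the `2 ^ (n + 1)` generators: orbit-stabilizer in `N(⟨u⟩)`), so `2 ^ (n + 4) ∣ |G|`. -/
theorem Rat.not_sixteen (h : Rat G) {z : G} (hz : ∃ k : ℕ, orderOf z = 2 ^ k) (h8 : ¬ 8 ∣ cz z) :
    ¬ 16 ∣ Nat.card G := by
  intro d
  obtain ⟨k, hk⟩ := hz
  obtain ⟨P, hP, le⟩ := exists_sylIn_ge (pg hk) le_top
  obtain ⟨m, hm⟩ := IsPGroup.iff_card.1 hP.pgroup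
  have d4 : 2 ^ 4 ∣ 2 ^ m := hm ▸ syl_dvd hP (by rwa [card_top])
  obtain ⟨n, rfl⟩ : ∃ n, m = n + 1 + 3 := ⟨m - 4, by have := (Nat.pow_dvd_pow_iff_le_right one_lt_two).1 d4; omega⟩
  let z' : P := ⟨z, le (mem_zpowers z)⟩
  obtain ⟨j, hj⟩ := IsPGroup.iff_card.1 (hP.pgroup.to_subgroup (centralizer {z'}))
  have c : 2 ^ j ∣ cz z := by
    rw [← hj, ← card_map_of_injective P.subtype_injective]
    refine card_dvd_cz ?_
    rintro _ ⟨g, hg, rfl⟩
    exact congrArg Subtype.val (mem_centralizer_singleton_iff.1 hg)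
  have j2 : j ≤ 2 := by
    by_contra o
    exact h8 ((pow_dvd_pow 2 (show 3 ≤ j by omega)).trans c)
  obtain ⟨a, b, q⟩ := PCyc.exists_isDQS_of_nilpotencyClass hm
    (PCyc.nilpotencyClass_of_card_centralizer_le (p := 2) (n + 1 + 1) P hm
      ⟨z', hj ▸ Nat.pow_le_pow_right two_pos j2⟩)
  have o : orderOf (a : G) = 2 ^ (n + 2 + 1) := by rw [orderOf_coe, q.orderOf_eq]
  have t := tot h a
  rw [o, Nat.totient_prime_pow_succ Nat.prime_two] at t
  have t2 : 2 ^ (n + 2 + (n + 2 + 1)) ∣ Nat.card (⊤ : Subgroup G) := by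
    rw [card_top, pow_add]
    exact (mul_dvd_mul (dvd_mul_right _ _) (o ▸ orderOf_dvd_cz rfl)).trans t
  have := (Nat.pow_dvd_pow_iff_le_right one_lt_two).1 (hm ▸ syl_dvd hP t2)
  omega

/-- `g y g⁻¹ = y²` for `y` of order five gives `4 ∣ orderOf g` and an element `f` of order four.  If `8 ∣ cz x` then `x² = 1`
(`Rat.two_mul_cz_dvd`).  So `¬ 8 ∣ cz f`, a Sylow 2-subgroup `P ∋ f` has order 8 (`Rat.eight_dvd`) and is not abelian, its centre
is `{1, w}` (`P / Z(P)` is not cyclic).  If `x ≠ 1` and `8 ∣ cz x`, a Sylow 2-subgroup `Q ∋ x` of `C(x)` is Sylow in `G` and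
`x ∈ Z(Q)`, so `x` is conjugate to `w`. -/
theorem Rat.eight (h : Rat G) (h5 : 5 ∣ Nat.card G) (h16 : ¬ 16 ∣ Nat.card G) :
    ∃ m : ℕ, ∀ x : G, 8 ∣ cz x → cz x = Nat.card G ∨ cz x = m := by
  obtain ⟨f, hf⟩ := four h h5
  have sq : ∀ x : G, 8 ∣ cz x → x * x = 1 := fun x hx => by
    by_contra o
    exact h16 ((mul_dvd_mul_left 2 hx).trans (h.two_mul_cz_dvd o))
  have f8 : ¬ 8 ∣ cz f := fun o => by
    have := orderOf_dvd_of_pow_eq_one ((pow_two f).trans (sq f o))
    rw [hf] at this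
    omega
  obtain ⟨P, hP, le⟩ := exists_sylIn_ge (pg (p := 2) (k := 2) hf) le_top
  have cP : Nat.card P ∣ 8 := by
    obtain ⟨m, hm⟩ := IsPGroup.iff_card.1 hP.pgroup
    rw [hm]
    refine pow_dvd_pow 2 (show m ≤ 3 from ?_)
    by_contra o
    exact h16 ((pow_dvd_pow 2 (show 4 ≤ m by omega)).trans (hm ▸ card_subgroup_dvd_card P))
  refine ⟨cz (f ^ 2), fun x hx => or_iff_not_imp_left.2 fun n => ?_⟩
  have x1 : x ≠ 1 := fun e => n (e ▸ cz_one)
  have x2 : orderOf x = 2 ^ 1 := orderOf_eq_prime (p := 2) ((pow_two x).trans (sq x hx)) x1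
  obtain ⟨T, hT, xT⟩ := exists_sylIn_ge (H := centralizer {x}) (pg x2)
    (zpowers_le.2 (mem_centralizer_singleton_iff.2 rfl))
  obtain ⟨g, -, hg⟩ := hP.exists_conj_le hT.pgroup le_top
  have e : g •ᶜ T = P := eq_of_le_of_card_ge hg (by
    rw [card_cj]
    exact (Nat.le_of_dvd (by norm_num) cP).trans (Nat.le_of_dvd Nat.card_pos (syl_dvd (k := 3) hT hx)))
  have m : g * x * g⁻¹ ∈ P ⊓ centralizer {f} := by
    refine ⟨hg (conj_mem_cj (xT (mem_zpowers x))), mem_centralizer_singleton_iff.2 ?_⟩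
    obtain ⟨t, ht, rfl⟩ := mem_cj'.1 (e.ge (le (mem_zpowers f)))
    rw [conj_mul, conj_mul, mem_centralizer_singleton_iff.1 (hT.le ht)]
  have l : zpowers f ≤ P ⊓ centralizer {f} := le_inf le (zpowers_le.2 (mem_centralizer_singleton_iff.2 rfl))
  have e2 : zpowers f = P ⊓ centralizer {f} := eq_of_le_of_card_ge l (by
    have a1 := card_dvd_of_le l
    have a2 := (card_dvd_of_le (inf_le_left (a := P) (b := centralizer {f}))).trans cP
    have a3 := card_dvd_of_le (inf_le_right (a := P) (b := centralizer {f}))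
    rw [Nat.card_zpowers, hf] at *
    have a4 := Nat.le_of_dvd (by norm_num) a2
    have a5 : Nat.card (P ⊓ centralizer {f} : Subgroup G) ≠ 8 := fun o => f8 (o ▸ a3)
    omega)
  obtain ⟨i, hi⟩ := mem_powers_iff_mem_zpowers.2 (e2.ge m)
  have hi : f ^ i = g * x * g⁻¹ := hi
  have i1 : 4 ∣ i * 2 := by
    rw [← hf, orderOf_dvd_iff_pow_eq_one, pow_mul, hi, conj_pow, pow_two, sq x hx, mul_one, mul_inv_cancel]
  have i2 : ¬ 4 ∣ i := by
    rw [← hf, orderOf_dvd_iff_pow_eq_one, hi, conj_eq_one_iff]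
    exact x1
  rw [← cz_conj g, ← hi, ← pow_mod_orderOf, hf, show i % 4 = 2 by omega]

/-- `y` of order five, `25 ≤ cz y`; `y, y², y³, y⁴` are conjugate, so `4 * cz y ≤ |G|` (`card_conj_mul_cz`); `40 ∣ |G|`. -/
theorem Rat.card_ge (h : Rat G) (h5 : 5 ∣ Nat.card G) (h25 : ∀ y : G, orderOf y = 5 → 25 ≤ cz y) :
    120 ≤ Nat.card G := by
  have := Fact.mk Nat.prime_five
  obtain ⟨y, hy⟩ := exists_prime_orderOf_dvd_card' 5 h5
  obtain ⟨f, hf⟩ := four h h5
  have t := Nat.le_of_dvd Nat.card_pos (tot h y)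
  rw [hy, show Nat.totient 5 = 4 by decide] at t
  have := h.eight_dvd hf.symm.dvd
  have := h25 y hy
  omega

/-- `x` of order three, `C(x) = ⟨x⟩` is a Sylow 3-subgroup (the centre of a Sylow 3-subgroup containing `x` lies in `C(x)`).
If `3 ∣ cz y`, then `y` commutes with an element `x'` of order three, `⟨x'⟩` is conjugate to `⟨x⟩`, so `cz x' = 3` and
`y ∈ ⟨x'⟩`. -/
theorem three_cz {x : G} (hx : cz x = 3) (y : G) (hy : 3 ∣ cz y) : cz y = 3 ∨ cz y = Nat.card G := by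
  have := Fact.mk Nat.prime_three
  by_cases x1 : x = 1
  · rw [x1, cz_one] at hx
    exact .inl (Nat.dvd_antisymm (hx ▸ cz_dvd_card y) hy)
  refine or_iff_not_imp_right.2 fun n => ?_
  obtain ⟨w, hw, e⟩ := exists_ord_of_dvd_cz Nat.prime_three hy
  obtain ⟨g, -, hg⟩ := (syl hx x1).exists_conj_le (pg (p := 3) (k := 1) hw) le_top
  have w1 : w ≠ 1 := fun o => by simp [o] at hw
  have c := cz_eq Nat.prime_three (ord_eq Nat.prime_three hx x1) (hg (conj_mem_cj (mem_zpowers w)))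
    (mt conj_eq_one_iff.1 w1)
  rw [cz_conj, hx] at c
  rw [cz_eq Nat.prime_three hw (mem_zpowers_of_cz (c.trans hw.symm) e.symm) fun o => n (o ▸ cz_one), c]

/-- `x ≠ 1` (if `|G| = 2`, then `cz` is constant and all elements are conjugate to `1`), so `x` is an involution and `⟨x⟩` is a
Sylow 2-subgroup.  It has a normal complement `K` (`IsCyclic.isComplement'`), `x` acts on `K` without fixed points, so it
inverts `K` and `K` is abelian (`MonoidHom.FixedPointFree`).  For `1 ≠ k ∈ K`, `C(k) = K` and the class is `{k, k⁻¹}`; so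
`|K| = 3` (`K ≠ 1` as above).  The action on the three cosets of `⟨x⟩` is faithful, and `|G| = 6`. -/
theorem AH.sym3 (h : AH G) {x : G} (hx : cz x = 2) : Nonempty (G ≃* Equiv.Perm (Fin 3)) := by
  have n2 : Nat.card G ≠ 2 := fun o => by
    have : Nontrivial G := Finite.one_lt_card_iff_nontrivial.1 (by omega)
    obtain ⟨y, y1⟩ := exists_ne (1 : G)
    refine y1 (eq_one h (Nat.dvd_antisymm (cz_dvd_card y) ?_))
    rw [o, ← (Nat.prime_two.eq_one_or_self_of_dvd _ (o ▸ orderOf_dvd_natCard y)).resolve_left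
      (mt orderOf_eq_one_iff.1 y1)]
    exact orderOf_dvd_cz rfl
  have x1 : x ≠ 1 := fun o => n2 (by rwa [o, cz_one] at hx)
  have o := ord_eq Nat.prime_two hx x1
  have xx : x * x = 1 := by rw [← pow_two, ← o, pow_orderOf_eq_one]
  obtain ⟨P, hP⟩ := sylIn_top_iff.1 (syl hx x1)
  have c := IsCyclic.isComplement' (P := P) ((Nat.minFac_eq_two_iff _).2 (hx ▸ cz_dvd_card x))
    (by rw [hP]; infer_instance)
  obtain ⟨K, hK, c⟩ : ∃ K : Subgroup G, K.Normal ∧ K.IsComplement' (zpowers x) := ⟨_, inferInstance, by rw [← hP]; exact c⟩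
  have ci : K.index = 2 := by rw [c.symm.index_eq_card, Nat.card_zpowers, o]
  have cK : Nat.card K * 2 = Nat.card G := ci ▸ K.card_mul_index
  have fx : ∀ k ∈ K, x * k * x⁻¹ = k → k = 1 := fun k hk e =>
    mem_bot.1 (c.disjoint.le_bot ⟨hk, mem_zpowers_of_cz (hx.trans o.symm) (mul_inv_eq_iff_eq_mul.1 e).symm⟩)
  have fp : MonoidHom.FixedPointFree (MulAut.conjNormal (H := K) x) := fun k e =>
    Subtype.ext (fx k k.2 (congrArg Subtype.val e))
  have iv : Function.Involutive (MulAut.conjNormal (H := K) x) := fun k => by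
    rw [← MulAut.mul_apply, ← map_mul, xx, map_one, MulAut.one_apply]
  have inv : ∀ k ∈ K, x * k * x⁻¹ = k⁻¹ := fun k hk =>
    congrArg Subtype.val (congrFun (fp.coe_eq_inv_of_involutive iv) ⟨k, hk⟩)
  have ab : ∀ k ∈ K, ∀ l ∈ K, k * l = l * k := fun k hk l hl =>
    congrArg Subtype.val (fp.commute_all_of_involutive iv ⟨k, hk⟩ ⟨l, hl⟩).eq
  have xK : x ∉ K := fun e => x1 (fx x e (by simp))
  have ck : ∀ k ∈ K, k ≠ 1 → cz k = Nat.card K := fun k hk k1 => by
    obtain ⟨a, ha⟩ := card_dvd_cz fun l hl => ab l hl k hk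
    have d := cz_dvd_card k
    have n : cz k ≠ Nat.card G := fun e => k1 (eq_one h e)
    rw [← cK, ha] at d n
    rcases (Nat.dvd_prime Nat.prime_two).1 (Nat.dvd_of_mul_dvd_mul_left Nat.card_pos d) with rfl | rfl
    · rw [ha, mul_one]
    · exact absurd rfl n
  obtain ⟨⟨k, hk⟩, k1⟩ := ne_bot_iff_exists_ne_one.1 (show K ≠ ⊥ from fun e => n2 (by rw [← cK, e, card_bot]))
  have k1 : k ≠ 1 := fun e => k1 (Subtype.ext e)
  have c3 : Nat.card K = 3 := by
    classical
    have : (K : Set G) = ({1, k, k⁻¹} : Finset G) := by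
      ext l
      simp only [Finset.coe_insert, Finset.coe_singleton, Set.mem_insert_iff, Set.mem_singleton_iff, SetLike.mem_coe]
      refine ⟨fun hl => or_iff_not_imp_left.2 fun l1 => ?_, ?_⟩
      · obtain ⟨g, rfl⟩ := h k l ((ck k hk k1).trans (ck l hl l1).symm)
        by_cases gK : g ∈ K
        · exact .inl (by rw [ab g gK k hk, mul_inv_cancel_right])
        · have m : g * x ∈ K := (mul_mem_iff_of_index_two ci).2 (iff_of_false gK xK)
          refine .inr ?_
          rw [show g * k * g⁻¹ = g * x * (x * k * x⁻¹) * (g * x)⁻¹ by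
            rw [← mul_assoc, ← mul_assoc, mul_assoc g x x, xx, inv_eq_of_mul_eq_one_right xx, mul_inv_rev,
              inv_eq_of_mul_eq_one_right xx, ← mul_assoc, mul_assoc _ x x, xx, mul_one, mul_one],
            inv k hk, ab _ m _ (inv_mem hk), mul_inv_cancel_right]
      · rintro (rfl | rfl | rfl)
        exacts [one_mem _, hk, inv_mem hk]
    rw [← SetLike.coe_sort_coe, this, Finset.coe_sort_coe, Nat.card_eq_fintype_card, Fintype.card_coe,
      Finset.card_eq_three]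
    exact ⟨1, k, k⁻¹, k1.symm, (inv_ne_one.2 k1).symm, fun e => k1 (fx k hk ((inv k hk).trans e.symm)), rfl⟩
  have i3 : Nat.card (G ⧸ zpowers x) = 3 := c.index_eq_card.trans c3
  have inj : Function.Injective (MulAction.toPermHom G (G ⧸ zpowers x)) := by
    rw [← MonoidHom.ker_eq_bot_iff, ← normalCore_eq_ker, eq_bot_iff]
    intro y hy
    by_contra y1
    have e := zp_eq Nat.prime_two o (normalCore_le _ hy) y1
    have m : k * x * k⁻¹ * x⁻¹ ∈ zpowers x :=
      mul_mem (normalCore_le _ ((normalCore_normal _).conj_mem x (zpowers_le.2 hy (e ▸ mem_zpowers x)) k))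
        (inv_mem (mem_zpowers x))
    rw [show k * x * k⁻¹ * x⁻¹ = k * (x * k * x⁻¹)⁻¹ by group, inv k hk, inv_inv] at m
    have := mem_bot.1 (c.disjoint.le_bot ⟨mul_mem hk hk, m⟩)
    exact k1 (fx k hk ((inv k hk).trans (inv_eq_of_mul_eq_one_right this)))
  exact ⟨(MulEquiv.ofBijective _ ((Nat.bijective_iff_injective_and_card _).2 ⟨inj, by
    rw [Nat.card_perm, i3, ← cK, c3]; rfl⟩)).trans (Finite.equivFinOfCardEq i3).permCongrHom⟩

end CL.AH
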