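import Cfsg.Agent.FGS.AH.NineB

/-! An element of order nine that is self-centralizing: the quaternion quotient. -/

set_option autoImplicit false

namespace CL.AH

open Subgroup Cfsg

namespace NC

variable {D E : Type*} [Group D] [Ring E]

/-- the elements whose image commutes with the image of `x` -/
def CC (φ : D →* E) (x : D) : Subgroup D where
  carrier := {g | φ g * φ x = φ x * φ g}
  one_mem' := by simp
  mul_mem' := fun {g h} hg hh => by
    show φ (g * h) * φ x = φ x * φ (g * h)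
    rw [map_mul]
    exact Commute.mul_left hg hh
  inv_mem' := fun {g} hg => by
    show φ g⁻¹ * φ x = φ x * φ g⁻¹
    have hg' : φ g * φ x = φ x * φ g := hg
    calc φ g⁻¹ * φ x = φ g⁻¹ * (φ x * φ g) * φ g⁻¹ := by
          rw [mul_assoc, mul_assoc, ← map_mul φ g, mul_inv_cancel, map_one, mul_one]
      _ = φ x * φ g⁻¹ := by
          rw [← hg', ← mul_assoc, ← map_mul φ g⁻¹, inv_mul_cancel, map_one, one_mul]

theorem core (φ : D →* E) (B : E) (k k' : D) (ne : (1 : E) ≠ -1) (two : ∀ a : E, a + a = 0 → a = 0)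
    (sq : ∀ g, φ g * φ g = 1 ∨ φ g * φ g = -1)
    (cu : ∀ g, (φ g * B) ^ 3 = 1 ∨ (φ g * B) ^ 3 = -1) (b3 : B ^ 3 = 1)
    (kk : φ k * φ k = -1) (kk' : φ k' * φ k' = -1) (anti : φ k * φ k' = -(φ k' * φ k))
    (rel : (φ k - φ k * φ k') * B + (1 - φ k * φ k') = 0) :
    ∃ R : Subgroup D, R.index = 4 ∧ ∀ g, g ∈ R ↔ φ g * φ g = 1 := by
  have mC : ∀ {x g : D}, g ∈ CC φ x ↔ φ g * φ x = φ x * φ g := Iff.rfl
  have cm : ∀ g h, φ g * φ h = φ h * φ g ∨ φ g * φ h = -(φ h * φ g) := by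
    intro g h
    have e : φ g * φ h =
        (φ g * φ g) * (φ (g⁻¹ * h) * φ (g⁻¹ * h)) * (φ h⁻¹ * φ h⁻¹) * (φ h * φ g) := by
      simp only [← map_mul]; congr 1; group
    rcases sq g with a | a <;> rcases sq (g⁻¹ * h) with b | b <;> rcases sq h⁻¹ with c | c <;>
      rw [a, b, c] at e <;> simp [e]
  have nb : ∀ g h, φ g * φ h = -(φ h * φ g) → φ g * φ h ≠ φ h * φ g := by
    intro g h a b
    have z : φ h * φ g = 0 := two _ (by rw [b] at a; exact eq_neg_iff_add_eq_zero.1 a)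
    have : (1 : E) = 0 := by
      rw [← map_one φ, ← mul_inv_cancel (h * g), map_mul, map_mul, z, zero_mul]
    exact ne (by rw [this, neg_zero])
  have idx : ∀ (S : Subgroup D) (x a : D), a ∈ S → φ a * φ x = -(φ x * φ a) →
      (CC φ x).relIndex S = 2 := by
    intro S x a aS ha
    refine relIndex_eq_two_iff.2 ⟨a, aS, fun g _ => ?_⟩
    rcases cm g x with c | c
    · refine Or.inr ⟨c, fun e => nb (g * a) x ?_ e⟩
      rw [map_mul, mul_assoc, ha, mul_neg, ← mul_assoc, c, mul_assoc]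
    · refine Or.inl ⟨mC.2 ?_, nb g x c⟩
      rw [map_mul, mul_assoc, ha, mul_neg, ← mul_assoc, c, neg_mul, neg_neg, mul_assoc]
  have anti' : φ k' * φ k = -(φ k * φ k') := by rw [anti, neg_neg]
  have B2 : B + B = (1 + φ k') * (φ k + φ k') := by
    have r1 : (1 - φ k') * B = φ k + φ k' := by
      have := congrArg (fun y => φ k * y) rel
      simp only [mul_add, mul_sub, mul_zero, ← mul_assoc, kk, mul_one] at this
      rw [← sub_eq_zero, ← neg_eq_zero, ← this]
      noncomm_ring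
    rw [← r1, ← mul_assoc]
    have : (1 + φ k') * (1 - φ k') = 1 - φ k' * φ k' := by noncomm_ring
    rw [this, kk']
    noncomm_ring
  have fw : ∀ g, g ∈ CC φ k ⊓ CC φ k' → φ g * φ g = 1 := by
    rintro g ⟨c1, c2⟩
    have c1 : Commute (φ g) (φ k) := c1
    have c2 : Commute (φ g) (φ k') := c2
    have c3 : Commute (φ g) (B + B) := by
      rw [B2]
      exact ((Commute.one_right _).add_right c2).mul_right (c1.add_right c2)
    have c4 : Commute (φ g) B := by
      refine sub_eq_zero.1 (two _ ?_)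
      have := sub_eq_zero.2 c3.eq
      rw [← this]; noncomm_ring
    refine (sq g).resolve_right fun a => ne ?_
    have c5 := cu g
    rw [c4.mul_pow, b3, mul_one, pow_three', a, neg_one_mul] at c5
    rcases c5 with c5 | c5
    · rw [← a, ← neg_mul_neg, c5, one_mul]
    · rw [← a, ← neg_mul_neg, c5, neg_mul_neg, one_mul]
  have bw : ∀ g x, φ x * φ x = -1 → φ g * φ x = φ x * φ g → g * x ∈ CC φ k ⊓ CC φ k' →
      φ g * φ g ≠ 1 := by
    intro g x xx c m a
    have := fw _ m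
    rw [map_mul, mul_assoc, ← mul_assoc (φ x), ← c, mul_assoc, xx, ← mul_assoc, a, one_mul] at this
    exact ne this.symm
  refine ⟨CC φ k ⊓ CC φ k', ?_, fun g => ⟨fw g, fun a => ?_⟩⟩
  · rw [← relIndex_mul_index (inf_le_left : CC φ k ⊓ CC φ k' ≤ CC φ k), inf_relIndex_left,
      idx _ k' k (mC.2 rfl) anti, ← relIndex_top_right, idx ⊤ k k' (mem_top _) anti']
  · rcases cm g k with c1 | c1 <;> rcases cm g k' with c2 | c2
    · exact ⟨c1, c2⟩
    · refine (bw g k kk c1 ⟨mul_mem c1 (mC.2 rfl), mC.2 ?_⟩ a).elim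
      rw [map_mul, mul_assoc, anti, mul_neg, ← mul_assoc, c2, neg_mul, neg_neg, mul_assoc]
    · refine (bw g k' kk' c2 ⟨mC.2 ?_, mul_mem c2 (mC.2 rfl)⟩ a).elim
      rw [map_mul, mul_assoc, anti', mul_neg, ← mul_assoc, c1, neg_mul, neg_neg, mul_assoc]
    · refine (bw g (k * k') ?_ ?_ ⟨mC.2 ?_, mC.2 ?_⟩ a).elim
      · rw [map_mul, mul_assoc, ← mul_assoc (φ k'), anti', neg_mul, mul_assoc, kk', mul_neg,
          ← mul_assoc, kk]
        simp
      · rw [map_mul, ← mul_assoc, c1, neg_mul, mul_assoc, c2, mul_neg, neg_neg, mul_assoc]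
      · rw [map_mul, map_mul, mul_assoc, mul_assoc, anti', ← mul_assoc (φ k) (φ g), ← neg_neg (φ k * φ g),
          ← c1]
        noncomm_ring
      · rw [map_mul, map_mul, ← mul_assoc (φ k') (φ g), ← neg_neg (φ k' * φ g), ← c2, neg_mul,
          mul_assoc (φ g) (φ k'), ← mul_assoc (φ k') (φ k), anti']
        noncomm_ring

end NC

variable {r : ℕ} [Fact r.Prime] {H : Type*} [Group H] [Finite H] {V : Type*} [AddCommGroup V] [Module (ZMod r) V]
  [Finite V] {ρ : Representation (ZMod r) H V} {B : V →ₗ[ZMod r] V →ₗ[ZMod r] ZMod r}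

/-- `c = k * k`, `k' = b k b⁻¹`.  Take a weight vector `w` of `Z` in `{u | ρ c u = - u} ≠ 0` (`exists_wt`).
`U = {u | ∀ x ∈ Z, (ρ x w = w → ρ x u = u) ∧ (ρ x w = - w → ρ x u = - u)}` contains `w` and is invariant under `D` and `b`.  Commutators
of `D` lie in `Z` (`D / Z` has exponent two: `g x g⁻¹ x⁻¹ = g² (g⁻¹ x)² (x⁻¹)²`).  On `U`: `k² = k'² = -1`, `k k' = - k' k`.
`R = {g ∈ D | g commutes on U (equivalently on w) with k and k'}` is the kernel of the homomorphism
`D → {±1} × {±1}`, `g ↦ (χ ⁅g, k⁆, χ ⁅g, k'⁆)`, which is onto; or directly: the cosets are `R, k R, k' R, k k' R`.  `Qd.rel` gives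
`k (1 - k') b = -(1 - k k')` and `(1 + k')(1 - k') = 2` on `U`, so `g ∈ R` commutes with `b` on `U`; then `(g b) ^ 3 = g ^ 3` on `U` is `±1`,
`g²` is `±1`, so `g = ±1` on `U` and `g² = 1` on `U`.  If `g ∈ D \ R`, then `g = x g₀` with `g₀ ∈ R`, `x ∈ {k, k', k k'}`, and
`g² = x² = -1` on `U`. -/
theorem Nd.key (h5 : 5 ≤ r) (hi : Function.Injective ρ) {t k : H} {D Z : Subgroup H} (h : Nd ρ t D Z k) :
    ∃ (w : V) (R : Subgroup H), w ≠ 0 ∧ R ≤ D ∧ R.relIndex D = 4 ∧ ∀ g ∈ D, (g ∈ R ↔ ρ (g * g) w = w) := by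
  obtain ⟨b, hb⟩ : ∃ b, b = t ^ 3 := ⟨_, rfl⟩
  have b3 : b ^ 3 = 1 := by rw [hb, ← pow_mul]; exact h.t9
  have k'D : b * k * b⁻¹ ∈ D := by
    have := h.tD _ (h.tD _ (h.tD k h.kD))
    convert this using 1
    rw [hb]; simp only [pow_succ, pow_zero]; group
  have cZ := h.sq k h.kD
  have two : ∀ v : V, v + v = 0 → v = 0 := by
    intro v hv
    rw [← two_smul (ZMod r) v] at hv
    refine (smul_eq_zero.1 hv).resolve_left ?_
    exact_mod_cast LinB.nz h5 (n := 2) (by norm_num) (by norm_num)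
  have app : ∀ (x y : H) (v : V), ρ (x * y) v = ρ x (ρ y v) := fun x y v => by rw [map_mul]; rfl
  obtain ⟨w, wU, w0, hw⟩ := exists_wt (ρ := ρ) h5 h.z2 (LinearMap.ker (ρ (k * k) + 1))
    (fun x hx u hu => by
      rw [LinearMap.mem_ker, LinearMap.add_apply, Module.End.one_apply] at hu ⊢
      rw [← app, h.zc x hx _ (h.le cZ), app, ← map_add, hu, map_zero])
    (by
      have : ρ (k * k) ≠ 1 := fun e => h.k2 (hi (e.trans (map_one ρ).symm))
      obtain ⟨v, hv⟩ : ∃ v, ρ (k * k) v ≠ v := by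
        by_contra hh
        push Not at hh
        exact this (LinearMap.ext hh)
      refine ⟨ρ (k * k) v - v, ?_, sub_ne_zero.2 hv⟩
      rw [LinearMap.mem_ker, LinearMap.add_apply, Module.End.one_apply, map_sub, ← app,
        h.z2 _ cZ, map_one, Module.End.one_apply]
      abel)
  have cw : ρ (k * k) w = -w := by
    rw [LinearMap.mem_ker, LinearMap.add_apply, Module.End.one_apply] at wU
    exact eq_neg_of_add_eq_zero_left wU
  have nw : w ≠ -w := fun e => w0 (two w (eq_neg_iff_add_eq_zero.1 e))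
  let U : Submodule (ZMod r) V :=
    { carrier := {u | ∀ x ∈ Z, (ρ x w = w → ρ x u = u) ∧ (ρ x w = -w → ρ x u = -u)}
      add_mem' := fun {u v} hu hv x hx =>
        ⟨fun e => by rw [map_add, (hu x hx).1 e, (hv x hx).1 e],
          fun e => by rw [map_add, (hu x hx).2 e, (hv x hx).2 e, neg_add]⟩
      zero_mem' := fun x hx => ⟨fun _ => map_zero _, fun _ => by rw [map_zero, neg_zero]⟩
      smul_mem' := fun a u hu x hx =>
        ⟨fun e => by rw [map_smul, (hu x hx).1 e], fun e => by rw [map_smul, (hu x hx).2 e, smul_neg]⟩ }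
  have wU' : w ∈ U := fun x _ => ⟨id, id⟩
  set M := centralizer (Z : Set H) with hM
  have inv : ∀ g : M, U ≤ U.comap ((ρ.comp M.subtype : Representation (ZMod r) M V) g) := by
    intro g u hu x hx
    show (_ → ρ x (ρ g u) = ρ g u) ∧ (_ → ρ x (ρ g u) = - ρ g u)
    rw [← app, g.2 x hx, app]
    exact ⟨fun e => by rw [(hu x hx).1 e], fun e => by rw [(hu x hx).2 e, map_neg]⟩
  set σ := Representation.subrepresentation (ρ.comp M.subtype) U inv with hσ
  have sa : ∀ (g : M) (u : U), ((σ g u : U) : V) = ρ g u := fun g u => rfl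
  have DM : D ≤ M := fun g hg x hx => (h.zc x hx g hg).symm
  have bM : b ∈ M := fun x hx => by rw [hb]; exact (h.zb x hx).symm
  have p1 : ∀ g : M, (g : H) ∈ Z → ρ g w = w → σ g = 1 := fun g hg e =>
    LinearMap.ext fun u => Subtype.ext ((u.2 g hg).1 e)
  have p2 : ∀ g : M, (g : H) ∈ Z → ρ g w = -w → σ g = -1 := fun g hg e =>
    LinearMap.ext fun u => Subtype.ext ((u.2 g hg).2 e)
  have pm : ∀ g : M, (g : H) ∈ Z → σ g = 1 ∨ σ g = -1 := fun g hg =>
    (hw g hg).imp (p1 g hg) (p2 g hg)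
  set φ : D →* Module.End (ZMod r) U := MonoidHom.comp σ (inclusion DM) with hφ
  have fa : ∀ g : D, φ g = σ ⟨g, DM g.2⟩ := fun g => rfl
  have kk : φ ⟨k, h.kD⟩ * φ ⟨k, h.kD⟩ = -1 := by
    rw [← map_mul, fa]; exact p2 _ cZ cw
  obtain ⟨R, R4, hR⟩ := NC.core φ (σ ⟨b, bM⟩) ⟨k, h.kD⟩ ⟨_, k'D⟩
    (fun e => nw (congrArg Subtype.val (LinearMap.congr_fun e ⟨w, wU'⟩)))
    (fun a e => LinearMap.ext fun u => Subtype.ext
      (two _ (congrArg Subtype.val (LinearMap.congr_fun e u))))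
    (fun g => by rw [← map_mul, fa]; exact pm _ (h.sq g g.2))
    (fun g => by
      rw [fa, ← map_mul, ← map_pow]
      exact pm _ (by have := h.cu g g.2; rwa [← hb] at this))
    (by rw [← map_pow, ← map_one σ]; congr 1; exact Subtype.ext b3)
    kk
    (by
      rw [← kk, ← map_mul, ← map_mul]
      congr 1
      apply Subtype.ext
      show b * k * b⁻¹ * (b * k * b⁻¹) = k * k
      calc b * k * b⁻¹ * (b * k * b⁻¹) = b * (k * k) * b⁻¹ := by group
        _ = k * k := by rw [← bM _ cZ]; group)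
    (by
      rw [← neg_one_mul, ← kk, ← map_mul, ← map_mul, ← map_mul, ← map_mul]
      congr 1
      apply Subtype.ext
      have := h.kc
      rwa [← hb] at this)
    (by
      have := (hb ▸ h.qd : Qd ρ b).rel (k := k) (hb ▸ h.kq)
      exact LinearMap.ext fun u => Subtype.ext (LinearMap.congr_fun this u))
  refine ⟨w, R.map D.subtype, w0, map_subtype_le R, ?_, fun g hg => ?_⟩
  · rw [relIndex, subgroupOf, comap_map_eq_self_of_injective D.subtype_injective, R4]
  · have : g ∈ R.map D.subtype ↔ (⟨g, hg⟩ : D) ∈ R :=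
      mem_map_iff_mem (f := D.subtype) D.subtype_injective (x := ⟨g, hg⟩)
    rw [this, hR, ← map_mul, fa]
    exact ⟨fun e => congrArg Subtype.val (LinearMap.congr_fun e ⟨w, wU'⟩),
      fun e => p1 _ (h.sq g hg) e⟩

end CL.AH
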