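import Cfsg.Agent.FGS.AH.NineA
import Cfsg.Agent.FGS.AH.NineC

/-! An element of order nine that is self-centralizing. -/

set_option autoImplicit false

namespace CL.AH

open Subgroup Cfsg

/-- all orbits of `zpowers σ` other than `{x₀}` have nine elements (`Equiv.Perm.cycleType`: every cycle length divides 9 and is not 3;
or the class formula for the action of `zpowers σ`) -/
theorem card_mod_nine {X : Type*} [Finite X] (σ : Equiv.Perm X) (h9 : σ ^ 9 = 1) (x₀ : X)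
    (h3 : ∀ x, (σ ^ 3) x = x ↔ x = x₀) : Nat.card X % 9 = 1 := by
  classical
  have := Fintype.ofFinite X
  have f0 : σ x₀ = x₀ := (h3 _).1 (by
    rw [← Equiv.Perm.mul_apply, ← pow_succ, pow_succ', Equiv.Perm.mul_apply, (h3 _).2 rfl])
  have sp : σ.support = {x₀}ᶜ := by
    ext x
    rw [Equiv.Perm.mem_support, Finset.mem_compl, Finset.mem_singleton, not_iff_not]
    exact ⟨fun e => (h3 x).1 (Equiv.Perm.pow_apply_eq_self_of_apply_eq_self e 3), fun e => e ▸ f0⟩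
  have d : 9 ∣ σ.cycleType.sum := Multiset.dvd_sum fun n hn => by
    have d9 : n ∣ 3 ^ 2 := (Equiv.Perm.dvd_of_mem_cycleType hn).trans (orderOf_dvd_of_pow_eq_one h9)
    have n2 := Equiv.Perm.two_le_of_mem_cycleType hn
    obtain ⟨i, hi, rfl⟩ := (Nat.dvd_prime_pow Nat.prime_three).1 d9
    interval_cases i
    · omega
    · obtain ⟨c, τ, e, hd, hc, h⟩ := Equiv.Perm.mem_cycleType_iff.1 hn
      have c3 : c ^ 3 = 1 := by
        have := pow_orderOf_eq_one c
        rwa [hc.orderOf, h] at this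
      obtain ⟨x, hx, -⟩ := hc
      have τx : τ x = x := (hd x).resolve_left hx
      have : x = x₀ := (h3 x).1 (by
        rw [e, hd.commute.mul_pow, c3, one_mul, Equiv.Perm.pow_apply_eq_self_of_apply_eq_self τx])
      rw [e, ← this, Equiv.Perm.mul_apply, τx] at f0
      exact absurd f0 hx
    · rfl
  rw [Equiv.Perm.sum_cycleType, sp, Finset.card_compl, Finset.card_singleton] at d
  have : 0 < Fintype.card X := Fintype.card_pos_iff.2 ⟨x₀⟩
  rw [Nat.card_eq_fintype_card]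
  omega

variable {r : ℕ} [Fact r.Prime] {H : Type*} [Group H] [Finite H] {V : Type*} [AddCommGroup V] [Module (ZMod r) V]
  [Finite V] {ρ : Representation (ZMod r) H V} {B : V →ₗ[ZMod r] V →ₗ[ZMod r] ZMod r}

/-- Take `w, R` from `Nd.key`; `R i = {g ∈ D | t ^ i g t⁻¹ ^ i ∈ R}` has relative index 4 in `D`.  For `x ∈ Z` the product
`x (t x t⁻¹) (t² x t⁻²)` commutes with `t`, so it is 1; with `x = g * g` this gives `I = R 1 ⊓ R 2 ≤ R`.  `I` is `t`-invariant
(`(b g b⁻¹)² = g²`), contains `Z`, its relative index `n` in `D` is a multiple of 4 and at most 16 (`relIndex_inf_le`).  Conjugation by `t`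
permutes `D ⧸ I.subgroupOf D`; if `b` fixes `g I`, then `g g' g'' ∈ g ^ 3 I` (`I` is normal in `D`) and `g g' g'' = (g b) ^ 3 ∈ Z`, so `g ∈ I`.
So `n % 9 = 1` (`card_mod_nine`). -/
theorem Nd.false (h5 : 5 ≤ r) (hi : Function.Injective ρ) {t k : H} {D Z : Subgroup H} (h : Nd ρ t D Z k) : False := by
  obtain ⟨w, R, -, RD, R4, hR⟩ := h.key h5 hi
  have tD : t ∈ normalizer (D : Set H) := mem_normalizer_fintype h.tD
  have mD : D.map (MulAut.conj t).toMonoidHom = D := by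
    ext x
    refine ⟨fun ⟨y, hy, e⟩ => e ▸ h.tD y hy, fun hx => ⟨t⁻¹ * x * t, (mem_normalizer_iff''.1 tD x).1 hx, ?_⟩⟩
    simp [mul_assoc]
  obtain ⟨R1, h1⟩ : ∃ R1, R1 = R.comap (MulAut.conj t).toMonoidHom := ⟨_, rfl⟩
  obtain ⟨R2, h2⟩ : ∃ R2, R2 = R1.comap (MulAut.conj t).toMonoidHom := ⟨_, rfl⟩
  have m1 : ∀ g, g ∈ R1 ↔ t * g * t⁻¹ ∈ R := fun g => by rw [h1]; rfl
  have m2 : ∀ g, g ∈ R2 ↔ t * (t * g * t⁻¹) * t⁻¹ ∈ R := fun g => by rw [h2, ← m1]; rfl
  have i1 : R1.relIndex D = 4 := by rw [h1, relIndex_comap, mD, R4]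
  have i2 : R2.relIndex D = 4 := by rw [h2, relIndex_comap, mD, i1]
  have ID : ∀ g ∈ R1 ⊓ R2, g ∈ D := fun g hg => (mem_normalizer_iff.1 tD g).2 (RD ((m1 g).1 hg.1))
  have t3 : ∀ x ∈ Z, t * (t * (t * x * t⁻¹) * t⁻¹) * t⁻¹ = x := fun x hx => by
    calc _ = t ^ 3 * x * (t ^ 3)⁻¹ := by simp only [pow_succ, pow_zero]; group
      _ = x := by rw [h.zb x hx, mul_inv_cancel_right]
  have cj : ∀ g : H, t * g * t⁻¹ * (t * g * t⁻¹) = t * (g * g) * t⁻¹ := fun g => by group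
  have IR : ∀ g ∈ R1 ⊓ R2, g ∈ R := fun g hg => by
    have gD := ID g hg
    have e1 := (hR _ (h.tD g gD)).1 ((m1 g).1 hg.1)
    have e2 := (hR _ (h.tD _ (h.tD g gD))).1 ((m2 g).1 hg.2)
    rw [cj, cj] at e2
    rw [cj] at e1
    refine (hR g gD).2 ?_
    have xZ := h.sq g gD
    generalize g * g = x at e1 e2 xZ
    have x1 := h.tZ x xZ
    have x2 := h.tZ _ x1
    have p : x * ((t * x * t⁻¹) * (t * (t * x * t⁻¹) * t⁻¹)) = 1 := h.zt _ (Z.mul_mem xZ (Z.mul_mem x1 x2)) (by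
      calc _ = (t * x * t⁻¹) * (t * (t * x * t⁻¹) * t⁻¹) * (t * (t * (t * x * t⁻¹) * t⁻¹) * t⁻¹) * t := by group
        _ = _ := by rw [t3 x xZ, h.zc x xZ _ (h.le (Z.mul_mem x1 x2))])
    have := congrArg (fun y => ρ y w) p
    simpa only [map_mul ρ x, map_mul ρ (t * x * t⁻¹), Module.End.mul_apply, e1, e2, map_one, Module.End.one_apply] using this
  have tI : t ∈ normalizer ((R1 ⊓ R2 : Subgroup H) : Set H) := mem_normalizer_fintype fun g hg => by
    have gD := ID g hg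
    refine ⟨(m1 _).2 ((m2 g).1 hg.2), (m2 _).2 ((hR _ (h.tD _ (h.tD _ (h.tD g gD)))).2 ?_)⟩
    rw [cj, cj, cj, t3 _ (h.sq g gD)]
    exact (hR g gD).1 (IR g hg)
  have ZR : ∀ x ∈ Z, x ∈ R := fun x hx => (hR x (h.le hx)).2 (by rw [h.z2 x hx, map_one, Module.End.one_apply])
  have ZI : ∀ x ∈ Z, x ∈ R1 ⊓ R2 := fun x hx =>
    ⟨(m1 x).2 (ZR _ (h.tZ x hx)), (m2 x).2 (ZR _ (h.tZ _ (h.tZ x hx)))⟩
  have d4 : 4 ∣ (R1 ⊓ R2).relIndex D := i1 ▸ relIndex_dvd_of_le_left D inf_le_left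
  have l16 : (R1 ⊓ R2).relIndex D ≤ 16 := by
    have := relIndex_inf_le (H := R1) (K := R2) (L := D)
    rwa [i1, i2] at this
  generalize R1 ⊓ R2 = I at tI ZI d4 l16
  let φ : MulAut D := D.normalizerMonoidHom ⟨t, tD⟩
  have hφ : ∀ g : D, (φ g : H) = t * g * t⁻¹ := fun g => rfl
  let σ : Equiv.Perm (D ⧸ I.subgroupOf D) := Quotient.congr φ.toEquiv fun a b => by
    rw [QuotientGroup.leftRel_apply, QuotientGroup.leftRel_apply, mem_subgroupOf, mem_subgroupOf,
      mem_normalizer_iff.1 tI]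
    simp [hφ, mul_assoc]
  have hσ : ∀ (n : ℕ) (g : D), ∃ g' : D, (g' : H) = t ^ n * g * (t ^ n)⁻¹ ∧ (σ ^ n) (g : D ⧸ I.subgroupOf D) = g' := by
    intro n g
    induction n with
    | zero => exact ⟨g, by simp, rfl⟩
    | succ n ih =>
      obtain ⟨g', e, e'⟩ := ih
      refine ⟨φ g', by rw [hφ, e, pow_succ']; group, ?_⟩
      rw [pow_succ', Equiv.Perm.mul_apply, e']
      rfl
  have m9 := card_mod_nine σ (Equiv.ext fun x => by
      obtain ⟨g, rfl⟩ := QuotientGroup.mk_surjective x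
      obtain ⟨g', e, e'⟩ := hσ 9 g
      rw [h.t9, one_mul, inv_one, mul_one] at e
      rw [e', Subtype.ext e]
      rfl) ((1 : D) : D ⧸ I.subgroupOf D) (fun x => by
      obtain ⟨g, rfl⟩ := QuotientGroup.mk_surjective x
      obtain ⟨g', e, e'⟩ := hσ 3 g
      have bI := mem_normalizer_iff.1 (pow_mem tI 3)
      have b3 : (t ^ 3) ^ 3 = 1 := by rw [← pow_mul, h.t9]
      have cu := ZI _ (h.cu g g.2)
      have sq := ZI _ (h.sq g g.2)
      rw [e', QuotientGroup.eq, QuotientGroup.eq, mem_subgroupOf, mem_subgroupOf, coe_mul, coe_mul, coe_inv, coe_inv, e,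
        coe_one, mul_one, inv_mem_iff]
      generalize t ^ 3 = b at bI b3 cu
      generalize (g : H) = g at cu sq
      refine ⟨fun j => ?_, fun j => I.mul_mem (I.inv_mem ((bI g).1 j)) j⟩
      have := I.mul_mem (I.mul_mem (I.mul_mem (I.mul_mem j (I.inv_mem sq)) cu) ((bI _).1 j)) j
      rw [← mul_one ((g * b) ^ 3), ← inv_one, ← b3] at this
      convert this using 1
      simp only [pow_succ, pow_zero]
      group)
  change I.relIndex D % 9 = 1 at m9
  omega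

theorem Md.nine (h : Md ρ) (h7 : 7 ≤ r) {t : H} (h9 : orderOf t = 9) (hf : Fpf ρ t) (hc : cz t = 9) : False := by
  obtain ⟨D, Z, k, hN⟩ := h.exists_nd h7 h9 hc (h.nine_qd h7 h9 hf hc)
  exact hN.false (by omega) h.inj

end CL.AH
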