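import Cfsg.Agent.FGS.AH.StepC
import Cfsg.Agent.FGS.AH.Nine

/-! Excluded centralizer orders. -/

set_option autoImplicit false

namespace CL.AH

open Subgroup Cfsg

variable {r : ℕ} [Fact r.Prime] {H : Type*} [Group H] [Finite H] {V : Type*} [AddCommGroup V] [Module (ZMod r) V]
  [Finite V] {ρ : Representation (ZMod r) H V} {B : V →ₗ[ZMod r] V →ₗ[ZMod r] ZMod r}

/-- `3 ∣ orderOf t`: `exists_zz` gives `Zz a z`; `a` is `Fpf` (`Md.four_dvd_cz`, `Zz.not_four`), so `Qd` (`Fpf.qd`).  Otherwise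
`t * t = 1`, `ρ t = -1` (`Fpf.neg`), `t` is central (`Pm.comm`) and `|H| = cz t ≤ 6` (`cz_eq_card`). -/
theorem Md.small (h : Md ρ) (h5 : 5 ≤ r) {t : H} (h6 : t ^ 6 = 1) (hf : Fpf ρ t) (hc : cz t ≤ 6) :
    Nat.card H ≤ 6 ∨ ∃ a z : H, Zz a z ∧ Qd ρ a := by
  by_cases h3 : 3 ∣ orderOf t
  · obtain ⟨a, z, hz⟩ := exists_zz h6 h3 hc
    have fa : Fpf ρ a := by
      by_contra c
      exact hz.not_four (h.four_dvd_cz h5 c)
    exact Or.inr ⟨a, z, hz, fa.qd (hz.a3 ▸ pow_orderOf_eq_one a)⟩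
  · left
    have d6 : orderOf t ∣ 2 * 3 := orderOf_dvd_of_pow_eq_one h6
    have d2 : orderOf t ∣ 2 :=
      (Nat.Coprime.symm ((Nat.Prime.coprime_iff_not_dvd Nat.prime_three).2 h3)).dvd_of_dvd_mul_right d6
    have t2 : t * t = 1 := by rw [← pow_two]; exact orderOf_dvd_iff_pow_eq_one.1 d2
    have pm : Pm ρ t := Or.inr (hf.neg t2)
    rw [← cz_eq_card (x := t) fun g => pm.comm h.inj g]
    exact hc

/-- `Md.small`, `Md.eight_dvd`, `Md.stepC` -/
theorem Md.top5 (h : Md ρ) (h5 : r = 5) (h23 : ∀ p : ℕ, p.Prime → p ∣ Nat.card H → p = 2 ∨ p = 3) {t : H}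
    (h6 : t ^ 6 = 1) (hf : Fpf ρ t) (hc : cz t ≤ 6) : False := by
  rcases h.small h5.ge h6 hf hc with c | ⟨a, z, hz, hq⟩
  · have := Nat.le_of_dvd Nat.card_pos (h.eight_dvd h5)
    omega
  · exact h.stepC h5 h23 hz hq

namespace TopX

omit [Finite H] [Finite V] in
theorem pw {g : H} {v : V} {c : ZMod r} (hg : ρ g v = c • v) (n : ℕ) : ρ (g ^ n) v = c ^ n • v := by
  induction n with
  | zero => simp
  | succ n ih => rw [pow_succ', map_mul, Module.End.mul_apply, ih, map_smul, hg, smul_smul, pow_succ]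

theorem two7 : (2 : ZMod 7) ≠ 0 ∧ (2 : ZMod 7) ≠ 1 ∧ (2 : ZMod 7) ^ 3 = 1 ∧ (2 : ZMod 7) ^ 2 ≠ 1 := by decide

theorem ord7 {n : ℕ} (e : (2 : ZMod 7) ^ n = 1) : 3 ∣ n := by
  rw [← Nat.div_add_mod n 3, pow_add, pow_mul, two7.2.2.1, one_pow, one_mul] at e
  have : n % 3 < 3 := Nat.mod_lt _ (by decide)
  rcases (by omega : n % 3 = 0 ∨ n % 3 = 1 ∨ n % 3 = 2) with c | c | c
  · exact Nat.dvd_of_mod_eq_zero c
  · rw [c, pow_one] at e; exact absurd e two7.2.1
  · rw [c] at e; exact absurd e two7.2.2.2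

/-- an element of `pCore 2 H` whose cube is trivial is trivial -/
theorem eq_one {a : H} (ha : a ∈ pCore 2 H) (h3 : a ^ 3 = 1) : a = 1 := by
  have : Fact (Nat.Prime 2) := ⟨Nat.prime_two⟩
  obtain ⟨k, hk⟩ := isPGroup_pCore 2 H ⟨a, ha⟩
  have e : a ^ 2 ^ k = 1 := congrArg Subtype.val hk
  have d := Nat.dvd_gcd (orderOf_dvd_of_pow_eq_one e) (orderOf_dvd_of_pow_eq_one h3)
  rw [(Nat.Coprime.pow_left k (by decide : Nat.Coprime 2 3)).gcd_eq_one] at d
  exact orderOf_eq_one_iff.1 (Nat.dvd_one.1 d)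

end TopX

/-- `Md.small`.  `4 ∣ |H|` (`Sp.four_dvd`) and `3 ∣ |H|` (`ρ g v = 2 v`, `g ^ |H| = 1` gives `2 ^ |H| = 1` in `ZMod 7`).  In the second case
`Md.stepB` makes `pCore 2 H` central, so `a ∈ pCore 2 H` (`Sp.cen_le`), but `a` has order three. -/
theorem Md.top7 (h : Md ρ) (h7 : r = 7) {t : H} (h6 : t ^ 6 = 1) (hf : Fpf ρ t) (hc : cz t ≤ 6) : False := by
  have h5 : 5 ≤ r := by omega
  obtain ⟨B, hB⟩ := h.exists_fm h5
  have hS := h.sp hB
  have : Fact (Nat.Prime 2) := ⟨Nat.prime_two⟩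
  rcases h.small h5 h6 hf hc with c | ⟨a, z, hz, hq⟩
  · have d4 := hS.four_dvd h7.ge
    subst h7
    obtain ⟨v, v0⟩ := h.nt
    obtain ⟨g, hg⟩ := hS.ep v 2 TopX.two7.1
    have e := TopX.pw hg (Nat.card H)
    rw [pow_card_eq_one', map_one, Module.End.one_apply] at e
    have d3 := TopX.ord7 (smul_left_injective _ v0 (e.symm.trans (one_smul _ v).symm))
    have := Nat.card_pos (α := H)
    omega
  · have pm := h.stepB h5 hz hq (E := pCore 2 H) inferInstance (isPGroup_pCore 2 H)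
    have m := hS.cen_le h7.ge (g := a) fun e he => (pm e he).comm h.inj a
    have a1 := TopX.eq_one m (hz.a3 ▸ pow_orderOf_eq_one a)
    have := hz.a3
    rw [a1, orderOf_one] at this
    omega

/-- The order of `t` is 1 (not `Fpf`), 3 or 9.  Order 9: `cz t = 9`, `Md.nine`.  Order 3: `cz t ≤ 6` is `top7`; else `cz t = 9`, `Qd ρ t`, and
`t` centralizes the centre `A` of `E = pCore 2 H` (`Qd.cent`), `|A| ∣ 9` (`card_dvd_cz`), so `A = 1`, `E = 1`, `t ∈ E` (`Sp.cen_le`). -/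
theorem Md.nine7 (h : Md ρ) (h7 : r = 7) {t : H} (h9 : t ^ 9 = 1) (hf : Fpf ρ t) (hc : cz t ≤ 9) : False := by
  have h5 : 5 ≤ r := by omega
  have : Fact (Nat.Prime 2) := ⟨Nat.prime_two⟩
  have t1 : t ≠ 1 := by
    rintro rfl
    obtain ⟨v, v0⟩ := h.nt
    exact v0 (hf v (by simp))
  have dc : orderOf t ∣ cz t := orderOf_dvd_cz rfl
  have cp := cz_pos t
  have d9 : orderOf t ∣ 3 ^ 2 := orderOf_dvd_of_pow_eq_one h9
  obtain ⟨i, hi, e⟩ := (Nat.dvd_prime_pow Nat.prime_three).1 d9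
  rcases (by omega : i = 0 ∨ i = 1 ∨ i = 2) with rfl | rfl | rfl
  · exact t1 (orderOf_eq_one_iff.1 e)
  · have t3 : t ^ 3 = 1 := orderOf_dvd_iff_pow_eq_one.1 (by rw [e]; decide)
    by_cases c6 : cz t ≤ 6
    · exact h.top7 h7 (by rw [show 6 = 3 * 2 from rfl, pow_mul, t3, one_pow]) hf c6
    rw [e] at dc
    have c9 : cz t = 9 := by omega
    obtain ⟨B, hB⟩ := h.exists_fm h5
    have hS := h.sp hB
    have pg := isPGroup_pCore 2 H
    have An : (pCore 2 H ⊓ centralizer (pCore 2 H : Set H)).Normal := inferInstance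
    have ce := Qd.cent h.inj h.cop (hf.qd t3) (A := pCore 2 H ⊓ centralizer (pCore 2 H : Set H))
      (fun x hx y hy => mem_centralizer_iff.1 hy.2 x hx.1) fun x hx => An.conj_mem x hx t
    have dA := card_dvd_cz (x := t) fun k hk => (ce k hk).symm
    rw [c9] at dA
    have Eb : pCore 2 H = ⊥ := by
      by_contra b
      have := (nontrivial_iff_ne_bot _).2 b
      have := pg.center_nontrivial
      obtain ⟨⟨y, hy⟩, y1⟩ := exists_ne (1 : center (pCore 2 H))
      have yA : (y : H) ∈ pCore 2 H ⊓ centralizer (pCore 2 H : Set H) :=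
        ⟨y.2, mem_centralizer_iff.2 fun g hg => congrArg Subtype.val (mem_center_iff.1 hy ⟨g, hg⟩)⟩
      have o9 := (Subgroup.orderOf_dvd_natCard _ yA).trans dA
      obtain ⟨k, hk⟩ := pg y
      have e2 : (y : H) ^ 2 ^ k = 1 := congrArg Subtype.val hk
      have d := Nat.dvd_gcd (orderOf_dvd_of_pow_eq_one e2) o9
      rw [(Nat.Coprime.pow_left k (by decide : Nat.Coprime 2 9)).gcd_eq_one] at d
      exact y1 (Subtype.ext (Subtype.ext (orderOf_eq_one_iff.1 (Nat.dvd_one.1 d))))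
    refine t1 (TopX.eq_one (hS.cen_le h7.ge fun x hx => ?_) t3)
    rw [Eb, mem_bot] at hx
    rw [hx, mul_one, one_mul]
  · rw [e] at dc
    exact h.nine h7.ge e hf (by omega)

/-- Every `t ≠ 1` is `Fpf` (else `Md.sq_le` shows that all vectors are fixed).  `ρ a v = 2 v` gives `a ^ 3 = 1`, `a ≠ 1`.  The eigenspace
`E = {u | ρ a u = 2 u}` is not `⊤` (else `a` is central, and real, so `a * a = 1`), so `7 * |E| ≤ |V| ≤ 49`
(`AddSubgroup.card_mul_index`; the index is a power of 7, or use `finrank`).  `g ↦ ρ g v` is an injection `C(a) → E \ {0}`.  So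
`cz a ≤ 6`, `top7`. -/
theorem Md.f49 (h : Md ρ) (h7 : r = 7) (hV : Nat.card V ≤ 49) : False := by
  have h5 : 5 ≤ r := by omega
  have fp : ∀ t : H, t ≠ 1 → Fpf ρ t := fun t t1 => by
    by_contra c
    have e := h.sq_le h5 c
    have sj := (Nat.bijective_iff_injective_and_card (Subtype.val : {u : V // ρ t u = u} → V)).2
      ⟨Subtype.val_injective, le_antisymm (Nat.card_le_card_of_injective _ Subtype.val_injective) 
        (hV.trans (le_trans (by rw [h7]; decide) e))⟩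
    refine t1 (h.inj ?_)
    ext u
    obtain ⟨⟨w, hw⟩, rfl⟩ := sj.2 u
    rw [map_one]
    exact hw
  have top := fun {t : H} => h.top7 h7 (t := t)
  subst h7
  obtain ⟨v, v0⟩ := h.nt
  obtain ⟨a, -, ha⟩ := h.ep 1 v (by simp) 2 TopX.two7.1
  have a3 : a ^ 3 = 1 := by
    by_contra c
    refine v0 (fp _ c v ?_)
    rw [TopX.pw ha, TopX.two7.2.2.1, one_smul]
  have a1 : a ≠ 1 := by
    rintro rfl
    rw [map_one, Module.End.one_apply] at ha
    exact TopX.two7.2.1 (smul_left_injective _ v0 (ha.symm.trans (one_smul _ v).symm))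
  obtain ⟨u, hu⟩ : ∃ u : V, ρ a u ≠ (2 : ZMod 7) • u := by
    by_contra! c
    obtain ⟨g, hg⟩ := h.rat.real a
    have cm : g * a = a * g := h.inj (by
      ext w
      rw [map_mul, map_mul, Module.End.mul_apply, Module.End.mul_apply, c, c, map_smul])
    rw [cm, mul_inv_cancel_right] at hg
    refine a1 ?_
    rw [← a3, pow_three]
    nth_rewrite 3 [hg]
    rw [inv_mul_cancel, mul_one]
  let E := {w : V // ρ a w = (2 : ZMod 7) • w}
  have i1 : Function.Injective fun x : ZMod 7 × E => x.1 • u + x.2.1 := by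
    rintro ⟨c, w, hw⟩ ⟨d, w', hw'⟩ e
    dsimp only at e
    have cd : c = d := by
      by_contra n
      have e1 : (c - d) • u = w' - w := by
        rw [sub_smul, sub_eq_sub_iff_add_eq_add, e, add_comm]
      have e2 : (c - d) • ρ a u = (c - d) • (2 : ZMod 7) • u := by
        rw [← map_smul, smul_comm, e1, map_sub, hw, hw', smul_sub]
      exact hu (smul_right_injective V (sub_ne_zero.2 n) e2)
    subst cd
    exact Prod.ext rfl (Subtype.ext (add_left_cancel e))
  have c1 := Nat.card_le_card_of_injective _ i1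
  rw [Nat.card_prod, Nat.card_zmod] at c1
  have mE : ∀ g : centralizer ({a} : Set H), ρ a (ρ g v) = (2 : ZMod 7) • ρ g v := fun g => by
    rw [← Module.End.mul_apply, ← map_mul, ← Bx.mc.1 g.2, map_mul, Module.End.mul_apply, ha, map_smul]
  have z0 : ρ a 0 = (2 : ZMod 7) • (0 : V) := by simp
  have nz : ∀ g : H, ρ g v ≠ 0 := fun g e => v0 (by
    have := congrArg (ρ g⁻¹) e
    rwa [← Module.End.mul_apply, ← map_mul, inv_mul_cancel, map_one, Module.End.one_apply, map_zero] at this)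
  have i2 : Function.Injective fun x : Option (centralizer ({a} : Set H)) =>
      (x.elim ⟨0, z0⟩ fun g => ⟨ρ g v, mE g⟩ : E) := by
    rintro (_ | g) (_ | k) e
    · rfl
    · exact absurd (congrArg Subtype.val e).symm (nz k)
    · exact absurd (congrArg Subtype.val e) (nz g)
    · have e1 : ρ g v = ρ k v := congrArg Subtype.val e
      have e2 : ρ ((k : H)⁻¹ * g) v = v := by
        rw [map_mul, Module.End.mul_apply, e1, ← Module.End.mul_apply, ← map_mul, inv_mul_cancel, map_one,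
          Module.End.one_apply]
      by_cases c : (k : H)⁻¹ * g = 1
      · exact congrArg some (Subtype.ext (inv_mul_eq_one.1 c).symm)
      · exact absurd (fp _ c v e2) v0
  have c2 := Nat.card_le_card_of_injective _ i2
  rw [Finite.card_option] at c2
  refine top (t := a) (by rw [show 6 = 3 * 2 from rfl, pow_mul, a3, one_pow]) (fp a a1) ?_
  unfold cz
  omega

end CL.AH
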