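import Cfsg.Agent.FGS.AH.Bas
import Cfsg.Agent.FGS.AH.Syl

/-! Centralizers with a Sylow subgroup of prime order. -/

set_option autoImplicit false

namespace CL.AH

open Subgroup Cfsg

universe u

/-- Induction on `|D|`, `N` from `exists_min` (an elementary abelian `q`-group).  If `q ≠ p`, pass to `D ⧸ N` (the image of `y` has order
`p`).  If `q = p`, then `|N| = p`, `p ∤ |D ⧸ N|`, so `y ∈ N` and `N = zpowers y`.  `k⁻¹ y k = y ^ m`; then
`g⁻¹ y g = k g k⁻¹ y k g⁻¹ k⁻¹ = k (y ^ l) ^ m k⁻¹ = y ^ l`, so `y = g y ^ l g⁻¹ = y ^ (l * l)`. -/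
theorem v0 (D : Type u) [Group D] [Finite D] (hs : Group.IsSolvable D) {p l : ℕ} (hp : p.Prime)
    (h2 : ¬ p ^ 2 ∣ Nat.card D) (y g k : D) (hy : orderOf y = p) (hg : g * y * g⁻¹ = y ^ l) (hk : k * g * k⁻¹ = g⁻¹) :
    l * l ≡ 1 [MOD p] := by
  induction' hn : Nat.card D using Nat.strong_induction_on with n ih generalizing D
  subst hn
  have := Fact.mk hp
  have y1 : y ≠ 1 := fun e => hp.one_lt.ne (by rw [← hy, e, orderOf_one])
  have : Nontrivial D := ⟨y, 1, y1⟩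
  obtain ⟨N, q, hN, N0, hq, -, -, e⟩ := exists_min hs
  have c := card_eq_card_quotient_mul_card_subgroup N
  have o : y ∉ N → orderOf (QuotientGroup.mk' N y) = p := fun n =>
    orderOf_eq_prime (by rw [← map_pow, ← hy, pow_orderOf_eq_one, map_one]) fun k => n ((QuotientGroup.eq_one_iff y).1 k)
  by_cases qp : q = p
  · subst qp
    obtain ⟨j, hj⟩ := IsPGroup.iff_card.1 (show IsPGroup q N from fun a => ⟨1, Subtype.ext (by simpa using e a a.2)⟩)
    have j0 : j ≠ 0 := fun k => N0 (card_eq_one.1 (by rw [hj, k, pow_zero]))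
    have yN : y ∈ N := by_contra fun n => h2 (by
      rw [c, pow_two]
      exact mul_dvd_mul (o n ▸ orderOf_dvd_natCard _) (hj ▸ dvd_pow_self q j0))
    have j1 : j = 1 := by_contra fun k => h2 ((pow_dvd_pow q (by omega)).trans (hj ▸ card_subgroup_dvd_card N))
    have z : zpowers y = N := eq_of_le_of_card_ge (zpowers_le.2 yN) (by rw [Nat.card_zpowers, hy, hj, j1, pow_one])
    obtain ⟨m, hm⟩ := Bx.nat_pow (z.ge (hN.conj_mem' y yN k))
    have a : g⁻¹ * y * g = y ^ l := by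
      have : g = k * g⁻¹ * k⁻¹ := (inv_inv g).symm.trans ((congrArg (·⁻¹) hk).symm.trans (by group))
      calc g⁻¹ * y * g = (k * g * k⁻¹) * y * (k * g⁻¹ * k⁻¹) := by rw [hk, ← this]
        _ = k * (g * (k⁻¹ * y * k) * g⁻¹) * k⁻¹ := by group
        _ = k * (k⁻¹ * y * k) ^ l * k⁻¹ := by rw [hm, ← conj_pow, hg, ← pow_mul, ← pow_mul, mul_comm l]
        _ = y ^ l := by rw [← conj_pow]; congr 1; group
    rw [← hy, ← pow_eq_pow_iff_modEq, pow_mul, ← hg, conj_pow, ← a]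
    group
  · have n : y ∉ N := fun k => qp ((Nat.prime_dvd_prime_iff_eq hp hq).1 (hy ▸ orderOf_dvd_of_pow_eq_one (e y k))).symm
    refine ih _ ?_ (D ⧸ N) inferInstance (fun d => h2 (c ▸ d.mul_right _)) _ (QuotientGroup.mk' N g)
      (QuotientGroup.mk' N k) (o n) (by rw [← map_inv, ← map_mul, ← map_mul, hg, map_pow])
      (by rw [← map_inv, ← map_mul, ← map_mul, hk, map_inv]) rfl
    rw [c]
    exact lt_mul_of_one_lt_right Nat.card_pos ((one_lt_card_iff_ne_bot N).2 N0)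

theorem Vp.sq {P : Type*} [Group P] [Finite P] {p : ℕ} [hp : Fact p.Prime] (h : IsPGroup p P) (d : p ^ 2 ∣ Nat.card P)
    (u : P) : p ^ 2 ∣ cz u := by
  by_cases c : u ∈ center P
  · rwa [cz_eq_card (mem_center_iff.1 c)]
  have : Nontrivial P := ⟨u, 1, fun e => c (e ▸ one_mem _)⟩
  obtain ⟨i, i0, hi⟩ := (h.to_subgroup (center P)).nontrivial_iff_card.1 h.center_nontrivial
  obtain ⟨j, hj⟩ := IsPGroup.iff_card.1 (h.to_subgroup (centralizer {u}))
  have l : center P ≤ centralizer {u} := center_le_centralizer _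
  have : ¬ Nat.card (centralizer ({u} : Set P)) ≤ Nat.card (center P) := fun k =>
    c ((eq_of_le_of_card_ge l k).ge (Bx.mc.2 rfl))
  rw [hi, hj, Nat.pow_le_pow_iff_right hp.out.one_lt] at this
  rw [cz, hj]
  exact pow_dvd_pow p (by omega)

theorem Vp.it {G : Type*} [Group G] {g y : G} {l : ℕ} (h : g * y * g⁻¹ = y ^ l) (m : ℕ) :
    g ^ m * y * (g ^ m)⁻¹ = y ^ l ^ m := by
  induction m with
  | zero => simp
  | succ m ih =>
    rw [show g ^ (m + 1) * y * (g ^ (m + 1))⁻¹ = g * (g ^ m * y * (g ^ m)⁻¹) * g⁻¹ by group, ih, ← conj_pow, h, ← pow_mul,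
      pow_succ']
/-- Suppose `q ∤ orderOf x`.  `x = u w` (`exists_dec` for `p`).  `D = C(w)` has order not divisible by `p²`: if `u = 1` it is `C(x)`; otherwise
a Sylow `p`-subgroup `P ∋ u` of `D` of order at least `p²` has `p² ∣ |C_P(u)|` (it contains `u` and `Z(P) ≠ 1`: either `u ∈ Z(P)` and
`C_P(u) = P`, or `Z(P) < C_P(u)`) and `C_P(u) ≤ C(x)`.  `p ∣ |D|` (`C(x) ≤ C(w)`): take `y ∈ D` of order `p`.  `Rat.pair` gives `g ∈ D` with
`g y g⁻¹ = y ^ l`.  Let `m` be the `q'`-part of `orderOf g`, `g' = g ^ m` is a `q`-element with `g' y g'⁻¹ = y ^ (l ^ m)`.  `Rat.pair_inv` for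
`w` and `g'` gives `k ∈ D` inverting `g'`.  `v0` in `D`. -/
theorem vp {G : Type u} [Group G] [Finite G] (hs : Group.IsSolvable G) (hr : Rat G) {p q l : ℕ} (hp : p.Prime)
    (hq : q.Prime) (hl : l.Coprime p) (hm : ∀ m : ℕ, m.Coprime q → ¬ l ^ m * l ^ m ≡ 1 [MOD p]) {x : G}
    (h1 : p ∣ cz x) (h2 : ¬ p ^ 2 ∣ cz x) : q ∣ orderOf x := by
  by_contra n
  have := Fact.mk hp
  obtain ⟨u, w, e, c, -, hw, ⟨i, hi⟩, pw⟩ := exists_dec hp x
  have h3 : ¬ p ^ 2 ∣ Nat.card (centralizer ({w} : Set G)) := fun d => by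
    obtain ⟨P, hP, l⟩ := CL.MSS.exists_sylIn_ge (SylX.pg hi) (zpowers_le.2 (Bx.mc.2 c))
    have := Vp.sq hP.pgroup (SylX.syl_dvd hP d) ⟨u, l (mem_zpowers u)⟩
    rw [cz, ← card_subtype] at this
    refine h2 (this.trans (card_dvd_cz ?_))
    rintro _ ⟨k, hk, rfl⟩
    have a : k.1 * u = u * k.1 := congrArg Subtype.val (Bx.mc.1 hk)
    exact e ▸ (Commute.mul_right a (Bx.mc.1 (hP.le k.2)) :)
  obtain ⟨y, hy, yw⟩ := exists_ord_of_dvd_cz hp (h1.trans (cz_dvd_cz fun g => SylX.cm hw))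
  obtain ⟨g, gw, hg⟩ := hr.pair yw.symm (hy ▸ ((hp.coprime_iff_not_dvd).2 pw).symm) (hy ▸ hl)
  obtain ⟨j, m, qm, o⟩ := Nat.exists_eq_pow_mul_and_not_dvd (orderOf_pos g).ne' q hq.ne_one
  have gw' : g ^ m * w = w * g ^ m := Commute.pow_left gw m
  obtain ⟨k, kw, hk⟩ := hr.pair_inv gw'.symm ((((hq.coprime_iff_not_dvd).2 fun d =>
    n (d.trans (orderOf_dvd_of_mem_zpowers hw))).symm.pow_right j).coprime_dvd_right (orderOf_dvd_of_pow_eq_one (by
      rw [← pow_mul, mul_comm, ← o, pow_orderOf_eq_one])))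
  exact hm m ((hq.coprime_iff_not_dvd).2 qm).symm (v0 (centralizer ({w} : Set G)) inferInstance hp h3 ⟨y, Bx.mc.2 yw⟩
    ⟨g ^ m, Bx.mc.2 gw'⟩ ⟨k, Bx.mc.2 kw⟩ ((orderOf_mk _ _).trans hy) (Subtype.ext (Vp.it hg m)) (Subtype.ext hk))

/-- `vp` with `p = 5`, `q = 2`, `l = 2` -/
theorem vp5 {G : Type u} [Group G] [Finite G] (hs : Group.IsSolvable G) (hr : Rat G) {x : G} (h1 : 5 ∣ cz x)
    (h2 : ¬ 25 ∣ cz x) : 2 ∣ cz x := by
  refine (vp hs hr (l := 2) (by norm_num) Nat.prime_two (by norm_num) (fun m hm => ?_) h1 h2).trans (orderOf_dvd_cz rfl)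
  obtain ⟨j, rfl⟩ := Nat.coprime_two_right.1 hm
  rw [← mul_pow, pow_add, pow_mul]
  simp [Nat.ModEq, Nat.mul_mod, Nat.pow_mod]

/-- `vp` with `p = 7`, `q = 3`, `l = 2` -/
theorem vp7 {G : Type u} [Group G] [Finite G] (hs : Group.IsSolvable G) (hr : Rat G) {x : G} (h1 : 7 ∣ cz x)
    (h2 : ¬ 49 ∣ cz x) : 3 ∣ cz x := by
  refine (vp hs hr (l := 2) (by norm_num) Nat.prime_three (by norm_num) (fun m hm => ?_) h1 h2).trans
    (orderOf_dvd_cz rfl)
  have := (Nat.prime_three.coprime_iff_not_dvd).1 hm.symm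
  rw [← mul_pow, ← Nat.div_add_mod m 3, pow_add, pow_mul]
  rcases (by omega : m % 3 = 1 ∨ m % 3 = 2) with e | e <;> simp [e, Nat.ModEq, Nat.mul_mod, Nat.pow_mod]

end CL.AH
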