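import Cfsg.Agent.FGS.AH.Rep
import Cfsg.Agent.FGS.AH.Semi
import Cfsg.Agent.FGS.AH.Top
import Cfsg.Agent.FGS.AH.Sq
import Cfsg.Agent.FGS.AH.Vp
import Cfsg.Agent.FGS.AH.Sum
import Cfsg.Agent.FGS.AH.Syl
import Cfsg.Agent.FGS.AH.CntB

/-! Solvable groups with distinct class sizes: the assembly. -/

set_option autoImplicit false

namespace CL.AH

open Subgroup Cfsg

universe u

variable {G : Type u} [Group G] [Finite G]

theorem pow_cz (x : G) : x ^ cz x = 1 := orderOf_dvd_iff_pow_eq_one.mp (orderOf_dvd_cz rfl)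

theorem le_seven (hs : Group.IsSolvable G) (hr : Rat G) {p : ℕ} (hp : p.Prime) (hd : p ∣ Nat.card G) : p ≤ 7 := by
  by_contra h
  have := Fact.mk hp
  obtain ⟨H, _, _, V, _, _, _, ρ, π, hM, -, -⟩ := exists_md (r := p) G hs hr hd
  have := hM.eq_seven (by omega)
  omega

theorem sm_cz (hs : Group.IsSolvable G) (hr : Rat G) (x : G) : Sm (cz x) :=
  ⟨(cz_pos x).ne', fun _ hp hd => le_seven hs hr hp (hd.trans (cz_dvd_card x))⟩

theorem fpf_of {r : ℕ} [Fact r.Prime] {H : Type*} [Group H] [Finite H] {V : Type*} [AddCommGroup V] [Module (ZMod r) V]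
    [Finite V] {ρ : Representation (ZMod r) H V} (h : Md ρ) (h5 : 5 ≤ r) {t : H} {c : ℕ}
    (h1 : Nat.card {v : V // ρ t v = v} ≤ c) (h2 : c < 25) : Fpf ρ t := by
  by_contra hf
  have := h.sq_le h5 hf
  nlinarith

theorem six_of {x : G} (h : cz x = 3 ∨ cz x = 6) : x ^ 6 = 1 := by
  have h1 := pow_cz x
  rcases h with h | h
  · rw [h] at h1
    rw [show 6 = 3 * 2 from rfl, pow_mul, h1, one_pow]
  · rwa [h] at h1

theorem ex5 (hs : Group.IsSolvable G) (hr : Rat G) (h5 : 5 ∣ Nat.card G) (h7 : ¬ 7 ∣ Nat.card G) (x : G) :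
    cz x ≠ 3 ∧ cz x ≠ 6 := by
  have : Fact (Nat.Prime 5) := ⟨by norm_num⟩
  obtain ⟨H, _, _, V, _, _, _, ρ, π, hM, hπ, hx⟩ := exists_md (r := 5) G hs hr h5
  have key : ¬ (cz x = 3 ∨ cz x = 6) := by
    intro h
    have hle : cz x ≤ 6 := by omega
    refine hM.top5 rfl ?_ (t := π x) (by rw [← map_pow, six_of h, map_one]) (fpf_of hM le_rfl (hx x) (by omega))
      ((cz_map_le π hπ x).trans hle)
    intro p hp hd
    have hd' : p ∣ Nat.card G := hd.trans (card_dvd_of_surjective π hπ)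
    have h1 := le_seven hs hr hp hd'
    have h2 := hp.two_le
    have h3 : p ≠ 5 := fun e => hM.cop (e ▸ hd)
    have h4 : p ≠ 7 := fun e => h7 (e ▸ hd')
    have h6 : p ≠ 4 := fun e => by rw [e] at hp; norm_num at hp
    have h8 : p ≠ 6 := fun e => by rw [e] at hp; norm_num at hp
    omega
  omega

theorem ex7 (hs : Group.IsSolvable G) (hr : Rat G) (h7 : 7 ∣ Nat.card G) (x : G) :
    cz x ≠ 3 ∧ cz x ≠ 6 ∧ cz x ≠ 9 ∧ cz x ≠ 49 := by
  have : Fact (Nat.Prime 7) := ⟨by norm_num⟩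
  obtain ⟨H, _, _, V, _, _, _, ρ, π, hM, hπ, hx⟩ := exists_md (r := 7) G hs hr h7
  have key : ¬ (cz x = 3 ∨ cz x = 6) := by
    intro h
    have hle : cz x ≤ 6 := by omega
    exact hM.top7 rfl (t := π x) (by rw [← map_pow, six_of h, map_one]) (fpf_of hM (by norm_num) (hx x) (by omega))
      ((cz_map_le π hπ x).trans hle)
  have k9 : cz x ≠ 9 := by
    intro h
    have h1 := pow_cz x
    rw [h] at h1
    exact hM.nine7 rfl (t := π x) (by rw [← map_pow, h1, map_one]) (fpf_of hM (by norm_num) (hx x) (by omega))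
      ((cz_map_le π hπ x).trans h.le)
  have k49 : cz x ≠ 49 := by
    intro h
    have h1 := pow_cz x
    rw [h] at h1
    have h2 : orderOf (π x) ∣ 7 ^ 2 := orderOf_dvd_of_pow_eq_one (by rw [← map_pow]; exact h1 ▸ map_one π)
    have h3 : (orderOf (π x)).Coprime (7 ^ 2) := by
      apply Nat.Coprime.pow_right
      exact ((Nat.Prime.coprime_iff_not_dvd (by norm_num)).mpr
        fun hd => hM.cop (hd.trans (orderOf_dvd_natCard _))).symm
    have h4 : π x = 1 := orderOf_eq_one_iff.mp (h3.eq_one_of_dvd h2)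
    have h5 := hx x
    rw [h4, h] at h5
    refine hM.f49 rfl (le_trans (le_of_eq ?_) h5)
    exact (Nat.card_congr (Equiv.subtypeUnivEquiv fun v => by simp)).symm
  omega

theorem not16 (hr : Rat G) {x : G} (h : cz x = 4) : ¬ 16 ∣ Nat.card G := by
  refine hr.not_sixteen (z := x) ?_ (by omega)
  have h1 : orderOf x ∣ 2 ^ 2 := by
    have := orderOf_dvd_cz (x := x) (y := x) rfl
    rwa [h] at this
  obtain ⟨k, -, hk⟩ := (Nat.dvd_prime_pow Nat.prime_two).mp h1
  exact ⟨k, hk⟩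

theorem three_le [Nontrivial G] (h2 : ∀ x : G, cz x ≠ 2) (x : G) : 3 ≤ cz x := by
  have h1 := cz_pos x
  have h3 := h2 x
  have h4 : cz x ≠ 1 := by
    intro h
    have h5 := pow_cz x
    rw [h, pow_one] at h5
    rw [h5, cz_one] at h
    have := Finite.one_lt_card (α := G)
    omega
  omega

theorem exists_two [Nontrivial G] (hs : Group.IsSolvable G) (h : AH G) : ∃ x : G, cz x = 2 := by
  by_contra h2
  push Not at h2
  have hr := h.rat
  have h1 := h.rs_one
  have h3 := three_le h2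
  have hsm := sm_cz hs hr
  have all : ∀ {P : ℕ → Prop}, (∀ x : G, P (cz x)) → ∀ c ∈ Cs G, P c := by
    intro P hP c hc
    obtain ⟨x, rfl⟩ := mem_Cs.mp hc
    exact hP x
  have nd : ∀ {p : ℕ}, ¬ p ∣ Nat.card G → ∀ x : G, ¬ p ∣ cz x := fun hp x hd => hp (hd.trans (cz_dvd_card x))
  have s5 : ∀ x : G, 5 ∣ cz x → 25 ≤ cz x := fun x hx => sq_le hs hr (p := 5) (by norm_num) le_rfl hx
  have s7 : ∀ x : G, 7 ∣ cz x → 49 ≤ cz x := fun x hx => sq_le hs hr (p := 7) (by norm_num) (by norm_num) hx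
  have s50 : ¬ Dens G → ∀ x : G, 5 ∣ cz x → 50 ≤ cz x := fun hd x hx => by
    by_contra hlt
    exact hd (q50 G hs hr x hx (by omega))
  by_cases h5 : 5 ∣ Nat.card G
  · have h120 : 120 ≤ Nat.card G := hr.card_ge h5 fun y hy => s5 y (hy ▸ orderOf_dvd_cz rfl)
    by_cases h7 : 7 ∣ Nat.card G
    · have k4 : ∀ x : G, K4 (cz x) := fun x =>
        ⟨hsm x, h3 x, (ex7 hs hr h7 x).1, (ex7 hs hr h7 x).2.1, (ex7 hs hr h7 x).2.2.1, (ex7 hs hr h7 x).2.2.2, s5 x, s7 x,
          vp5 hs hr, vp7 hs hr⟩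
      by_cases h4 : ∃ x : G, cz x = 4
      · obtain ⟨x, hx⟩ := h4
        obtain ⟨m, hm⟩ := hr.eight h5 (not16 hr hx)
        exact (cnt4b (m := m) h120 (all fun x => ⟨k4 x, hm x⟩)).ne h1
      · push Not at h4
        have hd : ¬ Dens G := fun hd => by
          have a1 := h.rs_dens hd
          have a2 := cnt4a1 (C := (Cs G).filter (4 ∣ ·)) fun c hc =>
            ⟨all k4 c (Finset.mem_filter.mp hc).1, all (P := (· ≠ 4)) h4 c (Finset.mem_filter.mp hc).1,
              (Finset.mem_filter.mp hc).2⟩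
          linarith
        exact (cnt4a2 (all fun x => ⟨k4 x, h4 x, s50 hd x⟩)).ne h1
    · have k2 : ∀ x : G, K2 (cz x) := fun x =>
        ⟨hsm x, nd h7 x, h3 x, (ex5 hs hr h5 h7 x).1, (ex5 hs hr h5 h7 x).2, s5 x⟩
      by_cases h4 : ∃ x : G, cz x = 4
      · obtain ⟨x, hx⟩ := h4
        obtain ⟨m, hm⟩ := hr.eight h5 (not16 hr hx)
        exact (cnt2b (m := m) h120 (all fun x => ⟨k2 x, hm x⟩)).ne h1
      · push Not at h4
        have hd : ¬ Dens G := fun hd => by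
          have a1 := h.rs_dens hd
          have a2 := cnt2a1 (C := (Cs G).filter (4 ∣ ·)) fun c hc =>
            ⟨all k2 c (Finset.mem_filter.mp hc).1, all (P := (· ≠ 4)) h4 c (Finset.mem_filter.mp hc).1,
              (Finset.mem_filter.mp hc).2⟩
          linarith
        exact (cnt2a2 (all fun x => ⟨k2 x, h4 x, s50 hd x⟩)).ne h1
  · by_cases h7 : 7 ∣ Nat.card G
    · by_cases h4 : ∃ x : G, cz x = 4
      · obtain ⟨x, hx⟩ := h4
        exact (cnt3b (all fun y => ⟨hsm y, nd h5 y, h3 y, (ex7 hs hr h7 y).1, (ex7 hs hr h7 y).2.1, s7 y,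
          nd (not16 hr hx) y⟩)).ne h1
      · push Not at h4
        exact (cnt3a (all fun y => ⟨hsm y, nd h5 y, h3 y, (ex7 hs hr h7 y).1, (ex7 hs hr h7 y).2.1, s7 y, h4 y⟩)).ne h1
    · by_cases h33 : ∃ x : G, cz x = 3
      · obtain ⟨x, hx⟩ := h33
        exact (cnt1c (n := Nat.card G) (all fun y => ⟨hsm y, nd h5 y, nd h7 y, h3 y, three_cz hx y⟩)).ne h1
      · push Not at h33
        by_cases h4 : ∃ x : G, cz x = 4
        · obtain ⟨x, hx⟩ := h4
          exact (cnt1b (all fun y => ⟨hsm y, nd h5 y, nd h7 y, h3 y, h33 y, nd (not16 hr hx) y⟩)).ne h1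
        · push Not at h4
          exact (cnt1a (all fun y => ⟨hsm y, nd h5 y, nd h7 y, h3 y, h33 y, h4 y⟩)).ne h1

theorem main [Nontrivial G] (hs : Group.IsSolvable G)
    (h : Function.Injective fun C : ConjClasses G => Nat.card C.carrier) : Nonempty (G ≃* Equiv.Perm (Fin 3)) := by
  have hA := ah_of_inj h
  obtain ⟨x, hx⟩ := exists_two hs hA
  exact hA.sym3 hx

end CL.AH
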