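import Cfsg.Agent.FGS.AH.L1

/-! An element of order nine that is self-centralizing: the cube is quadratic. -/

set_option autoImplicit false

namespace CL.AH

open Subgroup Cfsg

variable {r : ℕ} [Fact r.Prime] {H : Type*} [Group H] [Finite H] {V : Type*} [AddCommGroup V] [Module (ZMod r) V]
  [Finite V] {ρ : Representation (ZMod r) H V} {B : V →ₗ[ZMod r] V →ₗ[ZMod r] ZMod r}

/-- Weight vectors of different weights are independent.  Strong induction on `s`: for `i₀ ∈ s` and its `x`, add (or subtract) the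
relation moved by `ρ x`; this gives `2 (w + ∑ i ∈ s', u i) = 0` with `s' ⊆ s.erase i₀` the set where the sign of `x` on `u i` is the sign
on `w` (for `u i ≠ 0` the sign is unique; use `Finset.filter`). -/
theorem wt_indep (h5 : 5 ≤ r) {ι : Type*} {A : Subgroup H} {w : V} {u : ι → V} (s : Finset ι)
    (hu : ∀ i ∈ s, ∀ x ∈ A, ρ x (u i) = u i ∨ ρ x (u i) = - u i)
    (hd : ∀ i ∈ s, ∃ x ∈ A, (ρ x w = w ∧ ρ x (u i) = - u i) ∨ (ρ x w = - w ∧ ρ x (u i) = u i))
    (h0 : w + ∑ i ∈ s, u i = 0) : w = 0 := by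
  classical
  induction s using Finset.strongInduction with
  | H s ih =>
  rcases s.eq_empty_or_nonempty with rfl | ⟨j, hj⟩
  · simpa using h0
  obtain ⟨f, fw, fj, fu⟩ : ∃ f : V →ₗ[ZMod r] V, f w = w ∧ f (u j) = - u j ∧ ∀ i ∈ s, f (u i) = u i ∨ f (u i) = - u i := by
    obtain ⟨x, xA, hx | hx⟩ := hd j hj
    · exact ⟨ρ x, hx.1, hx.2, fun i hi => hu i hi x xA⟩
    · refine ⟨- ρ x, by simp [hx.1], by simp [hx.2], fun i hi => ?_⟩
      rcases hu i hi x xA with e | e <;> simp [e]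
  have n2 : (2 : ZMod r) ≠ 0 := by exact_mod_cast LinB.nz h5 (n := 2) (by decide) (by decide)
  have ss : s.filter (fun i => f (u i) ≠ - u i) ⊂ s :=
    Finset.filter_ssubset.2 ⟨j, hj, fun e => e fj⟩
  refine ih _ ss (fun i hi => hu i (Finset.mem_filter.1 hi).1) (fun i hi => hd i (Finset.mem_filter.1 hi).1) ?_
  have e1 : w + ∑ i ∈ s, f (u i) = 0 := by
    have := congrArg f h0
    rwa [map_add, map_sum, fw, map_zero] at this
  have e2 : ∑ i ∈ s, (u i + f (u i)) = (2 : ZMod r) • ∑ i ∈ s.filter (fun i => f (u i) ≠ - u i), u i := by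
    rw [Finset.smul_sum, Finset.sum_filter]
    refine Finset.sum_congr rfl fun i hi => ?_
    split_ifs with c
    · rw [(fu i hi).resolve_right c, two_smul]
    · rw [not_not.1 c, add_neg_cancel]
  refine (smul_eq_zero.1 (?_ : (2 : ZMod r) • (_ : V) = 0)).resolve_left n2
  rw [smul_add, ← e2, Finset.sum_add_distrib, two_smul, add_add_add_comm, h0, e1, add_zero]

namespace NA

/-- the elements of `A` fixing `w` -/
def K (ρ : Representation (ZMod r) H V) (A : Subgroup H) (w : V) : Subgroup H where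
  carrier := {x | x ∈ A ∧ ρ x w = w}
  mul_mem' := fun {a b} ha hb => ⟨A.mul_mem ha.1 hb.1, by rw [map_mul, Module.End.mul_apply, hb.2, ha.2]⟩
  one_mem' := ⟨A.one_mem, by simp⟩
  inv_mem' := fun {a} ha => ⟨A.inv_mem ha.1, by
    conv_lhs => rw [← ha.2]
    rw [← Module.End.mul_apply, LinB.ii, Module.End.one_apply]⟩

omit [Finite H] [Finite V] in
theorem mv (ρ : Representation (ZMod r) H V) (g y : H) (w : V) : ρ y (ρ g w) = ρ g (ρ (g⁻¹ * y * g) w) := by
  rw [← Module.End.mul_apply, ← Module.End.mul_apply, ← map_mul, ← map_mul]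
  congr 2
  group

theorem sep {A : Subgroup H} {w : V} (hw : ∀ x ∈ A, ρ x w = w ∨ ρ x w = -w) {g : H} (hg : g ∈ normalizer (A : Set H))
    (hK : g ∉ normalizer (K ρ A w : Set H)) :
    ∃ y ∈ A, (ρ y w = w ∧ ρ y (ρ g w) = - ρ g w) ∨ (ρ y w = - w ∧ ρ y (ρ g w) = ρ g w) := by
  by_contra hc
  refine hK (mem_normalizer_iff''.2 fun y => ⟨fun hy => ?_, fun hy => ?_⟩)
  · have yA := (mem_normalizer_iff''.1 hg y).1 hy.1
    refine ⟨yA, (hw _ yA).resolve_right fun e => hc ⟨y, hy.1, Or.inl ⟨hy.2, ?_⟩⟩⟩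
    rw [mv, e, map_neg]
  · have yA := (mem_normalizer_iff''.1 hg y).2 hy.1
    refine ⟨yA, (hw _ yA).resolve_right fun e => hc ⟨y, yA, Or.inr ⟨e, ?_⟩⟩⟩
    rw [mv, hy.2]

theorem core (h5 : 5 ≤ r) {t : H} (hf : Fpf ρ t) {A : Subgroup H} {w : V} (hw : ∀ x ∈ A, ρ x w = w ∨ ρ x w = -w)
    (ht : t ∈ normalizer (A : Set H)) (m : ℕ) (e : ρ (t ^ (m + 1)) w = w)
    (hK : ∀ i < m, t ^ (i + 1) ∉ normalizer (K ρ A w : Set H)) : w = 0 := by
  have s0 : ∑ i ∈ Finset.range (m + 1), ρ (t ^ i) w = 0 := by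
    refine hf _ ?_
    rw [map_sum]
    simp only [← Module.End.mul_apply, ← map_mul, ← pow_succ']
    rw [Finset.sum_range_succ, Finset.sum_range_succ' _ m, e, pow_zero, map_one, Module.End.one_apply]
  rw [Finset.sum_range_succ', pow_zero, map_one, Module.End.one_apply, add_comm] at s0
  refine wt_indep (ρ := ρ) (A := A) h5 _ (fun i _ x hx => ?_)
    (fun i hi => sep hw (pow_mem ht _) (hK i (Finset.mem_range.1 hi))) s0
  rcases hw _ ((mem_normalizer_iff''.1 (pow_mem ht (i + 1)) x).1 hx) with c | c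
  · exact Or.inl (by rw [mv, c])
  · exact Or.inr (by rw [mv, c, map_neg])

theorem cfix {A : Subgroup H} {w : V} (hw : ∀ x ∈ A, ρ x w = w ∨ ρ x w = -w) {g : H} (hg : g ∈ normalizer (A : Set H))
    (hK : g ∈ normalizer (K ρ A w : Set H)) {x : H} (hx : x ∈ A) : ρ (x * g * x⁻¹ * g⁻¹) w = w := by
  have e : x * g * x⁻¹ * g⁻¹ = x * (g * x⁻¹ * g⁻¹) := by group
  have yA := (mem_normalizer_iff.1 hg x⁻¹).1 (A.inv_mem hx)
  rw [e, map_mul, Module.End.mul_apply]
  by_cases c : x⁻¹ ∈ K ρ A w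
  · rw [((mem_normalizer_iff.1 hK _).1 c).2, (inv_mem_iff.1 c).2]
  · rw [(hw _ yA).resolve_left fun d => c ((mem_normalizer_iff.1 hK _).2 ⟨yA, d⟩), map_neg,
      (hw _ hx).resolve_left fun d => c (inv_mem_iff.2 ⟨hx, d⟩), neg_neg]

end NA

open NA

/-- `b = t ^ 3` centralizes a `t`-invariant elementary abelian 2-subgroup.  Otherwise `k = x b x⁻¹ b⁻¹ ≠ 1` for some `x ∈ A`;
`U = {u | ρ k u = - u} ≠ 0` (`u - ρ k u`) is `A`-invariant; take a weight vector `w ∈ U` (`exists_wt`) with sign function `χ`.  The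
vectors `ρ (t ^ i) w` are weight vectors with sign `x ↦ χ (t⁻¹ ^ i x t ^ i)`.  If this is `χ` for some `0 < i < 9`, it is `χ` for all
multiples of `i` modulo 9, among which is 6 (`b⁻¹`) or 3, against `χ x ≠ χ (b x b⁻¹)`.  So `∑ i ∈ range 9, ρ (t ^ i) w ≠ 0`
(`wt_indep`); it is fixed by `t`. -/
theorem nine_cent (h5 : 5 ≤ r) (hi : Function.Injective ρ) {t : H} (h9 : t ^ 9 = 1) (hf : Fpf ρ t) {A : Subgroup H}
    (hA : ∀ x ∈ A, x * x = 1) (hn : ∀ x ∈ A, t * x * t⁻¹ ∈ A) : ∀ x ∈ A, t ^ 3 * x = x * t ^ 3 := by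
  intro x hx
  by_contra hc
  have ht : t ∈ normalizer (A : Set H) := mem_normalizer_fintype hn
  have iv : ∀ a ∈ A, a⁻¹ = a := fun a ha => inv_eq_of_mul_eq_one_right (hA a ha)
  have cm : ∀ a ∈ A, ∀ b ∈ A, a * b = b * a := fun a ha b hb => by
    rw [← iv _ (A.mul_mem ha hb), mul_inv_rev, iv a ha, iv b hb]
  obtain ⟨k, hk⟩ : ∃ k, k = x * t ^ 3 * x⁻¹ * (t ^ 3)⁻¹ := ⟨_, rfl⟩
  have kA : k ∈ A := by
    have := A.mul_mem hx ((mem_normalizer_iff.1 (pow_mem ht 3) x⁻¹).1 (A.inv_mem hx))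
    rwa [← mul_assoc, ← mul_assoc, ← hk] at this
  have k1 : ρ k ≠ 1 := fun e => hc (by
    have : k = 1 := hi (e.trans (map_one ρ).symm)
    rw [hk, mul_inv_eq_one, mul_inv_eq_iff_eq_mul] at this
    exact this.symm)
  obtain ⟨v, hv⟩ : ∃ v, ρ k v ≠ v := by
    by_contra h
    exact k1 (LinearMap.ext fun v => not_not.1 fun e => h ⟨v, e⟩)
  have mU : ∀ u, u ∈ LinearMap.ker (ρ k + 1) ↔ ρ k u = - u := fun u => by
    rw [LinearMap.mem_ker, LinearMap.add_apply, Module.End.one_apply, add_eq_zero_iff_eq_neg]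
  obtain ⟨w, wU, w0, hw⟩ := exists_wt (ρ := ρ) h5 hA (LinearMap.ker (ρ k + 1)) (fun y hy u hu => by
      rw [mU] at hu ⊢
      rw [← Module.End.mul_apply, ← map_mul, cm k kA y hy, map_mul, Module.End.mul_apply, hu, map_neg])
    ⟨v - ρ k v, by
      rw [mU, map_sub, ← Module.End.mul_apply, ← map_mul, hA k kA, map_one, Module.End.one_apply, neg_sub],
      sub_ne_zero.2 hv.symm⟩
  refine w0 (core h5 hf hw ht 8 (by rw [h9, map_one, Module.End.one_apply]) fun i hi' hK => ?_)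
  have h3 : t ^ 3 ∈ normalizer (K ρ A w : Set H) := by
    obtain ⟨m, hm⟩ : ∃ m, (i + 1) * m % 9 = 3 := by
      interval_cases i
      exacts [⟨3, rfl⟩, ⟨6, rfl⟩, ⟨1, rfl⟩, ⟨3, rfl⟩, ⟨6, rfl⟩, ⟨2, rfl⟩, ⟨3, rfl⟩, ⟨6, rfl⟩]
    have := pow_mem hK m
    rwa [← pow_mul, pow_eq_pow_mod _ h9, hm] at this
  have e := cfix hw (pow_mem ht 3) h3 hx
  rw [← hk, (mU w).1 wU, neg_eq_iff_add_eq_zero, ← two_smul (ZMod r)] at e
  have n2 : (2 : ZMod r) ≠ 0 := by exact_mod_cast LinB.nz h5 (n := 2) (by decide) (by decide)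
  exact w0 ((smul_eq_zero.1 e).resolve_left n2)

/-- `E = pCore 2 H`, `A = Z(E)` (normal in `H`, exponent two by `Sp.sq_eq_one`), `A ≠ 1` (else `E = 1` and `H = 1` by `Sp.cen_le`).
No `x ≠ 1` in `A` commutes with `t` (`orderOf_dvd_cz`), so `x ↦ x t x⁻¹ t⁻¹` is injective, hence surjective on `A`.  `Fix A` is an
invariant submodule, not `⊤`, so `⊥`.  Suppose `W = Fix (t ^ 3) ≠ 0`; it is `A`-invariant (`nine_cent`).  A weight vector `w ∈ W` has a
nontrivial sign function `χ`, so `χ` is not `t`-invariant, nor `t²`-invariant (`t ^ 4 = t * t ^ 3`).  `w + t w + t² w ≠ 0` (`wt_indep`)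
is fixed by `t`.  So `Fpf ρ (t ^ 3)`, and `Fpf.qd`. -/
theorem Md.nine_qd (h : Md ρ) (h7 : 7 ≤ r) {t : H} (h9 : orderOf t = 9) (hf : Fpf ρ t) (hc : cz t = 9) :
    Qd ρ (t ^ 3) := by
  have h5 : 5 ≤ r := by omega
  have : Fact (Nat.Prime 2) := ⟨Nat.prime_two⟩
  obtain ⟨B, hB⟩ := h.exists_fm h5
  have sp := h.sp hB
  have t9 : t ^ 9 = 1 := h9 ▸ pow_orderOf_eq_one t
  obtain ⟨A, hA⟩ : ∃ A : Subgroup H, A = pCore 2 H ⊓ centralizer (pCore 2 H : Set H) := ⟨_, rfl⟩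
  have An : A.Normal := by rw [hA]; infer_instance
  have A2 := sp.sq_eq_one h7 An (fun x hx y hy => by
    rw [hA] at hx hy
    exact hy.2 x hx.1)
  obtain ⟨z, zA, z1⟩ : ∃ z ∈ A, z ≠ 1 := by
    rcases (pCore 2 H).bot_or_nontrivial with e | e
    · have : t ∈ pCore 2 H := sp.cen_le h7 fun x hx => by
        rw [e, mem_bot] at hx
        rw [hx, mul_one, one_mul]
      rw [e, mem_bot] at this
      rw [this, orderOf_one] at h9
      omega
    · have := (isPGroup_pCore 2 H).center_nontrivial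
      obtain ⟨z, hz⟩ := exists_ne (1 : center (pCore 2 H))
      refine ⟨z.1, hA ▸ ⟨z.1.2, fun y hy => congrArg Subtype.val (mem_center_iff.1 z.2 ⟨y, hy⟩)⟩, fun e => hz ?_⟩
      exact Subtype.ext (Subtype.ext e)
  have ht : t ∈ normalizer (A : Set H) := by rw [normalizer_eq_top]; exact mem_top t
  have ce := nine_cent h5 h.inj t9 hf A2 fun x hx => An.conj_mem x hx t
  refine Fpf.qd (fun v hv => ?_) (by rw [← pow_mul, t9])
  by_contra v0
  have mU : ∀ u, u ∈ LinearMap.ker (ρ (t ^ 3) - 1) ↔ ρ (t ^ 3) u = u := fun u => by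
    rw [LinearMap.mem_ker, LinearMap.sub_apply, Module.End.one_apply, sub_eq_zero]
  obtain ⟨w, wU, w0, hw⟩ := exists_wt (ρ := ρ) h5 A2 (LinearMap.ker (ρ (t ^ 3) - 1)) (fun y hy u hu => by
      rw [mU] at hu ⊢
      rw [← Module.End.mul_apply, ← map_mul, ce y hy, map_mul, Module.End.mul_apply, hu]) ⟨v, (mU v).2 hv, v0⟩
  refine w0 (core h5 hf hw ht 2 ((mU w).1 wU) fun i hi hK => ?_)
  have h1 : t ∈ normalizer (K ρ A w : Set H) := by
    interval_cases i
    · simpa using hK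
    · have := pow_mem hK 5
      rwa [← pow_mul, pow_eq_pow_mod _ t9, show (1 + 1) * 5 % 9 = 1 from rfl, pow_one] at this
  let φ : A → A := fun x => ⟨x * t * (x : H)⁻¹ * t⁻¹, by
    have := A.mul_mem x.2 (An.conj_mem _ (A.inv_mem x.2) t)
    rwa [← mul_assoc, ← mul_assoc] at this⟩
  have φi : Function.Injective φ := fun x y e => by
    have e1 : (x : H) * t * (x : H)⁻¹ * t⁻¹ = y * t * (y : H)⁻¹ * t⁻¹ := congrArg Subtype.val e
    have e2 : (y : H)⁻¹ * x * t = t * ((y : H)⁻¹ * x) := by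
      calc (y : H)⁻¹ * x * t = (y : H)⁻¹ * (x * t * (x : H)⁻¹ * t⁻¹) * (t * x) := by group
        _ = _ := by rw [e1]; group
    have d1 := orderOf_dvd_cz e2
    have d2 : orderOf ((y : H)⁻¹ * x) ∣ 2 :=
      orderOf_dvd_of_pow_eq_one (by rw [pow_two]; exact A2 _ (A.mul_mem (A.inv_mem y.2) x.2))
    rw [hc] at d1
    have := orderOf_eq_one_iff.1 (Nat.dvd_one.1 (show _ ∣ Nat.gcd 9 2 from Nat.dvd_gcd d1 d2))
    exact Subtype.ext (inv_mul_eq_one.1 this).symm
  have fx : ∀ a ∈ A, ρ a w = w := fun a ha => by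
    obtain ⟨x, hx⟩ := Finite.surjective_of_injective φi ⟨a, ha⟩
    have e1 : (x : H) * t * (x : H)⁻¹ * t⁻¹ = a := congrArg Subtype.val hx
    rw [← e1]
    exact cfix hw ht h1 x.2
  let W : Submodule (ZMod r) V :=
    { carrier := {u | ∀ a ∈ A, ρ a u = u}
      add_mem' := fun {a b} ha hb x hx => by rw [map_add, ha x hx, hb x hx]
      zero_mem' := fun x _ => map_zero _
      smul_mem' := fun c a ha x hx => by rw [map_smul, ha x hx] }
  rcases h.irr W (fun g u hu a ha => by rw [mv, hu _ (An.conj_mem' a ha g)]) with e | e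
  · have wW : w ∈ W := fx
    rw [e] at wW
    exact w0 ((Submodule.mem_bot _).1 wW)
  · refine z1 (h.inj ((LinearMap.ext fun u => ?_).trans (map_one ρ).symm))
    exact (show u ∈ W from e ▸ Submodule.mem_top) z zA

end CL.AH
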