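import Cfsg.Agent.FGS.AH.L1

/-! An element of order nine that is self-centralizing: the class two section. -/

set_option autoImplicit false

namespace CL.AH

open Subgroup Cfsg

variable {r : ℕ} [Fact r.Prime] {H : Type*} [Group H] [Finite H] {V : Type*} [AddCommGroup V] [Module (ZMod r) V]
  [Finite V] {ρ : Representation (ZMod r) H V} {B : V →ₗ[ZMod r] V →ₗ[ZMod r] ZMod r}

/-- the data of the class two section -/
structure Nd (ρ : Representation (ZMod r) H V) (t : H) (D Z : Subgroup H) (k : H) : Prop where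
  t9 : t ^ 9 = 1
  qd : Qd ρ (t ^ 3)
  le : Z ≤ D
  tD : ∀ g ∈ D, t * g * t⁻¹ ∈ D
  tZ : ∀ x ∈ Z, t * x * t⁻¹ ∈ Z
  z2 : ∀ x ∈ Z, x * x = 1
  zc : ∀ x ∈ Z, ∀ g ∈ D, g * x = x * g
  zb : ∀ x ∈ Z, t ^ 3 * x = x * t ^ 3
  zt : ∀ x ∈ Z, t * x = x * t → x = 1
  sq : ∀ g ∈ D, g * g ∈ Z
  cu : ∀ g ∈ D, (g * t ^ 3) ^ 3 ∈ Z
  kD : k ∈ D
  kq : Qd ρ (k * t ^ 3)
  k2 : k * k ≠ 1
  kc : k * (t ^ 3 * k * (t ^ 3)⁻¹) = (k * k) * ((t ^ 3 * k * (t ^ 3)⁻¹) * k)

namespace NB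

/-- the subgroup `D` -/
def DD {H : Type*} [Group H] (b : H) (Q : Subgroup H) [Q.Normal] : Subgroup H where
  carrier := {g | g ∈ Q ∧ g ∈ centralizer ((⁅Q, Q⁆ : Subgroup H) : Set H) ∧
    g * (b * g * b⁻¹) * (b * (b * g * b⁻¹) * b⁻¹) ∈ (⁅Q, Q⁆ : Subgroup H)}
  one_mem' := ⟨one_mem _, one_mem _, by simp⟩
  mul_mem' := by
    rintro g h ⟨gQ, gC, gP⟩ ⟨hQ, hC, hP⟩
    refine ⟨mul_mem gQ hQ, mul_mem gC hC, ?_⟩
    have n : Q.Normal := inferInstance
    have cm : ∀ x ∈ Q, ∀ y ∈ Q, (QuotientGroup.mk' ⁅Q, Q⁆) x * (QuotientGroup.mk' ⁅Q, Q⁆) y =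
        (QuotientGroup.mk' ⁅Q, Q⁆) y * (QuotientGroup.mk' ⁅Q, Q⁆) x := by
      intro x hx y hy
      rw [← commutatorElement_eq_one_iff_mul_comm, ← map_commutatorElement, ← MonoidHom.mem_ker,
        QuotientGroup.ker_mk']
      exact commutator_mem_commutator hx hy
    have g1 := n.conj_mem _ gQ b
    have g2 := n.conj_mem _ g1 b
    have h1 := n.conj_mem _ hQ b
    have e1 : b * (g * h) * b⁻¹ = (b * g * b⁻¹) * (b * h * b⁻¹) := by group
    have e2 : b * ((b * g * b⁻¹) * (b * h * b⁻¹)) * b⁻¹ =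
      (b * (b * g * b⁻¹) * b⁻¹) * (b * (b * h * b⁻¹) * b⁻¹) := by group
    rw [e1, e2]
    generalize b * (b * g * b⁻¹) * b⁻¹ = g'' at *
    generalize b * (b * h * b⁻¹) * b⁻¹ = h'' at *
    generalize b * g * b⁻¹ = g' at *
    generalize b * h * b⁻¹ = h' at *
    have := mul_mem gP hP
    rw [← QuotientGroup.ker_mk' ⁅Q, Q⁆, MonoidHom.mem_ker] at this ⊢
    rw [← this]
    simp only [map_mul, mul_assoc]
    congr 1
    rw [← mul_assoc, cm h hQ g' g1, mul_assoc]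
    congr 1
    rw [← mul_assoc _ ((QuotientGroup.mk' ⁅Q, Q⁆) g''), cm h' h1 g'' g2, mul_assoc, ← mul_assoc,
      cm h hQ g'' g2, mul_assoc]
  inv_mem' := by
    rintro g ⟨gQ, gC, gP⟩
    refine ⟨inv_mem gQ, inv_mem gC, ?_⟩
    have n : Q.Normal := inferInstance
    have g1 := n.conj_mem _ gQ b
    have g2 := n.conj_mem _ g1 b
    have e1 : b * g⁻¹ * b⁻¹ = (b * g * b⁻¹)⁻¹ := by group
    have e2 : b * (b * g * b⁻¹)⁻¹ * b⁻¹ = (b * (b * g * b⁻¹) * b⁻¹)⁻¹ := by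
      simp only [mul_inv_rev, inv_inv, mul_assoc]
    rw [e1, e2]
    generalize b * (b * g * b⁻¹) * b⁻¹ = g'' at *
    generalize b * g * b⁻¹ = g' at *
    have e : g⁻¹ * g'⁻¹ * g''⁻¹ = (g⁻¹ * g'⁻¹ * g⁻¹⁻¹ * g'⁻¹⁻¹) *
        ((g * g')⁻¹ * g''⁻¹ * (g * g')⁻¹⁻¹ * g''⁻¹⁻¹) * (g * g' * g'')⁻¹ := by group
    rw [e]
    exact mul_mem (mul_mem (commutator_mem_commutator (inv_mem gQ) (inv_mem g1))
      (commutator_mem_commutator (inv_mem (mul_mem gQ g1)) (inv_mem g2))) (inv_mem gP)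

theorem two_three {H : Type*} [Group H] {y : H} {n : ℕ} (h2 : y ^ 2 ^ n = 1) (h3 : y ^ 3 = 1) :
    y = 1 := by
  have := pow_gcd_eq_one.2 ⟨h2, h3⟩
  rwa [show Nat.gcd (2 ^ n) 3 = 1 from Nat.Coprime.pow_left _ (by norm_num), pow_one] at this

end NB

/-- `b = t ^ 3`, `g' = b g b⁻¹`, so `(g b) ^ 3 = g g' g''`.  `b` does not centralize `E = pCore 2 H` (`Sp.cen_le`).  Let `Q ≤ E` be
normal in `H`, not centralized by `b`, of minimal order; `P = ⁅Q, Q⁆ < Q` is centralized by `b`.  `Z = P ⊓ C(P)` is abelian normal, of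
exponent two (`Sp.sq_eq_one`).  `D = {g ∈ Q ⊓ C(P) | (g b) ^ 3 ∈ P}` is a subgroup since `Q / P` is abelian (the kernel of
`g ↦ g g' g''` into `H ⧸ P`); it is `t`-invariant, `D ⊓ P = Z`, commutators of `D` lie in `Z`.  An element `g ∈ D` commuting with `b` has
`g ^ 3 ∈ P`, so `g ∈ P` (2-element), `g ∈ Z`.  The centre of `D` is abelian and normalized by `b`, so it is centralized by `b` (`Qd.cent`)
and lies in `Z`; squares are central in `D` (`g x g⁻¹ = c x` with `c ∈ Z`).  Take `e ∈ Q` not commuting with `b` and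
`k = e b e⁻¹ b⁻¹ ∈ Q ⊓ C(P)` (`C(P)` is normal and contains `b`), `k b = e b e⁻¹`, `k k' k'' = 1`.  `k` does not commute with `b` (else
`k ^ 3 = 1`, `k = 1`).  `k, k'` do not commute (else `closure {k, k'}` is abelian and normalized by `b`; `Qd.cent`).  `k k' = c k' k` with
`1 ≠ c ∈ Z`; `k² = k'² = k''²`, and `k''⁻² = (k k')² = c k² k'² = c`, so `k² = c`. -/
theorem Md.exists_nd (h : Md ρ) (h7 : 7 ≤ r) {t : H} (h9 : orderOf t = 9) (hc : cz t = 9) (hq : Qd ρ (t ^ 3)) :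
    ∃ (D Z : Subgroup H) (k : H), Nd ρ t D Z k := by
  obtain ⟨B, hB⟩ := h.exists_fm (by omega)
  have sp := h.sp hB
  have t9 : t ^ 9 = 1 := by rw [← h9]; exact pow_orderOf_eq_one t
  obtain ⟨b, hb⟩ : ∃ b, b = t ^ 3 := ⟨_, rfl⟩
  have b3 : b ^ 3 = 1 := by rw [hb, ← pow_mul]; exact t9
  have b1 : b ≠ 1 := by
    intro e
    have := orderOf_dvd_of_pow_eq_one (hb ▸ e)
    rw [h9] at this
    norm_num at this
  have hqb : Qd ρ b := hb ▸ hq
  have two : ∀ y ∈ pCore 2 H, ∃ n : ℕ, y ^ 2 ^ n = 1 := by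
    intro y hy
    obtain ⟨n, hn⟩ := CL.isPGroup_pCore 2 H ⟨y, hy⟩
    exact ⟨n, congrArg Subtype.val hn⟩
  have nE : ¬ ∀ e ∈ pCore 2 H, b * e = e * b := by
    intro hh
    obtain ⟨n, hn⟩ := two b (sp.cen_le h7 hh)
    exact b1 (NB.two_three hn b3)
  obtain ⟨Q, ⟨Qn, QE, nQ⟩, Qm⟩ := WellFounded.has_min (wellFounded_lt (α := Subgroup H))
    {Q | Q.Normal ∧ Q ≤ pCore 2 H ∧ ¬ ∀ e ∈ Q, b * e = e * b} ⟨_, inferInstance, le_rfl, nE⟩
  have Q0 : Q ≠ ⊥ := by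
    rintro rfl
    exact nQ fun e he => by rw [mem_bot.1 he, mul_one, one_mul]
  have := h.sol
  have PQ : ⁅Q, Q⁆ < Q := Group.IsSolvable.commutator_lt_of_ne_bot Q0
  have Pn : (⁅Q, Q⁆ : Subgroup H).Normal := inferInstance
  have bP : ∀ e ∈ (⁅Q, Q⁆ : Subgroup H), b * e = e * b := by
    by_contra hh
    exact Qm _ ⟨Pn, PQ.le.trans QE, hh⟩ PQ
  set C := centralizer ((⁅Q, Q⁆ : Subgroup H) : Set H) with hC
  have Cn : C.Normal := inferInstance
  have bC : b ∈ C := fun e he => (bP e he).symm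
  set Z := ⁅Q, Q⁆ ⊓ C with hZ
  have Zn : Z.Normal := inferInstance
  have z2 : ∀ x ∈ Z, x * x = 1 := sp.sq_eq_one h7 Zn fun x hx y hy => hy.2 x hx.1
  set D := NB.DD b Q with hD
  have mD : ∀ {g}, g ∈ D ↔ g ∈ Q ∧ g ∈ C ∧
    g * (b * g * b⁻¹) * (b * (b * g * b⁻¹) * b⁻¹) ∈ (⁅Q, Q⁆ : Subgroup H) := Iff.rfl
  have tD : ∀ g ∈ D, t * g * t⁻¹ ∈ D := by
    intro g hg
    obtain ⟨gQ, gC, gP⟩ := mD.1 hg
    refine mD.2 ⟨Qn.conj_mem _ gQ t, Cn.conj_mem _ gC t, ?_⟩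
    have := Pn.conj_mem _ gP t
    convert this using 1
    rw [hb]; group
  have bD : ∀ g ∈ D, b * g * b⁻¹ ∈ D := by
    intro g hg
    have := tD _ (tD _ (tD g hg))
    convert this using 1
    rw [hb]; simp only [pow_succ, pow_zero]; group
  have bi : b⁻¹ = b * b := by
    rw [inv_eq_iff_mul_eq_one, ← b3]; simp only [pow_succ, pow_zero]; group
  have zc : ∀ x ∈ Z, ∀ g ∈ D, g * x = x * g := fun x hx g hg => ((mD.1 hg).2.1 x hx.1).symm
  have cZ : ∀ x ∈ D, ∀ y ∈ D, x * y * x⁻¹ * y⁻¹ ∈ Z := by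
    intro x hx y hy
    obtain ⟨xQ, xC, -⟩ := mD.1 hx
    obtain ⟨yQ, yC, -⟩ := mD.1 hy
    exact mem_inf.2 ⟨commutator_mem_commutator xQ yQ,
      mul_mem (mul_mem (mul_mem xC yC) (inv_mem xC)) (inv_mem yC)⟩
  have fixZ : ∀ y ∈ D, b * y = y * b → y ∈ Z := by
    intro y hy e
    obtain ⟨yQ, yC, yP⟩ := mD.1 hy
    have e1 : b * y * b⁻¹ = y := by rw [e]; group
    rw [e1, e1] at yP
    obtain ⟨n, hn⟩ := two y (QE yQ)
    refine ⟨?_, yC⟩
    rw [← QuotientGroup.ker_mk' ⁅Q, Q⁆] at yP ⊢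
    refine NB.two_three (y := QuotientGroup.mk' ⁅Q, Q⁆ y) (n := n)
      (by rw [← map_pow, hn, map_one]) ?_
    rw [← map_pow, ← MonoidHom.mem_ker.1 yP]
    rw [pow_three']
  have sq : ∀ g ∈ D, g * g ∈ Z := by
    intro g hg
    refine fixZ _ (mul_mem hg hg) (hqb.cent h.inj h.cop (A := D ⊓ centralizer (D : Set H))
      (fun x hx y hy => hy.2 x hx.1) ?_ _ ⟨mul_mem hg hg, fun x hx => ?_⟩)
    · rintro x ⟨xD, xC⟩
      refine ⟨bD x xD, fun y hy => ?_⟩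
      have e := xC _ (bD _ (bD y hy))
      have e1 : b * (b * y * b⁻¹) * b⁻¹ = b⁻¹ * y * b := by
        calc b * (b * y * b⁻¹) * b⁻¹ = (b * b) * y * (b * b)⁻¹ := by group
          _ = b⁻¹ * y * b := by rw [← bi, inv_inv]
      rw [e1] at e
      calc y * (b * x * b⁻¹) = b * (b⁻¹ * y * b * x) * b⁻¹ := by group
        _ = b * x * b⁻¹ * y := by rw [e]; group
    · have c := cZ g hg x hx
      have e1 := zc _ c g hg
      have e2 := z2 _ c
      generalize hc : g * x * g⁻¹ * x⁻¹ = c' at e1 e2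
      have e3 : g * x = c' * x * g := by rw [← hc]; group
      calc x * (g * g) = c' * c' * x * g * g := by rw [e2]; group
        _ = c' * (c' * x * g) * g := by group
        _ = c' * g * x * g := by rw [← e3]; group
        _ = g * (c' * x * g) := by rw [← e1]; group
        _ = g * g * x := by rw [← e3]; group
  have cube : ∀ g : H, (g * b) ^ 3 = g * (b * g * b⁻¹) * (b * (b * g * b⁻¹) * b⁻¹) := by
    intro g
    calc (g * b) ^ 3 = g * (b * g * b⁻¹) * (b * (b * g * b⁻¹) * b⁻¹) * b ^ 3 := by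
          simp only [pow_succ, pow_zero]; group
      _ = _ := by rw [b3, mul_one]
  push Not at nQ
  obtain ⟨e, eQ, eb⟩ := nQ
  obtain ⟨k, hk⟩ : ∃ k, k = e * b * e⁻¹ * b⁻¹ := ⟨_, rfl⟩
  have kb : k * b = e * b * e⁻¹ := by rw [hk]; group
  have k3 : k * (b * k * b⁻¹) * (b * (b * k * b⁻¹) * b⁻¹) = 1 := by
    rw [← cube, kb, conj_pow, b3]; group
  have kQ : k ∈ Q := by
    have := mul_mem eQ (Qn.conj_mem _ (inv_mem eQ) b)
    convert this using 1
    rw [hk]; group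
  have kD : k ∈ D := mD.2 ⟨kQ, hk ▸ mul_mem (Cn.conj_mem _ bC e) (inv_mem bC), k3 ▸ one_mem _⟩
  have nk : b * k ≠ k * b := by
    intro e0
    have e1 : b * k * b⁻¹ = k := by rw [e0]; group
    rw [e1, e1] at k3
    obtain ⟨n, hn⟩ := two k (QE kQ)
    have := NB.two_three hn (by rw [← k3, pow_three'])
    rw [this, one_mul] at kb
    apply eb
    conv_lhs => rw [kb]
    group
  have k'D := bD k kD
  have kk := sq k kD
  have s1 : b * k * b⁻¹ * (b * k * b⁻¹) = k * k := by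
    calc b * k * b⁻¹ * (b * k * b⁻¹) = b * (k * k) * b⁻¹ := by group
      _ = k * k := by rw [bP _ kk.1]; group
  obtain ⟨k', hk'⟩ : ∃ k', k' = b * k * b⁻¹ := ⟨_, rfl⟩
  rw [← hk'] at k3 k'D s1
  have k'' : b * k' * b⁻¹ = (k * k')⁻¹ := eq_inv_of_mul_eq_one_right k3
  have s2 : (k * k')⁻¹ * (k * k')⁻¹ = k * k := by
    rw [← k'']
    calc b * k' * b⁻¹ * (b * k' * b⁻¹) = b * (k' * k') * b⁻¹ := by group
      _ = k * k := by rw [s1, bP _ kk.1]; group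
  have nc : k * k' ≠ k' * k := by
    intro e0
    have h1 : closure {k, k'} ≤ centralizer ({k, k'} : Set H) := by
      refine (closure_le _).2 ?_
      rintro x (rfl | rfl) y (rfl | rfl)
      exacts [rfl, e0.symm, e0, rfl]
    have h2 : closure {k, k'} ≤ centralizer ((closure {k, k'} : Subgroup H) : Set H) :=
      (closure_le _).2 fun x hx y hy => (h1 hy x hx).symm
    have m1 : k ∈ closure {k, k'} := subset_closure (by simp)
    have m2 : k' ∈ closure {k, k'} := subset_closure (by simp)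
    have h3 : closure {k, k'} ≤ (closure {k, k'}).comap (MulAut.conj b).toMonoidHom := by
      refine (closure_le _).2 ?_
      rintro x (rfl | rfl)
      · show b * x * b⁻¹ ∈ closure {x, k'}
        rw [← hk']; exact m2
      · show b * x * b⁻¹ ∈ closure {k, x}
        rw [k'']; exact inv_mem (mul_mem m1 m2)
    exact nk (hqb.cent h.inj h.cop (fun x hx y hy => h2 hy x hx) (fun x hx => h3 hx) k m1)
  have c := cZ k kD k' k'D
  have e1 := zc _ c k kD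
  have e2 := z2 _ c
  have e4 := z2 _ kk
  generalize hc' : k * k' * k⁻¹ * k'⁻¹ = c' at e1 e2
  have e3 : k * k' = c' * (k' * k) := by rw [← hc']; group
  have e5 : k' * k = c' * (k * k') := by rw [e3, ← mul_assoc, e2, one_mul]
  have e6 : k * k' * (k * k') = c' := by
    calc k * k' * (k * k') = k * (k' * k) * k' := by group
      _ = k * c' * k * (k' * k') := by rw [e5]; group
      _ = c' * (k * k * (k * k)) := by rw [e1, s1]; group
      _ = c' := by rw [e4, mul_one]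
  have e7 : k * k = c' := by
    rw [← s2, ← mul_inv_rev, e6, inv_eq_iff_mul_eq_one, e2]
  refine ⟨D, Z, k, ⟨t9, hq, ?_, tD, fun x hx => Zn.conj_mem _ hx t, z2, zc, ?_, ?_, sq, ?_, kD,
    ?_, ?_, ?_⟩⟩
  · intro x hx
    exact mD.2 ⟨PQ.le hx.1, hx.2, mul_mem (mul_mem hx.1 (Pn.conj_mem _ hx.1 b))
      (Pn.conj_mem _ (Pn.conj_mem _ hx.1 b) b)⟩
  · intro x hx
    rw [← hb]; exact bP x hx.1
  · intro x hx e0
    obtain ⟨i, hi⟩ := mem_zpowers_iff.1 (mem_zpowers_of_cz (hc.trans h9.symm) e0.symm)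
    have x9 : x ^ 9 = 1 := by
      rw [← hi, ← zpow_natCast, ← zpow_mul, mul_comm, zpow_mul, zpow_natCast, t9, one_zpow]
    have := pow_gcd_eq_one.2 ⟨(pow_two x).trans (z2 x hx), x9⟩
    simpa using this
  · intro g hg
    rw [← hb]
    exact ⟨cube g ▸ (mD.1 hg).2.2, pow_mem (mul_mem (mD.1 hg).2.1 bC) 3⟩
  · rw [← hb, kb]; exact hqb.conj e
  · intro e0
    apply nc
    rw [e3, ← e7, e0, one_mul]
  · rw [← hb, ← hk', e7]; exact e3

end CL.AH
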