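import Cfsg.Agent.FGS.AH.Lin

/-! The case of the prime five, second part. -/

set_option autoImplicit false
set_option linter.unusedSectionVars false
set_option linter.unusedSimpArgs false

namespace CL.AH

open Subgroup Cfsg

section grp

variable {G : Type*} [Group G] [Finite G] {a z : G}

theorem Zz.conj (h : Zz a z) (g : G) : Zz (g * a * g⁻¹) (g * z * g⁻¹) := by
  refine ⟨?_, ?_, ?_, fun x xa xz => ?_⟩
  · rw [← h.a3]
    exact orderOf_injective (MulAut.conj g).toMonoidHom (MulAut.conj g).injective a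
  · rw [conj_mul, h.z2]; group
  · rw [conj_mul, conj_mul, h.cm]
  · obtain ⟨i, j, e⟩ := h.le (g⁻¹ * x * g)
      (by calc g⁻¹ * x * g * a = g⁻¹ * (x * (g * a * g⁻¹)) * g := by group
            _ = a * (g⁻¹ * x * g) := by rw [xa]; group)
      (by calc g⁻¹ * x * g * z = g⁻¹ * (x * (g * z * g⁻¹)) * g := by group
            _ = z * (g⁻¹ * x * g) := by rw [xz]; group)
    exact ⟨i, j, by rw [conj_pow, conj_pow, conj_mul, ← e]; group⟩

/-- `g a g⁻¹` commutes with `a` and `z`, so it is `a ^ i z ^ j`; it has order three, so it equals its fourth power `a ^ (4 i)`. -/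
theorem Zz.inv_or (h : Zz a z) (hc : ∀ g : G, a * (g * a * g⁻¹) = (g * a * g⁻¹) * a) {g : G} (hg : g * z = z * g) :
    g * a * g⁻¹ = a ∨ g * a * g⁻¹ = a⁻¹ := by
  have a3 : a ^ 3 = 1 := h.a3 ▸ pow_orderOf_eq_one a
  obtain ⟨i, j, e⟩ := h.le (g * a * g⁻¹) (hc g).symm (by
    have : g⁻¹ * z = z * g⁻¹ := (show Commute g z from hg).inv_left
    rw [mul_assoc, this, ← mul_assoc, mul_assoc g, ← h.cm, ← mul_assoc, hg]
    group)
  have b4 : (g * a * g⁻¹) ^ 4 = g * a * g⁻¹ := by rw [conj_pow, pow_succ, a3, one_mul]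
  have z4 : (z ^ j) ^ 4 = 1 := by
    rw [← pow_mul, mul_comm, pow_mul, show 4 = 2 * 2 by norm_num, pow_mul, pow_two z, h.z2, one_pow, one_pow]
  have a4 : (a ^ i) ^ 4 = a ^ i := by
    rw [pow_succ, ← pow_mul, mul_comm i, pow_mul, a3, one_pow, one_mul]
  have e2 : g * a * g⁻¹ = a ^ (i % 3) := by
    rw [← pow_eq_pow_mod i a3, ← b4, e, ((show Commute z a from h.cm).symm.pow_pow i j).mul_pow, z4, a4, mul_one]
  have : i % 3 = 0 ∨ i % 3 = 1 ∨ i % 3 = 2 := by omega
  rcases this with c | c | c <;> rw [c] at e2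
  · have : a = 1 := by simpa using e2
    have k := h.a3
    rw [this, orderOf_one] at k
    omega
  · exact .inl (by rw [e2, pow_one])
  · exact .inr (by rw [e2, eq_inv_iff_mul_eq_one, ← pow_succ, a3])

/-- `C(z) ⊓ C(a) = ⟨a, z⟩` has order dividing 6 (it is `zpowers (a * z)`) and index at most two in `C(z)` (`Zz.inv_or`). -/
theorem Zz.not_eight (h : Zz a z) (hc : ∀ g : G, a * (g * a * g⁻¹) = (g * a * g⁻¹) * a) : ¬ 8 ∣ cz z := by
  intro h8
  have a3 : a ^ 3 = 1 := h.a3 ▸ pow_orderOf_eq_one a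
  have z2 : z ^ 2 = 1 := by rw [pow_two, h.z2]
  have d3 : 3 ∣ cz z := h.a3 ▸ orderOf_dvd_cz h.cm.symm
  obtain ⟨s, sz, hs⟩ : ∃ s : G, s * z = z * s ∧ ∀ g : G, g * z = z * g → g * a = a * g ∨ s⁻¹ * g * a = a * (s⁻¹ * g) := by
    by_cases c : ∃ s : G, s * z = z * s ∧ s * a * s⁻¹ = a⁻¹
    · obtain ⟨s, sz, e⟩ := c
      refine ⟨s, sz, fun g hg => (h.inv_or hc hg).imp mul_inv_eq_iff_eq_mul.1 fun k => ?_⟩
      calc s⁻¹ * g * a = s⁻¹ * (g * a * g⁻¹) * g := by group
        _ = a * (s⁻¹ * g) := by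
          rw [k, ← e]
          group
    · exact ⟨1, by simp, fun g hg => .inl (mul_inv_eq_iff_eq_mul.1
        ((h.inv_or hc hg).resolve_right fun k => c ⟨g, hg, k⟩))⟩
  let f : Fin 2 × Fin 3 × Fin 2 → centralizer ({z} : Set G) := fun t =>
    ⟨s ^ t.1.1 * (a ^ t.2.1.1 * z ^ t.2.2.1), mul_mem (pow_mem (mem_centralizer_singleton_iff.2 sz) _)
      (mul_mem (pow_mem (mem_centralizer_singleton_iff.2 h.cm.symm) _) (pow_mem (mem_centralizer_singleton_iff.2 rfl) _))⟩
  have hf : Function.Surjective f := by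
    rintro ⟨g, hg⟩
    have gz := mem_centralizer_singleton_iff.1 hg
    rcases hs g gz with c | c
    · obtain ⟨i, j, e⟩ := h.le g c gz
      refine ⟨(0, ⟨i % 3, Nat.mod_lt _ (by norm_num)⟩, ⟨j % 2, Nat.mod_lt _ (by norm_num)⟩), Subtype.ext ?_⟩
      simp only [f, Fin.val_zero, pow_zero, one_mul]
      rw [← pow_eq_pow_mod i a3, ← pow_eq_pow_mod j z2, e]
    · obtain ⟨i, j, e⟩ := h.le _ c ((show Commute s z from sz).inv_left.mul_left gz)
      refine ⟨(1, ⟨i % 3, Nat.mod_lt _ (by norm_num)⟩, ⟨j % 2, Nat.mod_lt _ (by norm_num)⟩), Subtype.ext ?_⟩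
      simp only [f, Fin.val_one, pow_one]
      rw [← pow_eq_pow_mod i a3, ← pow_eq_pow_mod j z2, ← e, mul_inv_cancel_left]
  have le : cz z ≤ 12 := by simpa [cz] using Nat.card_le_card_of_surjective f hf
  have := cz_pos z
  omega

/-- In a group of order eight the square of an element `y` with `y ^ 2 ≠ 1` is central: `zpowers y` has index one or two, so it is
normal, and `s y s⁻¹ = y` or `y ^ 3` if the order of `y` is four. -/
theorem sq_comm_of_eight (h8 : Nat.card G = 8) {y : G} (hy : y * y ≠ 1) (s : G) : s * (y * y) = (y * y) * s := by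
  have d : orderOf y ∣ 2 ^ 3 := by
    have := orderOf_dvd_natCard y
    rwa [h8] at this
  have n2 : ¬ orderOf y ∣ 2 := fun c => hy (by rw [← pow_two]; exact orderOf_dvd_iff_pow_eq_one.1 c)
  obtain ⟨k, hk, e⟩ := (Nat.dvd_prime_pow Nat.prime_two).1 d
  have im := (zpowers y).index_mul_card
  rw [Nat.card_zpowers, h8, e] at im
  interval_cases k
  · exact absurd (by rw [e]; norm_num) n2
  · exact absurd (by rw [e]; norm_num) n2
  · have := normal_of_index_eq_two (H := zpowers y) (by omega)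
    obtain ⟨m, hm⟩ := (mem_powers_iff_mem_zpowers.2 (this.conj_mem y (mem_zpowers y) s) : _ ∈ Submonoid.powers y)
    have y4 : y ^ 4 = 1 := by rw [← pow_orderOf_eq_one y, e]; norm_num
    simp only at hm
    have k : s * (y * y) * s⁻¹ = y ^ (2 * m) := by rw [← conj_mul, ← hm, ← pow_add, two_mul]
    rcases Nat.even_or_odd' m with ⟨t, rfl | rfl⟩
    · rw [show 2 * (2 * t) = 4 * t by ring, pow_mul, y4, one_pow] at k
      exact absurd (by simpa using k) hy
    · rw [show 2 * (2 * t + 1) = 4 * t + 2 by ring, pow_add, pow_mul, y4, one_pow, one_mul, pow_two] at k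
      exact mul_inv_eq_iff_eq_mul.1 k
  · have : zpowers y = ⊤ := index_eq_one.1 (by omega)
    obtain ⟨m, rfl⟩ : s ∈ zpowers y := this ▸ mem_top s
    exact ((Commute.refl y).mul_right (Commute.refl y)).zpow_left m

end grp

variable {r : ℕ} [Fact r.Prime] {H : Type*} [Group H] [Finite H] {V : Type*} [AddCommGroup V] [Module (ZMod r) V]
  [Finite V] {ρ : Representation (ZMod r) H V} {B : V →ₗ[ZMod r] V →ₗ[ZMod r] ZMod r}

/-- Choose `v ≠ 0` whose stabilizer `U` in `N` has maximal order.  `W = Fix U` is `N`-invariant and every nonzero `w ∈ W` has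
stabilizer `U`.  For `b ∈ N \ U`: `w + b w + b² w` is fixed by `b`, so it vanishes for `w ∈ W`.  For `b, b' ∈ N \ U`:
`(β - β') (β - β'²) v = (β² + β + 1) v = 0`, so `b'² v = b v`, or `u = (β - β'²) v ≠ 0` has `b u = b' u` and `b⁻¹ b' ∈ U`.  So
`b' ∈ b U` or `b' = b' ^ 4 ∈ b² U`.  An element `y` with `y v = c v` normalizes `U`; if `y b y⁻¹ = b ^ e u` (`e = 1, 2`) then
`y² b y⁻² ∈ b ^ (e * e) U = b U`. -/
theorem exists_max (h0 : ∃ v : V, v ≠ 0) {N : Subgroup H} (hn : N.Normal) (hA : ∀ x ∈ N, ∀ y ∈ N, x * y = y * x)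
    (h3 : ∀ x ∈ N, x ^ 3 = 1) :
    ∃ v : V, v ≠ 0 ∧ ∀ (y : H) (c : ZMod r), ρ y v = c • v → ∀ b ∈ N, ρ ((y * y) * b * (y * y)⁻¹) v = ρ b v := by
  let St : V → Subgroup H := fun v => N ⊓
    { carrier := {g | ρ g v = v}
      mul_mem' := fun {x y} hx hy => by
        show ρ (x * y) v = v
        rw [map_mul, Module.End.mul_apply, show ρ y v = v from hy, show ρ x v = v from hx]
      one_mem' := by simp
      inv_mem' := fun {x} hx => by
        show ρ x⁻¹ v = v
        conv_lhs => rw [← show ρ x v = v from hx]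
        rw [← Module.End.mul_apply, ← map_mul, inv_mul_cancel, map_one, Module.End.one_apply] }
  have mS : ∀ v g, g ∈ St v ↔ g ∈ N ∧ ρ g v = v := fun _ _ => Iff.rfl
  obtain ⟨v, hv, mx⟩ := Set.exists_max_image {v : V | v ≠ 0} (fun v => Nat.card (St v)) (Set.toFinite _) h0
  have ap : ∀ (x y : H) (w : V), ρ (x * y) w = ρ x (ρ y w) := fun x y w => by rw [map_mul, Module.End.mul_apply]
  have cm : ∀ x ∈ N, ∀ y ∈ N, ∀ w, ρ x (ρ y w) = ρ y (ρ x w) := fun x hx y hy w => by rw [← ap, hA x hx y hy, ap]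
  have cb : ∀ x ∈ N, ∀ w, ρ x (ρ x (ρ x w)) = w := fun x hx w => by
    rw [← ap, ← ap, ← pow_three', h3 x hx, map_one, Module.End.one_apply]
  have key : ∀ w : V, (∀ u ∈ N, ρ u v = v → ρ u w = w) → ∀ b ∈ N, ρ b w = w → ρ b v ≠ v → w = 0 := by
    intro w hw b hb e ne
    by_contra w0
    have le : St v ≤ St w := fun u hu => ⟨hu.1, hw u hu.1 hu.2⟩
    have := eq_of_le_of_card_ge le (mx w w0)
    exact ne ((mS v b).1 (this ▸ (mS w b).2 ⟨hb, e⟩)).2
  have q : ∀ b ∈ N, ρ b v ≠ v → v + ρ b v + ρ b (ρ b v) = 0 := fun b hb ne =>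
    key _ (fun u hu e => by simp only [map_add, cm u hu b hb, e]) b hb
      (by simp only [map_add, cb b hb]; abel) ne
  have two : ∀ b ∈ N, ∀ b' ∈ N, ρ b v ≠ v → ρ b' v ≠ v → ρ b' v = ρ b v ∨ ρ b' v = ρ b (ρ b v) := by
    intro b hb b' hb' n1 n2
    by_cases c : ρ (b⁻¹ * b') v = v
    · left
      conv_rhs => rw [← c, ← ap, mul_inv_cancel_left]
    right
    have u0 : ρ b v - ρ b' (ρ b' v) = 0 := by
      refine key _ (fun u hu e => by simp only [map_sub, cm u hu b hb, cm u hu b' hb', e]) _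
        (mul_mem (inv_mem hb) hb') ?_ c
      have e1 := q b hb n1
      have e2 := congrArg (ρ b) (q b' hb' n2)
      simp only [map_add, map_zero] at e2
      have : ρ b' (ρ b v - ρ b' (ρ b' v)) = ρ b (ρ b v - ρ b' (ρ b' v)) := by
        rw [map_sub, map_sub, cb b' hb', cm b' hb' b hb]
        rw [← sub_eq_zero, ← sub_self (0 : V)]
        conv_rhs => rw [← e2]; congr; rfl; rw [e2, ← e1]
        abel
      rw [ap, this, ← ap, inv_mul_cancel, map_one, Module.End.one_apply]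
    have u1 := sub_eq_zero.1 u0
    calc ρ b' v = ρ b' (ρ b' (ρ b' (ρ b' v))) := by rw [cb b' hb']
      _ = ρ b (ρ b v) := by rw [← u1, cm b' hb' b hb, cm b' hb' b hb, ← u1]
  refine ⟨v, hv, fun y c hy b hb => ?_⟩
  have c0 : c ≠ 0 := by
    rintro rfl
    apply hv
    have := congrArg (ρ y⁻¹) hy
    rwa [← ap, inv_mul_cancel, map_one, Module.End.one_apply, zero_smul, map_zero] at this
  have hy' : ρ y⁻¹ v = c⁻¹ • v := by
    have := congrArg (ρ y⁻¹) hy
    rw [← ap, inv_mul_cancel, map_one, Module.End.one_apply, map_smul] at this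
    rw [eq_inv_smul_iff₀ c0, ← this]
  have ev : ∀ x : H, ρ (y * x * y⁻¹) v = c⁻¹ • ρ y (ρ x v) := fun x => by rw [ap, ap, hy', map_smul, map_smul]
  have cg : ∀ x x' : H, ρ x v = ρ x' v → ρ (y * x * y⁻¹) v = ρ (y * x' * y⁻¹) v := fun x x' e => by rw [ev, ev, e]
  have one : ∀ x : H, ρ x v = v → ρ (y * x * y⁻¹) v = v := fun x e => by
    rw [ev, e, hy, inv_smul_smul₀ c0]
  rw [show y * y * b * (y * y)⁻¹ = y * (y * b * y⁻¹) * y⁻¹ by simp only [mul_inv_rev, mul_assoc]]
  by_cases n1 : ρ b v = v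
  · rw [one _ (one _ n1), n1]
  have hb' := hn.conj_mem b hb y
  have n2 : ρ (y * b * y⁻¹) v ≠ v := fun e => n1 (by
    rw [ev, inv_smul_eq_iff₀ c0, ← hy] at e
    have := congrArg (ρ y⁻¹) e
    rwa [← ap, ← ap y⁻¹ y, inv_mul_cancel, map_one, Module.End.one_apply, Module.End.one_apply] at this)
  rcases two b hb _ hb' n1 n2 with e | e
  · rw [cg _ _ e, e]
  · rw [cg _ (b * b) (by rw [e, ap]), ← conj_mul, ap, e, cm _ hb' b hb, cm _ hb' b hb, e, cb b hb]

end CL.AH
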