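import Cfsg.Agent.FGS.AH.StepCa
import Cfsg.Agent.FGS.AH.StepCb
import Cfsg.Agent.FGS.AH.Syl

/-! The case of the prime five. -/

set_option autoImplicit false

namespace CL.AH

open Subgroup Cfsg

variable {r : ℕ} [Fact r.Prime] {H : Type*} [Group H] [Finite H] {V : Type*} [AddCommGroup V] [Module (ZMod r) V]
  [Finite V] {ρ : Representation (ZMod r) H V} {B : V →ₗ[ZMod r] V →ₗ[ZMod r] ZMod r}

theorem StepC.zm {n : ℕ} (h1 : (2 : ZMod 5) ^ n = 1) : 4 ∣ n := by
  have h4 : (2 : ZMod 5) ^ 4 = 1 := by decide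
  rw [pow_eq_pow_mod n h4] at h1
  have l : n % 4 = 0 ∨ n % 4 = 1 ∨ n % 4 = 2 ∨ n % 4 = 3 := by omega
  rcases l with l | l | l | l
  · omega
  all_goals rw [l] at h1; exact absurd h1 (by decide)

omit [Finite H] [Finite V] in
theorem StepC.pw {g : H} {v : V} {c : ZMod r} (e : ρ g v = c • v) (n : ℕ) : ρ (g ^ n) v = c ^ n • v := by
  induction n with
  | zero => simp
  | succ n ih => rw [pow_succ', map_mul, Module.End.mul_apply, ih, map_smul, e, smul_smul, pow_succ]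

omit [Finite H] [Finite V] in
theorem StepC.four (h5 : r = 5) {g : H} {v : V} (v0 : v ≠ 0) (e : ρ g v = (2 : ZMod r) • v) {n : ℕ} (hn : g ^ n = 1) :
    4 ∣ n := by
  have h := StepC.pw e n
  rw [hn, map_one, Module.End.one_apply] at h
  have h1 : (2 : ZMod r) ^ n = 1 := by
    have : ((2 : ZMod r) ^ n - 1) • v = 0 := by rw [sub_smul, ← h, one_smul, sub_self]
    exact sub_eq_zero.1 ((smul_eq_zero.1 this).resolve_right v0)
  subst h5
  exact StepC.zm h1

omit [Finite H] [Finite V] in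
theorem StepC.two (h : Md ρ) (h5 : r = 5) (v : V) : ∃ g : H, ρ g v = (2 : ZMod r) • v := by
  obtain ⟨g, -, e⟩ := h.ep 1 v (by simp) 2 (by simpa using LinB.nz (r := r) h5.ge (n := 2) (by norm_num) (by norm_num))
  exact ⟨g, e⟩

/-- `ρ g v = 2 v` gives `4 ∣ orderOf g` (`g ^ n = 1` gives `2 ^ n = 1` in `ZMod 5`); `Rat.eight_dvd`. -/
theorem Md.eight_dvd (h : Md ρ) (h5 : r = 5) : 8 ∣ Nat.card H := by
  obtain ⟨v, v0⟩ := h.nt
  obtain ⟨g, e⟩ := StepC.two h h5 v
  exact h.rat.eight_dvd (StepC.four h5 v0 e (pow_orderOf_eq_one g))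

/-- `N = normalClosure {a}` is abelian of exponent three (`Md.mem_core3`, `Qd.conj_comm`, closure induction).  `¬ 8 ∣ cz z`
(`Zz.not_eight`), so `¬ 16 ∣ |H|` (`Rat.not_sixteen`) and the Sylow 2-subgroups have order 8 (`Md.eight_dvd`).  Take `v` from
`exists_max`, `g v = 2 v` (`ep` with `t = 1`), `y` the 2-part of `g` (`y = g ^ k` with `k` the odd part of the order), `y v = 2 ^ k v`,
`w = y * y`, `w v = - v`, `w ≠ 1`.  Let `S` be a Sylow 2-subgroup containing `y`, and `z' = g z g⁻¹ ∈ S`, `a' = g a g⁻¹` (`Zz.conj`).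
`w` is central in `S` (`sq_comm_of_eight`), so `w a' w⁻¹ = a'` or `a'⁻¹` (`Zz.inv_or`).  In the first case `w = a' ^ i z' ^ j` is a
2-element, so `w = w ^ 9 = z' ^ j`, `w = z'`, `S ≤ C(z')`, `8 ∣ cz z' = cz z`: no.  In the second case `a'⁻¹ v = a' v`, so
`a' v = a' ^ 4 v = v`, against `Qd.fpf`. -/
theorem Md.stepC (h : Md ρ) (h5 : r = 5) (h23 : ∀ p : ℕ, p.Prime → p ∣ Nat.card H → p = 2 ∨ p = 3) {a z : H}
    (hz : Zz a z) (hq : Qd ρ a) : False := by
  have : Fact (Nat.Prime 2) := ⟨Nat.prime_two⟩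
  have cc := hq.conj_comm h.inj h.cop (h.mem_core3 h5.ge h23 hz hq)
  have a3 : a ^ 3 = 1 := by rw [← hz.a3, pow_orderOf_eq_one]
  have cj : ∀ x ∈ Group.conjugatesOfSet ({a} : Set H), ∃ g : H, x = g * a * g⁻¹ := fun x hx => by
    obtain ⟨_, rfl, e⟩ := Group.mem_conjugatesOfSet_iff.1 hx
    obtain ⟨g, rfl⟩ := isConj_iff.1 e
    exact ⟨g, rfl⟩
  have c1 : normalClosure {a} ≤ centralizer (Group.conjugatesOfSet ({a} : Set H)) := (closure_le _).2 fun x hx y hy => by
    obtain ⟨g, rfl⟩ := cj x hx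
    obtain ⟨k, rfl⟩ := cj y hy
    exact cc k g
  have c2 : normalClosure {a} ≤ centralizer (normalClosure {a} : Subgroup H) :=
    (closure_le _).2 fun x hx y hy => (c1 hy x hx).symm
  have cm : ∀ x ∈ normalClosure {a}, ∀ y ∈ normalClosure ({a} : Set H), x * y = y * x := fun x hx y hy => c2 hy x hx
  have e3 : ∀ x ∈ normalClosure ({a} : Set H), x ^ 3 = 1 := fun x hx => by
    induction hx using closure_induction with
    | mem x hx =>
      obtain ⟨g, rfl⟩ := cj x hx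
      rw [conj_pow, a3, mul_one, mul_inv_cancel]
    | one => exact one_pow 3
    | mul x y hx hy ex ey => rw [(show Commute x y from cm x hx y hy).mul_pow, ex, ey, one_mul]
    | inv x _ ex => rw [inv_pow, ex, inv_one]
  have n8 := hz.not_eight fun g => by simpa using cc 1 g
  have zp : ∃ k : ℕ, orderOf z = 2 ^ k := by
    obtain ⟨k, -, e⟩ := (Nat.dvd_prime_pow Nat.prime_two (m := 1)).1
      (orderOf_dvd_of_pow_eq_one (show z ^ 2 ^ 1 = 1 by rw [pow_one, pow_two, hz.z2]))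
    exact ⟨k, e⟩
  have n16 := h.rat.not_sixteen zp n8
  have d8 := h.eight_dvd h5
  obtain ⟨v, v0, hv⟩ := exists_max (ρ := ρ) h.nt normalClosure_normal cm e3
  obtain ⟨g₀, e₀⟩ := StepC.two h h5 v
  obtain ⟨n, m, od, eo⟩ := Nat.exists_eq_two_pow_mul_odd (orderOf_pos g₀).ne'
  have yn : (g₀ ^ m) ^ 2 ^ n = 1 := by rw [← pow_mul, mul_comm, ← eo, pow_orderOf_eq_one]
  have w1 : g₀ ^ m * g₀ ^ m ≠ 1 := fun e => by
    have := StepC.four h5 v0 e₀ ((pow_add g₀ m m).trans e)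
    obtain ⟨k, rfl⟩ := od
    omega
  have hy := hv _ _ (StepC.pw e₀ m)
  generalize g₀ ^ m = y at yn w1 hy
  have pz : ∀ x : H, (∃ k : ℕ, x ^ 2 ^ k = 1) → ∃ S : Sylow 2 H, x ∈ (S : Subgroup H) := fun x ⟨k, hk⟩ => by
    obtain ⟨j, -, e⟩ := (Nat.dvd_prime_pow Nat.prime_two).1 (orderOf_dvd_of_pow_eq_one hk)
    obtain ⟨S, hS⟩ := (IsPGroup.of_card ((Nat.card_zpowers x).trans e)).exists_le_sylow
    exact ⟨S, hS (mem_zpowers x)⟩
  obtain ⟨S, yS⟩ := pz y ⟨n, yn⟩
  obtain ⟨Q, zQ⟩ := pz z ⟨1, by rw [pow_one, pow_two, hz.z2]⟩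
  obtain ⟨g, rfl⟩ := MulAction.exists_smul_eq H Q S
  have zS : g * z * g⁻¹ ∈ ((g • Q : Sylow 2 H) : Subgroup H) :=
    Subgroup.smul_mem_pointwise_smul z (MulAut.conj g) Q zQ
  generalize g • Q = S at yS zS
  have c8 : Nat.card S = 8 := by
    rw [S.card_eq_multiplicity]
    have h0 := (Nat.card_pos (α := H)).ne'
    have l1 := (Nat.prime_two.pow_dvd_iff_le_factorization h0 (k := 3)).1 d8
    have l2 := mt (Nat.prime_two.pow_dvd_iff_le_factorization h0 (k := 4)).2 n16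
    rw [show (Nat.card H).factorization 2 = 3 by omega]
    rfl
  have wc : ∀ s ∈ (S : Subgroup H), s * (y * y) = (y * y) * s := fun s hs =>
    congrArg Subtype.val (sq_comm_of_eight (G := S) c8 (y := ⟨y, yS⟩) (fun e => w1 (congrArg Subtype.val e)) ⟨s, hs⟩)
  have hz' := hz.conj g
  rcases hz'.inv_or (fun k => by simpa [mul_assoc] using cc g (k * g)) (wc _ zS).symm with e | e
  · have wn : (y * y) ^ 2 ^ n = 1 := by rw [← pow_two, ← pow_mul, mul_comm, pow_mul, yn, one_pow]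
    have := (Bx.two_el hz' (mul_inv_eq_iff_eq_mul.1 e) (wc _ zS).symm wn).resolve_left w1
    rw [this] at wc
    have d := card_dvd_cz wc
    rw [cz_conj, c8] at d
    exact n8 d
  · have := hy _ (normalClosure_normal.conj_mem a (subset_normalClosure (Set.mem_singleton a)) g)
    rw [e] at this
    refine v0 ((hq.conj g).fpf h5.ge v ?_)
    have b3 : (g * a * g⁻¹) ^ 3 = 1 := by rw [conj_pow, a3, mul_one, mul_inv_cancel]
    generalize g * a * g⁻¹ = b at this b3
    have bi : b⁻¹ = b * b := inv_eq_of_mul_eq_one_right (by rw [← b3, pow_succ', pow_two])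
    rw [← this, bi, map_mul, Module.End.mul_apply, ← this, ← Module.End.mul_apply, ← map_mul, mul_inv_cancel, map_one,
      Module.End.one_apply]

end CL.AH
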