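import Cfsg.Agent.FGS.AH.Rep
import Cfsg.Agent.FGS.AH.Lin
import Cfsg.Agent.FGS.AH.StepC

/-! The Frobenius group `5² : Q₈`. -/

set_option autoImplicit false

namespace CL.AH

open Subgroup Cfsg

universe u

namespace Q25x

theorem cube : ∀ x : ZMod 5, x ^ 3 = 1 → x = 1 := by decide

theorem five : (5 : ZMod 5) = 0 := by decide

/-- a real element of order three in a group of order 24 has a centralizer of order twelve -/
theorem cz12 {H : Type*} [Group H] [Finite H] (hr : Rat H) (h24 : Nat.card H = 24) {a n : H} (a3 : orderOf a = 3)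
    (n2 : orderOf n = 2) (c : n * a = a * n) : cz a = 12 := by
  classical
  have a1 : a ^ 3 = 1 := by rw [← a3, pow_orderOf_eq_one]
  have aa : a * a ≠ 1 := fun e => by
    have := orderOf_dvd_of_pow_eq_one ((pow_two a).trans e)
    rw [a3] at this
    omega
  have d1 := hr.two_mul_cz_dvd aa
  have d2 : 2 ∣ cz a := n2 ▸ orderOf_dvd_cz c
  have d3 : 3 ∣ cz a := a3 ▸ orderOf_dvd_cz rfl
  rw [h24] at d1
  have l := Nat.le_of_dvd (by norm_num) d1
  have p := cz_pos a
  by_contra n12
  have c6 : cz a = 6 := by omega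
  have k := card_conj_mul_cz a
  rw [c6, h24] at k
  let X := {y : H // ∃ g : H, g * a * g⁻¹ = y}
  let f : Function.End X := fun y => ⟨a * y * a⁻¹, by
    obtain ⟨g, e⟩ := y.2
    exact ⟨a * g, by rw [← e]; group⟩⟩
  have f3 : f ^ 3 ^ 1 = 1 := by
    funext y
    refine Subtype.ext ?_
    have : a * (a * (a * y * a⁻¹) * a⁻¹) * a⁻¹ = a ^ 3 * y * (a ^ 3)⁻¹ := by
      simp only [pow_succ, pow_zero, one_mul, mul_inv_rev, mul_assoc]
    rw [a1, one_mul, inv_one, mul_one] at this
    exact this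
  have := Fintype.ofFinite X
  have : Fact (Nat.Prime 3) := ⟨Nat.prime_three⟩
  have m := Equiv.Perm.card_fixedPoints_modEq f3
  obtain ⟨g, hg⟩ := hr.real a
  have le : zpowers a ≤ centralizer ({a} : Set H) := zpowers_le.2 (Bx.mc.2 rfl)
  have i2 : ((zpowers a).subgroupOf (centralizer ({a} : Set H))).index = 2 := by
    have := ((zpowers a).subgroupOf (centralizer ({a} : Set H))).index_mul_card
    rw [Nat.card_congr (subgroupOfEquivOfLe le).toEquiv, Nat.card_zpowers, a3] at this
    have c6' : Nat.card (centralizer ({a} : Set H)) = 6 := c6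
    omega
  have e : f.fixedPoints = {⟨a, 1, by simp⟩, ⟨a⁻¹, g, hg⟩} := by
    ext ⟨b, k, hk⟩
    simp only [Set.mem_insert_iff, Set.mem_singleton_iff]
    constructor
    · intro h
      have h1 : a * b * a⁻¹ = b := congrArg Subtype.val h
      have b3 : orderOf b = 3 := by rw [← hk, ← a3]; exact (MulAut.conj k).orderOf_eq a
      have h2 : b * b ∈ zpowers a :=
        mul_self_mem_of_index_two i2 ⟨b, Bx.mc.2 (mul_inv_eq_iff_eq_mul.1 h1).symm⟩
      have h3 : b = (b * b) ^ 2 := by
        rw [← pow_two, ← pow_mul, ← pow_mod_orderOf, b3]; simp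
      obtain ⟨i, hi⟩ := Bx.nat_pow (show b ∈ zpowers a by rw [h3]; exact pow_mem h2 2)
      rw [← pow_mod_orderOf, a3] at hi
      have l : i % 3 = 0 ∨ i % 3 = 1 ∨ i % 3 = 2 := by omega
      rcases l with l | l | l <;> rw [l] at hi
      · rw [hi, pow_zero, orderOf_one] at b3; omega
      · exact Or.inl (Subtype.ext (hi.trans (pow_one a)))
      · exact Or.inr (Subtype.ext (hi.trans (eq_inv_of_mul_eq_one_left ((pow_succ a 2).symm.trans a1))))
    · rintro (h | h) <;> rw [h] <;> exact Subtype.ext (by simp [f])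
  have e2 : Nat.card f.fixedPoints = 2 := by
    rw [e, Nat.card_coe_set_eq, Set.ncard_pair]
    intro h
    have : a = a⁻¹ := congrArg Subtype.val h
    exact aa (mul_eq_one_iff_eq_inv.2 this)
  rw [← Nat.card_eq_fintype_card, ← Nat.card_eq_fintype_card, e2, show Nat.card X = 4 by
    have : Nat.card X * 6 = 24 := k
    omega] at m
  exact absurd m (by decide)

variable {r : ℕ} [Fact r.Prime] {H : Type*} [Group H] [Finite H] {V : Type*} [AddCommGroup V]
  [Module (ZMod r) V] [Finite V] {ρ : Representation (ZMod r) H V}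

omit [Finite H] in
theorem span (h5 : r = 5) (hV : Nat.card V = 25) {g : H} {v w : V} (v0 : v ≠ 0) (w0 : w ≠ 0)
    (hv : ρ g v = (2 : ZMod r) • v) (hw : ρ g w = (3 : ZMod r) • w) :
    (∀ x y : ZMod r, x • v + y • w = 0 → x = 0 ∧ y = 0) ∧ ∀ u, ∃ x y : ZMod r, u = x • v + y • w := by
  have li : ∀ x y : ZMod r, x • v + y • w = 0 → x = 0 ∧ y = 0 := fun x y e => by
    have h1 : y • w = ρ g (x • v + y • w) - (2 : ZMod r) • (x • v + y • w) := by
      rw [map_add, map_smul, map_smul, hv, hw]; module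
    rw [e, map_zero, smul_zero, sub_zero] at h1
    rw [h1, add_zero] at e
    exact ⟨(smul_eq_zero.1 e).resolve_right v0, (smul_eq_zero.1 h1).resolve_right w0⟩
  refine ⟨li, fun u => ?_⟩
  have inj : Function.Injective fun p : ZMod r × ZMod r => p.1 • v + p.2 • w := fun p q e => by
    have e' : p.1 • v + p.2 • w = q.1 • v + q.2 • w := e
    obtain ⟨h1, h2⟩ := li (p.1 - q.1) (p.2 - q.2) (by
      rw [sub_smul, sub_smul, sub_add_sub_comm, e', sub_self])
    exact Prod.ext (sub_eq_zero.1 h1) (sub_eq_zero.1 h2)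
  obtain ⟨p, e⟩ := (inj.bijective_of_nat_card_le (by rw [hV, Nat.card_prod, Nat.card_zmod, h5])).2 u
  exact ⟨p.1, p.2, e.symm⟩

omit [Finite V] in
theorem eig (h5 : r = 5) (hr : Rat H) {g : H} {v : V} (v0 : v ≠ 0) (hv : ρ g v = (2 : ZMod r) • v) :
    ∃ w, w ≠ 0 ∧ ρ g w = (3 : ZMod r) • w := by
  have f : (5 : ZMod r) = 0 := by subst h5; exact five
  obtain ⟨k, hk⟩ := hr.real g
  refine ⟨ρ k v, fun e => v0 ?_, ?_⟩
  · have := congrArg (ρ k⁻¹) e
    rwa [← Module.End.mul_apply, ← map_mul, inv_mul_cancel, map_one, map_zero] at this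
  · have h1 : ρ k v = (2 : ZMod r) • ρ g (ρ k v) := by
      rw [← map_smul, ← map_smul, ← hv, ← Module.End.mul_apply, ← Module.End.mul_apply, ← map_mul, ← map_mul,
        mul_assoc, mul_inv_eq_iff_eq_mul.1 hk, mul_inv_cancel_left]
    conv_rhs => rw [h1, smul_smul, show (3 * 2 : ZMod r) = 1 by linear_combination f, one_smul]

end Q25x

/-- `V` has dimension two; pass to matrices (or use Cayley-Hamilton `g² - tr g • g + det g = 0`, and `tr g⁻¹ * det g = tr g`).
Every `g` is conjugate to `g⁻¹`, so `det g = ±1`, and `tr g = 0` or `det g = 1`.  `ρ g v = 2 v` gives `4 ∣ orderOf g`, so `8 ∣ |H| ≤ 24`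
(`Rat.eight_dvd`), `5 ∤ |H|`.  So each `g` is of one of the types: `ρ g = ±1` (`det = 1`, `tr = ±2`: `(g ∓ 1)² = 0`, the order of `±g`
divides 5), `ρ g² = -1` (`tr = 0`, `det = 1`), `g² = 1` with `det = -1`, or `g ^ 6 = 1` with `g² ± g + 1 = 0`.  An element with the
eigenvalue 2 has `ρ g² = -1`, `det = 1`.  (a) No `s` has `det = -1`: else `(s k)² = 1` for all `k` of determinant one, `s` inverts them, they
commute; take `g` with `ρ g² = -1`, a vector `v` that is not an eigenvector of `g` (the sum of eigenvectors for `2` and `3`; `g` is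
not scalar since `tr = 0`), `g' v = 2 v`; `(g g')² = 1` and `det = 1` give `ρ (g g') = ±1`, so `v` is an eigenvector of `g`.
(b) No `a` has order 3: else `|H| = 24`, `2 * cz a ∣ 24`, `6 ∣ cz a` (the central involution `n`, `ρ n = -1`); if `cz a = 6`, then `a` has
4 conjugates, but all elements of order three are conjugate (Sylow and `Rat.real`) and their number is `2 n₃ ∈ {2, 8}`; so `cz a = 12`,
and `C(a)` contains `s` with `s ^ 4 = 1`, `s ∉ {1, n}` (Sylow subgroup of order 4), so `ρ s² = -1`, and `s a` has order 12, which is none of the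
types.  So all elements but `1, n` have order four, and `3 |H| ≤ 4 (|H| - 2)`. -/
theorem dens_of_rep {r : ℕ} [Fact r.Prime] (h5 : r = 5) {H : Type*} [Group H] [Finite H] {V : Type*} [AddCommGroup V]
    [Module (ZMod r) V] [Finite V] (ρ : Representation (ZMod r) H V) (hV : Nat.card V = 25) (hr : Rat H)
    (hi : Function.Injective ρ) (h24 : Nat.card H ≤ 24) (hep : ∀ v : V, ∃ g : H, ρ g v = (2 : ZMod r) • v) :
    Dens H := by
  classical
  have f5 : (5 : ZMod r) = 0 := by subst h5; exact Q25x.five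
  have cu : ∀ x : ZMod r, x ^ 3 = 1 → x = 1 := by subst h5; exact Q25x.cube
  have ap : ∀ (x y : H) (u : V), ρ (x * y) u = ρ x (ρ y u) := fun x y u => by rw [map_mul, Module.End.mul_apply]
  have : Nontrivial V := Finite.one_lt_card_iff_nontrivial.1 (by omega)
  obtain ⟨v₀, v00⟩ := exists_ne (0 : V)
  obtain ⟨g₀, e₀⟩ := hep v₀
  have d8 := hr.eight_dvd (StepC.four h5 v00 e₀ (pow_orderOf_eq_one g₀))
  have hp := Nat.card_pos (α := H)
  -- no fixed vectors
  have fp : ∀ (h : H) (v : V), v ≠ 0 → ρ h v = v → h = 1 := fun h v v0 e => by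
    obtain ⟨g, hg⟩ := hep v
    obtain ⟨w, w0, hw⟩ := Q25x.eig h5 hr v0 hg
    obtain ⟨li, sp⟩ := Q25x.span h5 hV v0 w0 hg hw
    obtain ⟨u, u0, hu⟩ := Q25x.eig h5 hr v0 (g := g * h) (by rw [ap, e, hg])
    obtain ⟨x, y, rfl⟩ := sp u
    obtain ⟨α, β, hh⟩ := sp (ρ h w)
    rw [ap, map_add, map_smul, map_smul, e, hh] at hu
    simp only [map_add, map_smul, hg, hw] at hu
    obtain ⟨h1, h2⟩ := li (2 * y * α - x) (3 * y * (β - 1)) (by linear_combination (norm := module) hu)
    have y0 : y ≠ 0 := fun y0 => u0 (by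
      have : x = 0 := by rw [y0] at h1; linear_combination -h1
      rw [this, y0, zero_smul, zero_smul, add_zero])
    have b1 : β = 1 := by
      have : y * (β - 1) = 0 := by linear_combination 2 * h2 - y * (β - 1) * f5
      exact sub_eq_zero.1 ((mul_eq_zero.1 this).resolve_left y0)
    have pw : ∀ n : ℕ, ρ (h ^ n) w = ((n : ZMod r) * α) • v + w := fun n => by
      induction n with
      | zero => simp
      | succ n ih => rw [pow_succ', ap, ih, map_add, map_smul, e, hh, b1]; push_cast; module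
    have h5' : h ^ 5 = 1 := hi (LinearMap.ext fun u => by
      obtain ⟨x, y, rfl⟩ := sp u
      rw [map_add, map_smul, map_smul, pw, StepC.pw (c := 1) (by rw [e, one_smul])]
      simp [f5])
    have d5 := orderOf_dvd_of_pow_eq_one h5'
    have d := orderOf_dvd_natCard h
    rcases (Nat.dvd_prime Nat.prime_five).1 d5 with o | o
    · exact orderOf_eq_one_iff.1 o
    · rw [o] at d; omega
  -- the central involution
  have en : ∀ u, ρ (g₀ * g₀) u = -u := fun u => by
    obtain ⟨w, w0, hw⟩ := Q25x.eig h5 hr v00 e₀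
    obtain ⟨x, y, rfl⟩ := (Q25x.span h5 hV v00 w0 e₀ hw).2 u
    simp only [ap, map_add, map_smul, e₀, hw, smul_smul]
    rw [show x * 2 * 2 = -x by linear_combination x * f5, show y * 3 * 3 = -y by linear_combination 2 * y * f5]
    module
  generalize g₀ * g₀ = n at en
  have n1 : n ≠ 1 := fun e => v00 (by
    have h := en v₀
    rw [e, map_one, Module.End.one_apply] at h
    have : v₀ = (3 : ZMod r) • (v₀ - -v₀) - (5 : ZMod r) • v₀ := by module
    rw [this, f5, ← h]; simp)
  have nc : ∀ g, n * g = g * n := fun g => hi (LinearMap.ext fun u => by rw [ap, ap, en, en, map_neg])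
  have iv : ∀ s : H, s * s = 1 → s = 1 ∨ s = n := fun s h => by
    refine or_iff_not_imp_left.2 fun s1 => hi (LinearMap.ext fun u => ?_)
    by_contra c
    refine s1 (fp s (u + ρ s u) (fun e => c (by rw [en]; exact eq_neg_of_add_eq_zero_right e)) ?_)
    rw [map_add, ← ap, h, map_one, Module.End.one_apply, add_comm]
  have nn : n * n = 1 := hi (LinearMap.ext fun u => by rw [ap, en, en, neg_neg, map_one, Module.End.one_apply])
  have k2 : ∀ s a : H, ∀ v : V, v ≠ 0 → ρ s v = (2 : ZMod r) • v → s * a = a * s → a ^ 3 = 1 → a = 1 :=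
    fun s a v v0 hv c a3 => by
    obtain ⟨w, w0, hw⟩ := Q25x.eig h5 hr v0 hv
    obtain ⟨li, sp⟩ := Q25x.span h5 hV v0 w0 hv hw
    obtain ⟨x, y, e⟩ := sp (ρ a v)
    have h1 : ρ s (ρ a v) = (2 : ZMod r) • ρ a v := by rw [← ap, c, ap, hv, map_smul]
    rw [e] at h1
    simp only [map_add, map_smul, hv, hw] at h1
    have y0 := (li 0 y (by linear_combination (norm := module) h1)).2
    rw [y0, zero_smul, add_zero] at e
    have h2 := StepC.pw e 3
    rw [a3, map_one, Module.End.one_apply] at h2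
    have x1 := cu x (by
      have : (x ^ 3 - 1) • v = 0 := by rw [sub_smul, ← h2, one_smul, sub_self]
      exact sub_eq_zero.1 ((smul_eq_zero.1 this).resolve_right v0))
    exact fp a v v0 (by rw [e, x1, one_smul])
  have n3 : ¬ 3 ∣ Nat.card H := fun d3 => by
    have : Fact (Nat.Prime 3) := ⟨Nat.prime_three⟩
    have : Fact (Nat.Prime 2) := ⟨Nat.prime_two⟩
    obtain ⟨a, a3⟩ := exists_prime_orderOf_dvd_card' 3 d3
    have c12 := Q25x.cz12 hr (by omega) a3 (orderOf_eq_prime ((pow_two n).trans nn) n1) (nc a)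
    obtain ⟨K, hK⟩ := Sylow.exists_subgroup_card_pow_prime (G := centralizer ({a} : Set H)) 2 (n := 2)
      (by rw [show Nat.card (centralizer ({a} : Set H)) = 12 from c12]; norm_num)
    obtain ⟨s, hs⟩ : ∃ s : K, ¬ ((s.1 : H) = 1 ∨ (s.1 : H) = n) := by
      by_contra c
      push Not at c
      have := Nat.card_le_card_of_injective (β := ({1, n} : Set H)) (fun s : K => ⟨s.1.1, c s⟩)
        fun s t e => Subtype.ext (Subtype.ext (Subtype.mk.inj e))
      rw [Nat.card_coe_set_eq, Set.ncard_pair n1.symm] at this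
      omega
    have s4 : (s.1 : H) ^ 4 = 1 := by
      have : s ^ 4 = 1 := by rw [show 4 = 2 ^ 2 from rfl, ← hK]; exact pow_card_eq_one'
      exact congrArg (fun x : K => (x.1 : H)) this
    have sa : (s.1 : H) * a = a * s.1 := Bx.mc.1 s.1.2
    generalize (s.1 : H) = s at hs s4 sa
    have s2 : s * s = n := (iv _ (by rw [← s4]; simp only [pow_succ, pow_zero, one_mul, mul_assoc])).resolve_left fun e => hs (iv s e)
    have a1 : a ≠ 1 := fun e => by rw [e, orderOf_one] at a3; omega
    have a3' : a ^ 3 = 1 := by rw [← a3, pow_orderOf_eq_one]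
    by_cases c : ρ s v₀ + (2 : ZMod r) • v₀ = 0
    · refine a1 (k2 (n * s) a v₀ v00 ?_ (by rw [mul_assoc, sa, ← mul_assoc, nc, mul_assoc]) a3')
      rw [ap, en, eq_neg_of_add_eq_zero_left c, neg_neg]
    · refine a1 (k2 s a _ c ?_ sa a3')
      rw [map_add, map_smul, ← ap, s2, en]
      have : (5 : ZMod r) • v₀ = 0 := by rw [f5, zero_smul]
      linear_combination (norm := module) -this
  have sub : ({1, n}ᶜ : Set H) ⊆ {g | 4 ∣ orderOf g} := fun g hg => by
    have d : orderOf g ∣ 2 ^ 4 := (orderOf_dvd_natCard g).trans (by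
      obtain ⟨m, e⟩ := d8
      have : m = 1 ∨ m = 2 := by omega
      rcases this with rfl | rfl <;> rw [e] <;> norm_num)
    obtain ⟨k, -, e⟩ := (Nat.dvd_prime_pow Nat.prime_two).1 d
    by_contra c
    have k1 : k ≤ 1 := by
      by_contra l
      exact c (show 4 ∣ orderOf g from e ▸ (pow_dvd_pow 2 (by omega) : 2 ^ 2 ∣ 2 ^ k))
    exact hg (iv g ((pow_two g).symm.trans (orderOf_dvd_iff_pow_eq_one.1 (e ▸ (pow_dvd_pow 2 k1 : 2 ^ k ∣ 2 ^ 1)))))
  have l1 := Set.ncard_le_ncard sub
  have l2 := Set.ncard_add_ncard_compl ({1, n} : Set H)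
  rw [Set.ncard_pair n1.symm] at l2
  have l3 : Nat.card {g : H // 4 ∣ orderOf g} = {g : H | 4 ∣ orderOf g}.ncard := Nat.card_coe_set_eq _
  have := Nat.le_of_dvd hp d8
  unfold Dens
  omega

/-- the preimage of `{y | 4 ∣ orderOf y}` has `|ker π|` times as many elements, and `orderOf (π x) ∣ orderOf x` -/
theorem Dens.of_map {G : Type*} [Group G] [Finite G] {H : Type*} [Group H] (π : G →* H) (hπ : Function.Surjective π)
    (h : Dens H) : Dens G := by
  have e := π.ker.index_mul_card
  rw [index_ker, MonoidHom.range_eq_top.2 hπ, card_top] at e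
  have hs := Function.surjInv_eq hπ
  have p : ∀ (k : π.ker) (y : H), π (k * Function.surjInv hπ y) = y := fun k y => by
    rw [map_mul, k.2, one_mul, hs]
  have l := Nat.card_le_card_of_injective (α := {y : H // 4 ∣ orderOf y} × π.ker) (β := {g : G // 4 ∣ orderOf g})
    (fun q => ⟨q.2 * Function.surjInv hπ q.1, by
      have := orderOf_map_dvd π (q.2 * Function.surjInv hπ q.1)
      rw [p] at this
      exact q.1.2.trans this⟩) fun q q' e => by
      have e1 : (q.2 : G) * Function.surjInv hπ q.1 = q'.2 * Function.surjInv hπ q'.1 := congrArg Subtype.val e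
      have e2 : (q.1 : H) = q'.1 := by rw [← p q.2 q.1, e1, p]
      rw [e2] at e1
      exact Prod.ext (Subtype.ext e2) (Subtype.ext (mul_right_cancel e1))
  rw [Nat.card_prod] at l
  unfold Dens at h ⊢
  rw [← e]
  calc 3 * (Nat.card H * Nat.card π.ker) = 3 * Nat.card H * Nat.card π.ker := by ring
    _ ≤ 4 * Nat.card {y : H // 4 ∣ orderOf y} * Nat.card π.ker := Nat.mul_le_mul_right _ h
    _ ≤ _ := by rw [mul_assoc]; exact Nat.mul_le_mul_left _ l

/-- `σ` from `exists_rep`; `σ.ker = N` (it centralizes `y`), `H = G ⧸ σ.ker`, `ρ = QuotientGroup.kerLift σ`.  `cz y = 25`, the class of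
`y` lies in `N` and does not contain both `y` and `1` unless `y = 1`; so `|G| ≤ 24 * 25` (`card_conj_mul_cz`), `|H| ≤ 24`.
`hep`: `Rat` with `m = 2`. -/
theorem q25 {G : Type u} [Group G] [Finite G] (hr : Rat G) (N : Subgroup G) [N.Normal]
    (hc : ∀ a ∈ N, ∀ b ∈ N, a * b = b * a) (hp : ∀ a ∈ N, a ^ 5 = 1) (h25 : Nat.card N = 25) {y : G} (hy : y ∈ N)
    (hle : ∀ g : G, g * y = y * g → g ∈ N) : Dens G := by
  have : Fact (Nat.Prime 5) := ⟨Nat.prime_five⟩
  obtain ⟨V, _, _, _, σ, e, ei, eN, es, e0, ea, en, eσ⟩ := exists_rep (p := 5) N hc hp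
  have le : N ≤ σ.ker := fun a ha => by
    ext v
    exact ei (by rw [eσ, hc a ha _ (eN v), mul_inv_cancel_right]; rfl)
  let ρ : Representation (ZMod 5) (G ⧸ σ.ker) V := QuotientGroup.lift σ.ker σ le_rfl
  have hρ : ∀ g : G, ρ (g : G ⧸ σ.ker) = σ g := fun _ => rfl
  have hV : Nat.card V = 25 := by
    rw [← h25]
    exact Nat.card_congr (Equiv.ofBijective (fun v => ⟨e v, eN v⟩)
      ⟨fun v w k => ei (congrArg Subtype.val k), fun a => (es a a.2).imp fun v k => Subtype.ext k⟩)
  have hr' := hr.map _ (QuotientGroup.mk'_surjective σ.ker)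
  have hep : ∀ v : V, ∃ g : G ⧸ σ.ker, ρ g v = (2 : ZMod 5) • v := fun v => by
    obtain ⟨g, hg⟩ := hr (e v) 2 (Nat.Coprime.coprime_dvd_right (orderOf_dvd_of_pow_eq_one (hp _ (eN v))) (by norm_num))
    exact ⟨g, ei (by rw [hρ, eσ, hg, ← en]; rfl)⟩
  refine Dens.of_map _ (QuotientGroup.mk'_surjective σ.ker) (dens_of_rep rfl ρ hV hr'
    ((injective_iff_map_eq_one _).2 fun g k => ?_) ?_ hep)
  · obtain ⟨g, rfl⟩ := QuotientGroup.mk_surjective g
    exact (QuotientGroup.eq_one_iff g).2 k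
  · have : Nontrivial V := Finite.one_lt_card_iff_nontrivial.1 (by omega)
    obtain ⟨v, v0⟩ := exists_ne (0 : V)
    obtain ⟨g, hg⟩ := hep v
    have d8 := hr'.eight_dvd (StepC.four rfl v0 hg (pow_orderOf_eq_one g))
    have h1 := card_conj_mul_cz y
    have h2 : cz y ≤ 25 := h25 ▸ card_le_of_le fun g hg => hle g (Bx.mc.1 hg)
    have h3 : Nat.card {x : G // ∃ g : G, g * y * g⁻¹ = x} ≤ 25 := h25 ▸ Nat.card_le_card_of_injective (β := N)
      (fun x => ⟨x.1, by obtain ⟨g, e⟩ := x.2; exact e ▸ Normal.conj_mem inferInstance y hy g⟩)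
      fun x x' k => Subtype.ext (Subtype.mk.inj k)
    have h4 := card_eq_card_quotient_mul_card_subgroup σ.ker
    have h5 : 25 ≤ Nat.card σ.ker := h25 ▸ card_le_of_le le
    have h6 := Nat.mul_le_mul h3 h2
    have h7 := Nat.mul_le_mul_left (Nat.card (G ⧸ σ.ker)) h5
    omega

end CL.AH
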