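import Cfsg.Agent.FGS.AH.Lin

/-! A quadratic element with small centralizer: the normal 2-subgroups. -/

set_option autoImplicit false
set_option linter.unusedSectionVars false
set_option linter.unusedSimpArgs false

namespace CL.AH

open Subgroup Cfsg

/-- No rational group has a normal self-centralizing `Q₈` with an element of order three.  Write `k = i j`.
`s a s⁻¹ = a⁻¹` (`Rat.real`).  `a` permutes `±i → ±j → ±k → ±i`; replacing `s` by `s a ^ m` we get `s i s⁻¹ = ±i`; then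
`s j s⁻¹ = s a i a⁻¹ s⁻¹ = a⁻¹ (±i) a = ±k`.  `s²` commutes with `a` and `i`, so `s² ∈ {1, n}` (`hca`).  `u = s j` has
`u² = (s j s⁻¹) s² j = ±i`, `u ^ 4 = n`, order 8.  `g u g⁻¹ = u ^ 5 = n u` for some `g`; `g` commutes with `u²`, so with `i`;
`g j g⁻¹ ∈ {±j, ±k}` (it does not commute with `i`), and `u ^ m j u ^ (-m)` runs through these four elements; so
`u ^ (-m) g` commutes with `i` and `j`, lies in `{1, n}`, and `g` commutes with `u`. -/
theorem no_q8 {H : Type*} [Group H] [Finite H] (hr : Rat H) {n i j a : H} (n1 : n ≠ 1) (n2 : n * n = 1)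
    (nc : ∀ g : H, g * n = n * g) (i2 : i * i = n) (j2 : j * j = n) (ij : i * j = n * (j * i))
    (hq : ∀ g x : H, x = i ∨ x = j → ∃ y : H, (y = i ∨ y = j ∨ y = i * j) ∧ (g * x * g⁻¹ = y ∨ g * x * g⁻¹ = n * y))
    (hc : ∀ g : H, g * i = i * g → g * j = j * g → g = 1 ∨ g = n) (a3 : a ^ 3 = 1) (ai : a * i * a⁻¹ = j)
    (aj : a * j * a⁻¹ = n * (i * j)) (hca : ∀ g : H, g * a = a * g → ∃ m : ℕ, g = a ^ m ∨ g = n * a ^ m) : False := by
  have ji : j * i = n * (i * j) := by rw [ij, ← mul_assoc, n2, one_mul]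
  have ni : n⁻¹ = n := inv_eq_of_mul_eq_one_right n2
  have ii : i⁻¹ = n * i := inv_eq_of_mul_eq_one_right (by rw [← mul_assoc, nc, mul_assoc, i2, n2])
  have jj : j⁻¹ = n * j := inv_eq_of_mul_eq_one_right (by rw [← mul_assoc, nc, mul_assoc, j2, n2])
  have r1 : ∀ x, j * (i * x) = n * (i * (j * x)) := fun x => by rw [← mul_assoc, ji]; group
  have r2 : ∀ x, i * (i * x) = n * x := fun x => by rw [← mul_assoc, i2]
  have r3 : ∀ x, j * (j * x) = n * x := fun x => by rw [← mul_assoc, j2]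
  have r4 : ∀ x, n * (n * x) = x := fun x => by rw [← mul_assoc, n2, one_mul]
  have r5 : ∀ x, i * (n * x) = n * (i * x) := fun x => by rw [← mul_assoc, nc, mul_assoc]
  have r6 : ∀ x, j * (n * x) = n * (j * x) := fun x => by rw [← mul_assoc, nc, mul_assoc]
  have cn : ∀ g x : H, g * (n * x) * g⁻¹ = n * (g * x * g⁻¹) := fun g x => by
    rw [← mul_assoc, nc]; group
  have cm : ∀ g x y : H, g * (x * y) * g⁻¹ = (g * x * g⁻¹) * (g * y * g⁻¹) := fun g x y => by group
  have cc : ∀ g k x : H, (g * k) * x * (g * k)⁻¹ = g * (k * x * k⁻¹) * g⁻¹ := fun g x y => by group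
  have ak : a * (i * j) * a⁻¹ = n * i := by
    rw [cm, ai, aj]
    simp only [r1, r2, r3, r4, r5, r6, j2, nc i]
  obtain ⟨s, hs, si⟩ : ∃ s : H, s * a * s⁻¹ = a⁻¹ ∧ (s * i * s⁻¹ = i ∨ s * i * s⁻¹ = n * i) := by
    obtain ⟨s, hs⟩ := hr.real a
    have h1 : (a * s) * a * (a * s)⁻¹ = a⁻¹ := by rw [cc, hs]; group
    have h2 : (a * (a * s)) * a * (a * (a * s))⁻¹ = a⁻¹ := by rw [cc, h1]; group
    obtain ⟨y, rfl | rfl | rfl, e | e⟩ := hq s i (.inl rfl)
    · exact ⟨s, hs, .inl e⟩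
    · exact ⟨s, hs, .inr e⟩
    · exact ⟨_, h2, .inl (by rw [cc, cc, e, aj, cn, ak, r4])⟩
    · exact ⟨_, h2, .inr (by rw [cc, cc, e, cn, aj, r4, ak])⟩
    · exact ⟨_, h1, .inr (by rw [cc, e, ak])⟩
    · exact ⟨_, h1, .inl (by rw [cc, e, cn, ak, r4])⟩
  have ai' : a⁻¹ * i * a = n * (i * j) := by
    have := cn a⁻¹ i
    rw [inv_inv, ← ak] at this
    rw [← r4 (a⁻¹ * i * a), ← this]
    group
  have sj0 : s * j * s⁻¹ = a⁻¹ * (s * i * s⁻¹) * a := by
    rw [← ai, cm, cm, hs, show s * a⁻¹ * s⁻¹ = (s * a * s⁻¹)⁻¹ by group, hs, inv_inv]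
  have sj : s * j * s⁻¹ = i * j ∨ s * j * s⁻¹ = n * (i * j) := by
    rcases si with e | e
    · right; rw [sj0, e, ai']
    · left
      have := cn a⁻¹ i
      rw [inv_inv] at this
      rw [sj0, e, this, ai', r4]
  have s2i : s * s * i * (s * s)⁻¹ = i := by
    rcases si with e | e
    · rw [cc, e, e]
    · rw [cc, e, cn, e, r4]
  have s2a : s * s * a * (s * s)⁻¹ = a := by
    rw [cc, hs, show s * a⁻¹ * s⁻¹ = (s * a * s⁻¹)⁻¹ by group, hs, inv_inv]
  have s2 : s * s = 1 ∨ s * s = n := hc _ (mul_inv_eq_iff_eq_mul.1 s2i) (mul_inv_eq_iff_eq_mul.1 (by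
    rw [← ai, cm, cm, s2a, s2i, show s * s * a⁻¹ * (s * s)⁻¹ = (s * s * a * (s * s)⁻¹)⁻¹ by simp only [mul_inv_rev, inv_inv, mul_assoc], s2a]))
  obtain ⟨u, uj, u2⟩ : ∃ u : H, (u * j * u⁻¹ = i * j ∨ u * j * u⁻¹ = n * (i * j)) ∧ (u * u = i ∨ u * u = n * i) := by
    refine ⟨s * j, by rwa [cc, mul_inv_cancel_right], ?_⟩
    rw [show s * j * (s * j) = (s * j * s⁻¹) * ((s * s) * j) by group]
    rcases sj with e | e <;> rcases s2 with e' | e' <;> rw [e, e'] <;>
      simp only [mul_assoc, one_mul, r1, r2, r3, r4, r5, r6, j2, nc i, n2, mul_one, true_or, or_true]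
  have u4 : u ^ 4 = n := by
    rw [show u ^ 4 = (u * u) * (u * u) by simp only [pow_succ, pow_zero, one_mul, mul_assoc]]
    rcases u2 with e | e <;> rw [e] <;> simp only [mul_assoc, r2, r4, r5, i2]
  have ui : u * i * u⁻¹ = i := by
    have : u * (u * u) * u⁻¹ = u * u := by group
    rcases u2 with e | e <;> rw [e] at this
    · exact this
    · rw [cn] at this
      exact mul_left_cancel this
  obtain ⟨g, hg⟩ := hr u 5 (Nat.Coprime.coprime_dvd_right (orderOf_dvd_of_pow_eq_one (n := 8) (by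
    rw [show 8 = 4 * 2 by norm_num, pow_mul, u4, pow_two, n2])) (by norm_num))
  rw [pow_succ, u4] at hg
  have gi : g * i * g⁻¹ = i := by
    have : g * (u * u) * g⁻¹ = u * u := by
      rw [cm, hg, mul_assoc, ← mul_assoc u n, nc u, mul_assoc, r4]
    rcases u2 with e | e <;> rw [e] at this
    · exact this
    · rw [cn] at this
      exact mul_left_cancel this
  have fin : ∀ w : H, w * u = u * w → w * i * w⁻¹ = i → w * j * w⁻¹ = g * j * g⁻¹ → False := fun w wu wi wj => by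
    have c1 : w⁻¹ * g * i = i * (w⁻¹ * g) := by
      rw [← mul_inv_eq_iff_eq_mul, cc, gi]
      conv_lhs => rw [← wi]
      group
    have c2 : w⁻¹ * g * j = j * (w⁻¹ * g) := by
      rw [← mul_inv_eq_iff_eq_mul, cc, ← wj]
      group
    have : g * u * g⁻¹ = u := by
      rcases hc _ c1 c2 with e | e
      · rw [inv_mul_eq_one] at e
        rw [← e, wu, mul_inv_cancel_right]
      · rw [inv_mul_eq_iff_eq_mul] at e
        rw [e, cc, ← nc u, mul_inv_cancel_right, wu, mul_inv_cancel_right]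
    rw [hg] at this
    exact n1 (mul_eq_right.1 this)
  have uu : u * u * i * (u * u)⁻¹ = i := by rw [cc, ui, ui]
  have uuj : u * u * j * (u * u)⁻¹ = n * j := by
    rcases u2 with e | e <;> rw [e] <;>
      simp only [mul_inv_rev, ii, ni, mul_assoc, r1, r2, r3, r4, r5, r6, ji, i2, nc i, nc j, n2, mul_one]
  have u3 : u * (u * u) * j * (u * (u * u))⁻¹ = n * (u * j * u⁻¹) := by rw [cc, uuj, cn]
  have u3i : u * (u * u) * i * (u * (u * u))⁻¹ = i := by rw [cc, uu, ui]
  have bad : ∀ ε : H, ε = 1 ∨ ε = n → g * j * g⁻¹ ≠ ε * i := fun ε hε e => by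
    have : j = ε * i := by
      rcases hε with rfl | rfl
      · rw [one_mul, ← gi] at e
        simpa using e
      · rw [← gi, ← cn] at e
        simpa using e
    have k := ij
    rcases hε with rfl | rfl
    · rw [this, one_mul] at k
      exact n1 (mul_eq_right.1 k.symm)
    · rw [this, mul_assoc, r5] at k
      exact n1 (mul_eq_right.1 k.symm)
  obtain ⟨y, rfl | rfl | rfl, e | e⟩ := hq g j (.inr rfl)
  · exact bad 1 (.inl rfl) (by rwa [one_mul])
  · exact bad n (.inr rfl) e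
  · exact fin 1 (by simp) (by simp) (by simpa using e.symm)
  · exact fin (u * u) (by group) uu (by rw [uuj, e])
  · rcases uj with e' | e'
    · exact fin u rfl ui (by rw [e, e'])
    · exact fin (u * (u * u)) (by group) u3i (by rw [u3, e, e', r4])
  · rcases uj with e' | e'
    · exact fin (u * (u * u)) (by group) u3i (by rw [u3, e, e'])
    · exact fin u rfl ui (by rw [e, e'])

variable {r : ℕ} [Fact r.Prime] {H : Type*} [Group H] [Finite H] {V : Type*} [AddCommGroup V] [Module (ZMod r) V]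
  [Finite V] {ρ : Representation (ZMod r) H V} {B : V →ₗ[ZMod r] V →ₗ[ZMod r] ZMod r}

/-- `Qd.cent` gives `A ≤ C(a)`, so `|A| ≤ 2` (`Zz.not_four`, `card_dvd_cz`); a normal subgroup of order two is central; `Md.pm`. -/
theorem Md.stepA (h : Md ρ) {a z : H} (hz : Zz a z) (hq : Qd ρ a) {A : Subgroup H} (hn : A.Normal) (h2 : IsPGroup 2 A)
    (hA : ∀ x ∈ A, ∀ y ∈ A, x * y = y * x) : ∀ x ∈ A, Pm ρ x := by
  have := Fact.mk Nat.prime_two
  have c := hq.cent h.inj h.cop hA fun x hx => hn.conj_mem x hx a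
  have d : Nat.card A ∣ cz a := card_dvd_cz fun k hk => (c k hk).symm
  obtain ⟨k, hk⟩ := IsPGroup.iff_card.1 h2
  have d2 : Nat.card A = 1 ∨ Nat.card A = 2 := by
    rcases k with _ | _ | k
    · exact .inl (by simpa using hk)
    · exact .inr (by simpa using hk)
    · exact absurd (Dvd.dvd.trans ⟨2 ^ k, by rw [hk]; ring⟩ d) hz.not_four
  intro x hx
  by_cases x1 : x = 1
  · exact .inl (by rw [x1, map_one])
  rcases d2 with e | e
  · exact absurd (by rw [card_eq_one.1 e] at hx; exact hx) x1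
  obtain ⟨y, -, hy⟩ := (Nat.card_eq_two_iff' (1 : A)).1 e
  have u : ∀ w, w ∈ A → w ≠ 1 → w = x := fun w hw w1 =>
    congrArg Subtype.val ((hy ⟨w, hw⟩ fun e => w1 (congrArg Subtype.val e)).trans
      (hy ⟨x, hx⟩ fun e => x1 (congrArg Subtype.val e)).symm)
  refine h.pm ?_ fun g => ?_
  · rw [mul_eq_one_iff_eq_inv]
    exact (u _ (inv_mem hx) (inv_ne_one.2 x1)).symm
  · rw [← mul_inv_eq_iff_eq_mul]
    refine u _ (hn.conj_mem x hx g) fun e => x1 ?_
    simpa using e

/-- Let `Z = {g | Pm ρ g}` (a central subgroup).  Suppose `E ≰ Z`; let `D` be the last term of the derived series of `E` (normal in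
`H`) not inside `Z`, so `⁅D, D⁆ ≤ Z`.  `D` is not abelian (`stepA`), so some commutator `n ∈ D` has `ρ n = -1`, `Z = {1, n}`;
`n ∈ C(a) ⊓ C(z)` is an involution, so `n = z` and `C(a) = ⟨a, n⟩`, `C(a) ⊓ D = Z`.  The centre of `D` lies in `Z` (`stepA`) and
contains all squares.  Take `e ∈ D \ Z`, `i = e a e⁻¹ a⁻¹ ∈ D`, `j = a i a⁻¹`, `l = a j a⁻¹`; `(i a)³ = 1` gives `i j l = 1`.
`i ∉ Z` (`i = 1` gives `e ∈ C(a)`, `i = n` gives `(n a)³ = n`).  If `i, j` commute, `closure {i, j}` is abelian and normalized by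
`a`, so `i ∈ C(a)` (`Qd.cent`): no.  So `i j = n j i`; `j² = l² = i² ∈ Z`, `(i j)² = n` and `(i j)² = l⁻² = i²`.  `Qd.rel`:
`ρ i (1 - ρ j) ρ a = -(1 - ρ i ρ j)` with `(1 + ρ j)(1 - ρ j) = 2`: an element commuting with `i` and `j` commutes with `a`, so it
lies in `⟨a, n⟩` and then in `Z`.  Every `d ∈ D` commutes with `i, j` after multiplication by `1, i, j` or `i j`; so
`D = Z {1, i, j, i j}` and `no_q8` applies (a conjugate of `i` is not in `Z`). -/
theorem Md.stepB (h : Md ρ) (h5 : 5 ≤ r) {a z : H} (hz : Zz a z) (hq : Qd ρ a) {E : Subgroup H} (hn : E.Normal)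
    (h2 : IsPGroup 2 E) : ∀ x ∈ E, Pm ρ x := by
  by_contra hE
  have := h.sol
  obtain ⟨D, ⟨nD, DE, hD⟩, mn⟩ := exists_minimal_of_wellFoundedLT
    (fun D : Subgroup H => D.Normal ∧ D ≤ E ∧ ¬ ∀ x ∈ D, Pm ρ x) ⟨E, hn, le_rfl, hE⟩
  have pD : IsPGroup 2 D := h2.to_le DE
  have D0 : D ≠ ⊥ := fun e => hD fun x hx => .inl (by rw [e, mem_bot] at hx; rw [hx, map_one])
  have cZ : ∀ x ∈ D, ∀ y ∈ D, Pm ρ (x * y * x⁻¹ * y⁻¹) := fun x hx y hy => by
    by_contra c
    have lt := Group.IsSolvable.commutator_lt_of_ne_bot D0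
    exact lt.not_ge (mn ⟨inferInstance, lt.le.trans DE, fun k => c (k _ (commutator_mem_commutator hx hy))⟩ lt.le)
  obtain ⟨x₀, hx₀, y₀, hy₀, ne⟩ : ∃ x ∈ D, ∃ y ∈ D, x * y ≠ y * x := by
    by_contra c
    push Not at c
    exact hD (h.stepA hz hq nD pD c)
  obtain ⟨n, n1, ρn⟩ : ∃ n : H, n ≠ 1 ∧ ρ n = -1 := by
    have n1 : x₀ * y₀ * x₀⁻¹ * y₀⁻¹ ≠ 1 := fun e => ne (by
      rw [mul_inv_eq_one, mul_inv_eq_iff_eq_mul] at e; exact e)
    exact ⟨_, n1, (cZ x₀ hx₀ y₀ hy₀).resolve_left fun e => n1 (h.inj (e.trans (map_one ρ).symm))⟩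
  have Z : ∀ g, Pm ρ g ↔ g = 1 ∨ g = n := fun g =>
    ⟨Or.imp (fun e => h.inj (e.trans (map_one ρ).symm)) fun e => h.inj (e.trans ρn.symm),
      Or.imp (fun e => by rw [e, map_one]) fun e => by rw [e, ρn]⟩
  have nc : ∀ g : H, g * n = n * g := Pm.comm h.inj (.inr ρn)
  have n2 : n * n = 1 := h.inj (by rw [map_mul, ρn, map_one]; simp)
  have a3 : a ^ 3 = 1 := hz.a3 ▸ pow_orderOf_eq_one a
  have a4 : ∀ m : ℕ, (a ^ m) ^ 4 = a ^ m := fun m => by
    rw [pow_succ, ← pow_mul, mul_comm m, pow_mul, a3, one_pow, one_mul]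
  have zp : ∀ (t : H), t * t = 1 → ∀ m : ℕ, t ^ m = 1 ∨ t ^ m = t := fun t t2 m => by
    induction m with
    | zero => simp
    | succ m ih => rcases ih with e | e <;> rw [pow_succ, e] <;> simp [t2]
  have n4 : n ^ 4 = 1 := by rw [show n ^ 4 = (n * n) * (n * n) by simp only [pow_succ, pow_zero, one_mul, mul_assoc], n2, one_mul]
  have zn : z = n := by
    obtain ⟨i, j, e⟩ := hz.le n (nc a).symm (nc z).symm
    have z4 : z ^ 4 = 1 := by
      rw [show z ^ 4 = (z * z) * (z * z) by simp only [pow_succ, pow_zero, one_mul, mul_assoc], hz.z2, one_mul]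
    rcases zp z hz.z2 j with e' | e' <;> rw [e'] at e
    · rw [mul_one] at e
      exact absurd (by rw [e, ← a4, ← e, n4]) n1
    · have : a ^ i = 1 := by
        have k := n4
        rwa [e, ((show Commute z a from hz.cm).symm.pow_left i).mul_pow, z4, mul_one, a4] at k
      rw [e, this, one_mul]
  have hca : ∀ g : H, g * a = a * g → ∃ m : ℕ, g = a ^ m ∨ g = n * a ^ m := fun g hg => by
    obtain ⟨i, j, e⟩ := hz.le g hg (zn ▸ nc g)
    refine ⟨i, ?_⟩
    rcases zp z hz.z2 j with e' | e' <;> rw [e'] at e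
    · exact .inl (by rwa [mul_one] at e)
    · exact .inr (by rw [e, zn, nc])
  have cm : ∀ x ∈ D, ∀ y ∈ D, x * y = y * x ∨ x * y = n * (y * x) := fun x hx y hy =>
    ((Z _).1 (cZ x hx y hy)).imp (fun e => by rw [mul_inv_eq_one, mul_inv_eq_iff_eq_mul] at e; exact e)
      fun e => by rw [← e]; group
  have r4 : ∀ x, n * (n * x) = x := fun x => by rw [← mul_assoc, n2, one_mul]
  have r5 : ∀ g x, g * (n * x) = n * (g * x) := fun g x => by rw [← mul_assoc, nc, mul_assoc]
  have sq : ∀ d ∈ D, d * d = 1 ∨ d * d = n := fun d hd => by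
    refine (Z _).1 (h.stepA hz hq (A := D ⊓ centralizer D) inferInstance (pD.to_le inf_le_left)
      (fun x hx y hy => mem_centralizer_iff.1 hy.2 x hx.1) _ ⟨mul_mem hd hd, mem_centralizer_iff.2 fun x hx => ?_⟩)
    rcases cm x hx d hd with e | e
    · rw [← mul_assoc, e, mul_assoc, e, mul_assoc]
    · rw [← mul_assoc, e, mul_assoc, mul_assoc, e, r5 d, r4, mul_assoc]
  have ca : ∀ d ∈ D, d * a = a * d → d = 1 ∨ d = n := fun d hd c => by
    have d4 : d ^ 4 = 1 := by
      rw [show d ^ 4 = (d * d) * (d * d) by simp only [pow_succ, pow_zero, one_mul, mul_assoc]]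
      rcases sq d hd with e | e <;> rw [e]
      exacts [one_mul _, n2]
    obtain ⟨m, e | e⟩ := hca d c
    · exact .inl (by rw [e, ← a4, ← e, d4])
    · rw [e, (show Commute n (a ^ m) from (nc _).symm).mul_pow, n4, one_mul, a4] at d4
      exact .inr (by rw [e, d4, mul_one])
  obtain ⟨e, he, eZ⟩ : ∃ e ∈ D, ¬ Pm ρ e := by
    by_contra c
    push Not at c
    exact hD c
  obtain ⟨i, hi, ia⟩ : ∃ i ∈ D, i * a = e * a * e⁻¹ :=
    ⟨e * (a * e⁻¹ * a⁻¹), mul_mem he (nD.conj_mem _ (inv_mem he) a), by group⟩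
  obtain ⟨j, ai⟩ : ∃ j, a * i * a⁻¹ = j := ⟨_, rfl⟩
  have hj : j ∈ D := ai ▸ nD.conj_mem _ hi a
  have aj : a * j * a⁻¹ = (i * j)⁻¹ := by
    have : (i * a) ^ 3 = 1 := by rw [ia, conj_pow, a3]; group
    refine eq_inv_of_mul_eq_one_right ?_
    calc i * j * (a * j * a⁻¹) = (i * a) ^ 3 * (a ^ 3)⁻¹ := by
          rw [← ai]
          simp only [pow_succ, pow_zero, one_mul]
          group
      _ = 1 := by rw [this, a3]; simp
  have iZ : ¬ (i = 1 ∨ i = n) := by
    rintro (c | c)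
    · rw [c, one_mul] at ia
      exact eZ ((Z e).2 (ca e he (by rw [← mul_inv_eq_iff_eq_mul, ← ia])))
    · have jn : j = n := by rw [← ai, c, nc, mul_inv_cancel_right]
      rw [jn, c, n2, nc, mul_inv_cancel_right, inv_one] at aj
      exact n1 aj
  have ij : i * j = n * (j * i) := by
    refine (cm i hi j hj).resolve_left fun c => iZ (ca i hi ?_)
    have mi : i ∈ closure ({i, j} : Set H) := subset_closure (by simp)
    have mj : j ∈ closure ({i, j} : Set H) := subset_closure (by simp)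
    refine (hq.cent h.inj h.cop (A := closure {i, j}) (fun x hx y hy => ?_) (fun x hx => ?_) i mi).symm
    · have : closure ({i, j} : Set H) ≤ centralizer (closure ({i, j} : Set H) : Set H) := by
        rw [centralizer_closure, closure_le]
        rintro _ (rfl | rfl) <;> rintro _ (rfl | rfl)
        exacts [rfl, c.symm, c, rfl]
      exact mem_centralizer_iff.1 (this hy) x hx
    · have : closure ({i, j} : Set H) ≤ (closure ({i, j} : Set H)).comap (MulAut.conj a).toMonoidHom := by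
        rw [closure_le]
        rintro _ (rfl | rfl)
        · show a * _ * a⁻¹ ∈ Subgroup.closure _
          rwa [ai]
        · show a * _ * a⁻¹ ∈ Subgroup.closure _
          rw [aj]
          exact inv_mem (mul_mem mi mj)
      exact this hx
  have ji : j * i = n * (i * j) := by rw [ij, r4]
  have cf : ∀ (g t : H), t = 1 ∨ t = n → g * t * g⁻¹ = t := by
    rintro g t (rfl | rfl)
    · simp
    · rw [nc, mul_inv_cancel_right]
  have jj : j * j = i * i := by
    rw [← ai, ← cf a _ (sq i hi)]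
    group
  have k2 : i * j * (i * j) = n := by
    rw [show i * j * (i * j) = i * (j * i) * j by group, ji, r5, show n * (i * (i * j)) * j = n * ((i * i) * (j * j)) by group,
      jj]
    rcases sq i hi with c | c <;> rw [c]
    exacts [by simp, by rw [n2, mul_one]]
  have i2 : i * i = n := by
    have : a * (j * j) * a⁻¹ = (i * j * (i * j))⁻¹ := by
      rw [show a * (j * j) * a⁻¹ = (a * j * a⁻¹) * (a * j * a⁻¹) by group, aj]
      group
    rwa [jj, cf a _ (sq i hi), k2, inv_eq_of_mul_eq_one_right n2] at this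
  have j2 : j * j = n := jj.trans i2
  have hc : ∀ g : H, g * i = i * g → g * j = j * g → g = 1 ∨ g = n := fun g gi gj => by
    have rel := hq.rel (k := i) (ia ▸ hq.conj e)
    rw [ai] at rel
    have c1 : ρ g * ρ i = ρ i * ρ g := by rw [← map_mul, gi, map_mul]
    have c2 : ρ g * ρ j = ρ j * ρ g := by rw [← map_mul, gj, map_mul]
    have c3 : ρ j * ρ j = -1 := by rw [← map_mul, j2, ρn]
    have c4 : ρ i * ρ i = -1 := by rw [← map_mul, i2, ρn]
    have c5 : ρ g * (ρ i * ρ j) = ρ i * ρ j * ρ g := by rw [← mul_assoc, c1, mul_assoc, c2, mul_assoc]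
    have t1 : (ρ i - ρ i * ρ j) * (ρ g * ρ a - ρ a * ρ g) = 0 := by
      have e1 : (ρ i - ρ i * ρ j) * ρ a = -(1 - ρ i * ρ j) := eq_neg_of_add_eq_zero_left rel
      have e2 : (ρ i - ρ i * ρ j) * ρ g = ρ g * (ρ i - ρ i * ρ j) := by rw [sub_mul, mul_sub, c1, c5]
      rw [mul_sub, ← mul_assoc, ← mul_assoc, e2, mul_assoc, e1, mul_neg, neg_mul, mul_sub, sub_mul, c5]
      simp
    have t2 : (1 + ρ j) * (-ρ i) * (ρ i - ρ i * ρ j) = 2 := by
      have : (1 + ρ j) * (-ρ i) * (ρ i - ρ i * ρ j) = (1 + ρ j) * (-(ρ i * ρ i)) * (1 - ρ j) := by noncomm_ring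
      rw [this, c4, neg_neg, mul_one, show (1 + ρ j) * (1 - ρ j) = 1 - ρ j * ρ j by noncomm_ring, c3]
      norm_num
    have t3 : (2 : ZMod r) • (ρ g * ρ a - ρ a * ρ g) = 0 := by
      rw [two_smul, ← two_mul, ← t2, mul_assoc, t1, mul_zero]
    have h20 : (2 : ZMod r) ≠ 0 := fun c => by
      have := Nat.le_of_dvd two_pos ((ZMod.natCast_eq_zero_iff 2 r).1 (by exact_mod_cast c))
      omega
    have ga : g * a = a * g := h.inj (by
      rw [map_mul, map_mul]
      exact sub_eq_zero.1 ((smul_eq_zero.1 t3).resolve_left h20))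
    obtain ⟨m, hm⟩ := hca g ga
    have mi : Commute (a ^ m) i := by
      rcases hm with c | c
      · rw [← c]; exact gi
      · rw [c, mul_assoc, r5] at gi
        exact mul_left_cancel gi
    have na : ¬ Commute a i := fun c => iZ (ca i hi c.symm)
    have : a ^ m = 1 := by
      rw [pow_eq_pow_mod m a3] at mi ⊢
      have : m % 3 = 0 ∨ m % 3 = 1 ∨ m % 3 = 2 := by omega
      rcases this with c | c | c <;> rw [c] at mi ⊢
      · exact pow_zero a
      · exact absurd (by simpa using mi) na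
      · have := mi.pow_left 2
        rw [← pow_mul, show 2 * 2 = 3 + 1 by norm_num, pow_succ, a3, one_mul] at this
        exact absurd this na
    rwa [this, mul_one] at hm
  have out : ∀ t d : H, t * t = n → t * d = 1 ∨ t * d = n → d = t ∨ d = n * t := by
    rintro t d t2 (c | c)
    · right
      rw [← mul_left_cancel_iff (a := t), c, r5, t2, n2]
    · left
      rw [← mul_left_cancel_iff (a := t), c, t2]
  refine no_q8 h.rat n1 n2 nc i2 j2 ij (fun g x hx => ?_) hc a3 ai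
    (by rw [aj, inv_eq_iff_mul_eq_one, r5, k2, n2]) hca
  have xD : x ∈ D := by rcases hx with rfl | rfl <;> assumption
  have dZ : ¬ (g * x * g⁻¹ = 1 ∨ g * x * g⁻¹ = n) := fun c => by
    have c1 : x = 1 ∨ x = n := by
      have := cf g⁻¹ _ c
      rw [show g⁻¹ * (g * x * g⁻¹) * g⁻¹⁻¹ = x by group] at this
      rwa [← this] at c
    rcases hx with rfl | rfl
    · exact iZ c1
    · have := cf a⁻¹ _ c1
      rw [← ai, show a⁻¹ * (a * i * a⁻¹) * a⁻¹⁻¹ = i by group, ai] at this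
      exact iZ (this ▸ c1)
  have dD := nD.conj_mem x xD g
  generalize g * x * g⁻¹ = d at dZ dD ⊢
  rcases cm d dD i hi with c1 | c1 <;> rcases cm d dD j hj with c2 | c2
  · exact absurd (hc d c1 c2) dZ
  · refine ⟨i, .inl rfl, out i d i2 (hc _ ?_ ?_)⟩
    · rw [mul_assoc, c1]
    · rw [mul_assoc, c2, r5, ← mul_assoc i j, ij, mul_assoc, r4, mul_assoc]
  · refine ⟨j, .inr (.inl rfl), out j d j2 (hc _ ?_ ?_)⟩
    · rw [mul_assoc, c1, r5, ← mul_assoc j i, ji, mul_assoc, r4, mul_assoc]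
    · rw [mul_assoc, c2]
  · refine ⟨i * j, .inr (.inr rfl), out _ d k2 (hc _ ?_ ?_)⟩
    · rw [mul_assoc, c1, r5, mul_assoc i j, ← mul_assoc j i, ji, mul_assoc n, r5 i, r4]
    · rw [mul_assoc, c2, r5, ← mul_assoc j (i * j), ← mul_assoc j i, ji]
      group

end CL.AH
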