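import Cfsg.Agent.FGS.AH.StepB

/-! The case of the prime five, first part: the normal closure of `a` is abelian. -/

set_option autoImplicit false

namespace CL.AH

open Subgroup Cfsg

variable {r : ℕ} [Fact r.Prime] {H : Type*} [Group H] [Finite H] {V : Type*} [AddCommGroup V] [Module (ZMod r) V]
  [Finite V] {ρ : Representation (ZMod r) H V} {B : V →ₗ[ZMod r] V →ₗ[ZMod r] ZMod r}

/-- `O = pCore 3 H`.  (0) An element `g` centralizing `O` is `e * o` with `Pm ρ e`, `o ∈ O`: `pCore 2 H` is central (`Md.stepB`,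
`Pm.comm`), the other cores are trivial, so `g` centralizes the Fitting subgroup `pCore 2 H ⊔ O`
(`CL.fittingSubgroup_eq_iSup_pCore`, `CL.centralizer_fittingSubgroup_le`).
(1) Suppose `a ∉ O`.  `zpowers a` acts on the 3-group `O ⊓ C(z)`; if it is nontrivial there is `1 ≠ o ∈ O` commuting with `a` and `z`
(the centre of the 3-group `(O ⊓ C(z)) ⊔ zpowers a` meets the normal subgroup, or `IsPGroup.exists_fixed_point...`), `o = a ^ i z ^ j`
has order a power of 3 and `o ^ 6 = 1`, so `o = o ^ 4 = a ^ (4 i)` and `a ∈ zpowers o ≤ O`.  So `z` acts on `O` without fixed points,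
`O` is abelian (`MonoidHom.FixedPointFree.commute_all_of_involutive`), `Qd.cent` gives `a ∈ C(O)`, `a = e o`, `a = a ^ 4 = o ^ 4 ∈ O`. -/
theorem Md.mem_core3 (h : Md ρ) (h5 : 5 ≤ r) (h23 : ∀ p : ℕ, p.Prime → p ∣ Nat.card H → p = 2 ∨ p = 3) {a z : H}
    (hz : Zz a z) (hq : Qd ρ a) : a ∈ pCore 3 H := by
  classical
  have := h.sol
  have : Fact (Nat.Prime 3) := ⟨Nat.prime_three⟩
  have a3 : a ^ 3 = 1 := by rw [← hz.a3, pow_orderOf_eq_one]
  have a4 : a ^ 4 = a := by rw [pow_succ, a3, one_mul]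
  have pm := h.stepB h5 hz hq (E := pCore 2 H) inferInstance (isPGroup_pCore 2 H)
  have F : fittingSubgroup H ≤ pCore 2 H ⊔ pCore 3 H := by
    rw [fittingSubgroup_eq_iSup_pCore]
    refine iSup_le fun ⟨p, hp⟩ => ?_
    have := Fact.mk hp
    by_cases d : p ∣ Nat.card H
    · rcases h23 p hp d with rfl | rfl
      · exact le_sup_left
      · exact le_sup_right
    · exact (pCore_eq_bot_of_coprime ((Nat.Prime.coprime_iff_not_dvd hp).2 d).symm).le.trans bot_le
  by_contra na
  have pg := isPGroup_pCore 3 H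
  have nO : (pCore 3 H).Normal := inferInstance
  have fp : ∀ o ∈ pCore 3 H, o * z = z * o → o = 1 := by
    by_contra c
    push Not at c
    obtain ⟨o, ho, oz, o1⟩ := c
    let D : Subgroup H := pCore 3 H ⊓ centralizer {z}
    have cj : ∀ g : H, g * z = z * g → ∀ d ∈ D, g * d * g⁻¹ ∈ D := fun g hg d hd =>
      mem_inf.2 ⟨nO.conj_mem _ hd.1 g,
        (centralizer {z}).mul_mem ((centralizer {z}).mul_mem (Bx.mc.2 hg) hd.2) ((centralizer {z}).inv_mem (Bx.mc.2 hg))⟩
    have ai : a⁻¹ * z = z * a⁻¹ := (Commute.inv_left (show Commute a z from hz.cm.symm)).eq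
    let σ : Equiv.Perm D :=
      { toFun := fun d => ⟨a * d * a⁻¹, cj a hz.cm.symm d d.2⟩
        invFun := fun d => ⟨a⁻¹ * d * a⁻¹⁻¹, cj _ ai d d.2⟩
        left_inv := fun d => Subtype.ext (by simp only; group)
        right_inv := fun d => Subtype.ext (by simp only; group) }
    have s3 : σ ^ 3 ^ 1 = 1 := by
      ext d
      have : a * (a * (a * d * a⁻¹) * a⁻¹) * a⁻¹ = a ^ 3 * d * (a ^ 3)⁻¹ := by
        simp only [pow_succ, pow_zero, one_mul, mul_inv_rev, mul_assoc]
      rw [a3] at this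
      simpa [σ, pow_succ] using this
    have := Fintype.ofFinite D
    have nt : Nontrivial D := ⟨⟨⟨o, ho, Bx.mc.2 oz⟩, 1, fun e => o1 (congrArg Subtype.val e)⟩⟩
    have d3 : 3 ∣ Fintype.card D := by
      obtain ⟨n, hn, e⟩ := (IsPGroup.nontrivial_iff_card (pg.to_inf_left : IsPGroup 3 D)).1 nt
      rw [← Nat.card_eq_fintype_card, e]
      exact dvd_pow_self 3 hn.ne'
    obtain ⟨b, hb, b1⟩ := Equiv.Perm.exists_fixed_point_of_prime' d3 s3 (a := 1) (Subtype.ext (by simp [σ]))
    have ba : (b : H) * a = a * b := by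
      have : a * b * a⁻¹ = b := congrArg Subtype.val hb
      rw [mul_inv_eq_iff_eq_mul] at this
      exact this.symm
    obtain ⟨i, j, e⟩ := hz.le b ba (Bx.mc.1 b.2.2)
    have c : Commute a z := hz.cm.symm
    have z2 : z ^ 2 = 1 := by rw [pow_two, hz.z2]
    have b2 : (b : H) ^ 2 = a ^ (i * 2) := by
      rw [e, (c.pow_pow i j).mul_pow, ← pow_mul z, mul_comm j, pow_mul z, z2, one_pow, mul_one, pow_mul]
    have m : a ^ (i * 2) ∈ pCore 3 H := b2 ▸ pow_mem b.2.1 2
    rw [← pow_mod_orderOf a, hz.a3] at m b2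
    have l : i * 2 % 3 = 0 ∨ i * 2 % 3 = 1 ∨ i * 2 % 3 = 2 := by omega
    rcases l with l | l | l <;> rw [l] at m b2
    · obtain ⟨k, hk⟩ := pg ⟨b, b.2.1⟩
      have hk' : (b : H) ^ 3 ^ k = 1 := congrArg Subtype.val hk
      exact b1 (Subtype.ext (orderOf_eq_one_iff.1 (Nat.eq_one_of_dvd_coprimes
        (Nat.Coprime.pow_left k (by norm_num : Nat.Coprime 3 2)) (orderOf_dvd_of_pow_eq_one hk')
        (orderOf_dvd_of_pow_eq_one (b2.trans (pow_zero a))))))
    · exact na (by simpa using m)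
    · have := pow_mem m 2
      rw [← pow_mul, a4] at this
      exact na this
  have zi : z⁻¹ = z := inv_eq_of_mul_eq_one_right hz.z2
  have cm : ∀ x ∈ pCore 3 H, ∀ y ∈ pCore 3 H, x * y = y * x := by
    let φ : pCore 3 H →* pCore 3 H := (MulAut.conjNormal z : MulAut (pCore 3 H)).toMonoidHom
    have ff : MonoidHom.FixedPointFree φ := fun o ho => by
      have : z * o * z⁻¹ = o := congrArg Subtype.val ho
      rw [mul_inv_eq_iff_eq_mul] at this
      exact Subtype.ext (fp o o.2 this.symm)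
    have iv : Function.Involutive φ := fun o => Subtype.ext (by
      show z * (z * o * z⁻¹) * z⁻¹ = o
      rw [← mul_assoc, ← mul_assoc, hz.z2, mul_assoc, zi, hz.z2, one_mul, mul_one])
    intro x hx y hy
    exact congrArg Subtype.val (ff.commute_all_of_involutive iv ⟨x, hx⟩ ⟨y, hy⟩).eq
  have ac := Qd.cent h.inj h.cop hq cm fun x hx => nO.conj_mem x hx a
  have aF : a ∈ fittingSubgroup H := centralizer_fittingSubgroup_le H fun f hf => by
    obtain ⟨e, he, o, ho, rfl⟩ := mem_sup_of_normal_right.1 (F hf)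
    rw [mul_assoc, ← ac o ho, ← mul_assoc, ← mul_assoc, Pm.comm h.inj (pm e he) a]
  obtain ⟨e, he, o, ho, ea⟩ := mem_sup_of_normal_right.1 (F aF)
  have e2 : e ^ 2 = 1 := h.inj (by rcases pm e he with t | t <;> simp [map_pow, t])
  have c : Commute e o := (Pm.comm h.inj (pm e he) o).symm
  have : a = o ^ 4 := by
    rw [← a4, ← ea, c.mul_pow, show 4 = 2 * 2 from rfl, pow_mul e, e2, one_pow, one_mul]
  exact na (this ▸ pow_mem ho 4)

/-- Let `A` be a maximal abelian normal subgroup of the 3-group `O = pCore 3 H`; it is self-centralizing in `O` (S0015 or the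
library).  Every conjugate of `a` lies in `O`, is quadratic (`Qd.conj`) and normalizes `A`, so centralizes `A` (`Qd.cent`) and
lies in `A`. -/
theorem Qd.conj_comm (hi : Function.Injective ρ) (hc : ¬ r ∣ Nat.card H) {a : H} (hq : Qd ρ a) (ha : a ∈ pCore 3 H)
    (g k : H) : (g * a * g⁻¹) * (k * a * k⁻¹) = (k * a * k⁻¹) * (g * a * g⁻¹) := by
  have : Fact (Nat.Prime 3) := ⟨Nat.prime_three⟩
  have nO : (pCore 3 H).Normal := inferInstance
  have := (isPGroup_pCore 3 H).isNilpotent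
  obtain ⟨U, hU, cU, -, sc⟩ := CL.PCyc.exists_selfCentralizing_ge (⊥ : Subgroup (pCore 3 H))
  have cm : ∀ x ∈ U.map (pCore 3 H).subtype, ∀ y ∈ U.map (pCore 3 H).subtype, x * y = y * x := by
    rintro _ ⟨x, hx, rfl⟩ _ ⟨y, hy, rfl⟩
    rw [← sc] at hy
    exact congrArg Subtype.val (hy x hx)
  have mem : ∀ g : H, g * a * g⁻¹ ∈ U.map (pCore 3 H).subtype := fun g => by
    have o := nO.conj_mem a ha g
    have c := Qd.cent hi hc (hq.conj g) cm (by
      rintro _ ⟨x, hx, rfl⟩
      exact ⟨_, hU.conj_mem x hx ⟨_, o⟩, rfl⟩)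
    refine ⟨⟨_, o⟩, ?_, rfl⟩
    rw [← sc]
    exact fun x hx => Subtype.ext (c x ⟨x, hx, rfl⟩).symm
  exact cm _ (mem g) _ (mem k)

end CL.AH
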